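import Cfsg.Agent.H1.G2a

/-! `N(M)` normalizes `Q₂`. -/

set_option autoImplicit false
set_option linter.unusedSectionVars false
set_option linter.unusedVariables false

namespace Cfsg.Agent.H1.G2

open Subgroup Cfsg.Agent.H19.Gt

variable {G K : Type*} [Group G] [Finite G] [CommGroup K] {τ : K × K →* G} {u v : G} {z : K}
  {S : Sylow 2 G} {X : Subgroup G}

theorem pN_dich (h : Gz (S : Subgroup G) τ u v z) (hc : ∀ g : G, g * τ (z, z) = τ (z, z) * g) {n : G}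
    (hn : ∀ s ∈ h.M, n * s * n⁻¹ ∈ h.M) {P : Subgroup G} (hP : P ≤ h.M)
    (hi : ∀ s ∈ P, s * s = 1 → s = 1 ∨ s = τ (z, z))
    (hg : ∀ H : Subgroup G, (∀ s ∈ P, s * s = τ (z, z) → s ∈ H) → P ≤ H) :
    (∀ q ∈ P, n * q * n⁻¹ ∈ h.flp.Q) ∨ ∀ q ∈ P, n * q * n⁻¹ ∈ h.Q := by
  have ct : n * τ (z, z) * n⁻¹ = τ (z, z) := by rw [hc n, mul_inv_cancel_right]
  have sq : ∀ s : G, s * s = τ (z, z) → n * s * n⁻¹ * (n * s * n⁻¹) = τ (z, z) := fun s e => by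
    rw [← ct, ← e]; group
  by_cases hA : ∀ s ∈ P, s * s = τ (z, z) → n * s * n⁻¹ ∈ h.flp.Q
  · left
    exact fun q hq => hg (h.flp.Q.comap (MulAut.conj n).toMonoidHom) hA hq
  · right
    push Not at hA
    obtain ⟨b, hb, eb, nb⟩ := hA
    have hb' := (h.sqt (hn b (hP hb)) (sq b eb)).resolve_left nb
    refine fun q hq => hg (h.Q.comap (MulAut.conj n).toMonoidHom) (fun a ha ea => ?_) hq
    refine (h.sqt (hn a (hP ha)) (sq a ea)).resolve_left fun ha' => ?_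
    obtain ⟨e1, e2, e3⟩ := h.prodQ ha' hb' (sq a ea) (sq b eb)
    have e : n * a * n⁻¹ * (n * b * n⁻¹) = n * (a * b) * n⁻¹ := by group
    rw [e] at e1 e2 e3
    have e4 : a * b * (a * b) = 1 := by
      have : a * b * (a * b) = n⁻¹ * (n * (a * b) * n⁻¹ * (n * (a * b) * n⁻¹)) * n := by group
      rw [this, e1]; group
    rcases hi _ (mul_mem ha hb) e4 with e5 | e5
    · exact e2 (by rw [e5]; group)
    · exact e3 (by rw [e5, ct])

theorem pN_swap (h : Gz (S : Subgroup G) τ u v z) (hc : ∀ g : G, g * τ (z, z) = τ (z, z) * g) {n : G}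
    (hn : ∀ s ∈ h.M, n * s * n⁻¹ ∈ h.M) (hq : ¬ ∀ q ∈ h.Q, n * q * n⁻¹ ∈ h.Q) :
    (∀ q ∈ h.Q, n * q * n⁻¹ ∈ h.flp.Q) ∧ ∀ q ∈ h.flp.Q, n * q * n⁻¹ ∈ h.Q := by
  have ct : n * τ (z, z) * n⁻¹ = τ (z, z) := by rw [hc n, mul_inv_cancel_right]
  have h2 := (pN_dich h hc hn h.Q_le (fun s hs => h.Q_inv hs) (fun H => h.Q_gen)).resolve_right hq
  refine ⟨h2, (pN_dich h hc hn h.Q_le' (fun s hs => h.Q_inv' hs)
    (fun H hH => h.flp.Q_gen (fun s hs e => hH s hs (h.fl_t ▸ e)))).resolve_left fun h1 => ?_⟩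
  obtain ⟨a, ha, b, hb, e⟩ := h.M_eq h.yM
  have hy : n * τ (z, 1) * n⁻¹ ∈ h.flp.Q := by
    have : n * τ (z, 1) * n⁻¹ = n * a * n⁻¹ * (n * b * n⁻¹) := by rw [e]; group
    rw [this]; exact mul_mem (h1 a ha) (h2 b hb)
  have yy : τ (z, 1) * τ (z, 1) = 1 := by rw [tm, h.zz, mul_one, t1]
  have e4 : n * τ (z, 1) * n⁻¹ * (n * τ (z, 1) * n⁻¹) = 1 := by
    have : n * τ (z, 1) * n⁻¹ * (n * τ (z, 1) * n⁻¹) = n * (τ (z, 1) * τ (z, 1)) * n⁻¹ := by group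
    rw [this, yy]; group
  rcases h.Q_inv' hy e4 with e5 | e5
  · have : τ (z, 1) = 1 := by
      have : τ (z, 1) = n⁻¹ * (n * τ (z, 1) * n⁻¹) * n := by group
      rw [this, e5]; group
    exact h.z1 (h.toGs.teq1.1 this).1
  · rw [← ct, mul_left_inj, mul_right_inj] at e5
    exact h.z1 (h.toGs.teq.1 e5).2.symm

theorem pN (h : Gz (S : Subgroup G) τ u v z) (hc : ∀ g : G, g * τ (z, z) = τ (z, z) * g) {n q : G}
    (hn : ∀ s ∈ h.M, n * s * n⁻¹ ∈ h.M) (hq : q ∈ h.Q) : n * q * n⁻¹ ∈ h.Q := by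
  by_contra hnq
  have nQ : ¬ ∀ q ∈ h.Q, n * q * n⁻¹ ∈ h.Q := fun e => hnq (e q hq)
  let N : Subgroup G := normalizer (h.M : Set G)
  let H : Subgroup G := normalizer (h.Q : Set G)
  have mN : ∀ g : G, g ∈ N ↔ ∀ s ∈ h.M, g * s * g⁻¹ ∈ h.M := fun g =>
    ⟨fun e s hs => (mem_normalizer_iff.1 e s).1 hs, fun e => mem_normalizer_fintype e⟩
  have mH : ∀ g : G, g ∈ H ↔ ∀ s ∈ h.Q, g * s * g⁻¹ ∈ h.Q := fun g =>
    ⟨fun e s hs => (mem_normalizer_iff.1 e s).1 hs, fun e => mem_normalizer_fintype e⟩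
  have SH : (S : Subgroup G) ≤ H := fun s hs => (mH s).2 fun q hq => h.Q_nrm hs hq
  have SN : (S : Subgroup G) ≤ N := fun s hs => (mN s).2 fun m hm => by
    obtain ⟨a, ha, b, hb, rfl⟩ := h.M_eq hm
    have : s * (a * b) * s⁻¹ = s * a * s⁻¹ * (s * b * s⁻¹) := by group
    rw [this]
    exact mul_mem (h.Q_le' (h.flp.Q_nrm hs ha)) (h.Q_le (h.Q_nrm hs hb))
  have nH : n ∉ H := fun e => nQ ((mH n).1 e)
  have i2 : H.relIndex N = 2 := by
    refine index_eq_two_iff.2 ⟨⟨n, (mN n).2 hn⟩, fun b => ?_⟩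
    by_cases hb : (b : G) ∈ H
    · exact .inr ⟨hb, fun e => nH (by
        have e' : (b : G) * n ∈ H := e
        exact (H.mul_mem_cancel_left hb).1 e')⟩
    · refine .inl ⟨?_, hb⟩
      show (b : G) * n ∈ H
      refine (mH _).2 fun s hs => ?_
      have := (pN_swap h hc ((mN b).1 b.2) fun e => hb ((mH b).2 e)).2 _ ((pN_swap h hc hn nQ).1 s hs)
      simpa only [mul_inv_rev, mul_assoc] using this
  have d1 : H.relIndex N ∣ (S : Subgroup G).relIndex N := relIndex_dvd_of_le_left N SH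
  have d2 : (S : Subgroup G).relIndex N ∣ (S : Subgroup G).index := ⟨_, (relIndex_mul_index SN).symm⟩
  rw [i2] at d1
  exact S.not_dvd_index (d1.trans d2)

end Cfsg.Agent.H1.G2
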