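import Mathlib
import Cfsg.Agent.H22.Sub
import Cfsg.Agent.H29.ES

/-! Groups in which intersections of distinct Sylow subgroups are central in a Sylow subgroup. -/

set_option autoImplicit false

namespace Cfsg.Agent.H29

open Cfsg Cfsg.Agent.H22 Subgroup
open scoped commutatorElement

variable {G : Type*} [Group G] [Finite G] {p : ℕ} [Fact p.Prime]

theorem ci_key (hCI : ∀ S T : Sylow p G, S ≠ T → ∃ U : Sylow p G,
      (S : Subgroup G) ⊓ (T : Subgroup G) ≤ (center ↥(U : Subgroup G)).map (U : Subgroup G).subtype)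
    (S U : Sylow p G) {x : G} (hU : (U : Subgroup G) ≤ centralizer {x}) :
    x ∈ (S : Subgroup G) → (S : Subgroup G) ≤ centralizer {x} := fun hx => by
  by_contra hne
  set E : Subgroup G := (S : Subgroup G) ⊓ centralizer {x} with hE
  have hES : E < S := lt_of_le_of_ne inf_le_left fun h => hne (by rw [← h]; exact inf_le_right)
  have hEp : IsPGroup p E := S.isPGroup'.to_le inf_le_left
  obtain ⟨R, hR, hER⟩ := H18.exists_sylIn_ge hEp (inf_le_right : E ≤ centralizer {x})
  have hUs : H18.SylIn p (U : Subgroup G) (centralizer {x}) := (H18.sylIn_top U).mono hU le_top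
  have hRt : H18.SylIn p R ⊤ := (H18.sylIn_top U).of_card_le le_top hR.2 (hUs.card_eq hR).le
  obtain ⟨V, rfl⟩ := hRt.exists_sylow_top
  have hSV : S ≠ V := fun h => hne (by rw [h]; exact hR.1)
  obtain ⟨W, hW⟩ := hCI S V hSV
  rw [map_center_subtype] at hW
  have hEW : E ≤ (W : Subgroup G) ⊓ C[(W : Subgroup G)] := (le_inf inf_le_left hER).trans hW
  have hWC : (W : Subgroup G) ≤ C[E] := le_centralizer_iff.1 (hEW.trans inf_le_right)
  have hWs : H18.SylIn p (W : Subgroup G) N[E] := (H18.sylIn_top W).mono (hWC.trans (C_le_N E)) le_top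
  obtain ⟨g, hg, hle⟩ := syl_exists_le_cj hWs (inf_le_right : (S : Subgroup G) ⊓ N[E] ≤ N[E])
    (S.isPGroup'.to_le inf_le_left)
  have h1 : (S : Subgroup G) ⊓ N[E] ≤ C[E] := hle.trans (cj_le_of_mem_N (N_le_N_C E hg) hWC)
  have hxE : x ∈ E := ⟨hx, mem_centralizer_singleton_iff.2 rfl⟩
  have h2 : (S : Subgroup G) ⊓ N[E] ≤ E := fun y hy =>
    ⟨hy.1, mem_centralizer_singleton_iff.2 (mem_C.1 (h1 hy) x hxE).symm⟩
  exact absurd (pgrp_eq_of_inf_N_le S.isPGroup' hES.le h2) hES.ne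

theorem ci_inf (hCI : ∀ S T : Sylow p G, S ≠ T → ∃ U : Sylow p G,
      (S : Subgroup G) ⊓ (T : Subgroup G) ≤ (center ↥(U : Subgroup G)).map (U : Subgroup G).subtype)
    {S T : Sylow p G} (h : S ≠ T) {x : G} (hS : x ∈ (S : Subgroup G)) (hT : x ∈ (T : Subgroup G)) :
    (S : Subgroup G) ≤ centralizer {x} := by
  obtain ⟨U, hU⟩ := hCI S T h
  rw [map_center_subtype] at hU
  exact ci_key hCI S U (fun u hu => mem_centralizer_singleton_iff.2
    (mem_C.1 (hU ⟨hS, hT⟩).2 u hu)) hS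

/-- Burnside: two conjugate elements centralised by a Sylow subgroup are conjugate in its normaliser. -/
theorem burnside_elt {S : Subgroup G} (hS : H18.SylIn p S ⊤) {x g : G} (h1 : S ≤ centralizer {x})
    (h2 : S ≤ centralizer {g * x * g⁻¹}) : ∃ n ∈ N[S], n * x * n⁻¹ = g * x * g⁻¹ := by
  have h3 : H18.SylIn p (cj g S) (centralizer {g * x * g⁻¹}) := by
    rw [← cj_centralizer_singleton]; exact sylIn_cj (hS.mono h1 le_top) g
  obtain ⟨c, hc, e⟩ := syl_exists_cj_eq h3 (hS.mono h2 le_top)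
  refine ⟨c * g, mem_N_iff_cj.2 (by rw [cj_mul, e]), ?_⟩
  have := mem_centralizer_singleton_iff.1 hc
  calc c * g * x * (c * g)⁻¹ = c * (g * x * g⁻¹) * c⁻¹ := by group
    _ = _ := by rw [this]; group

omit [Finite G] in
theorem cyc_inv_eq {C : Subgroup G} [Finite C] (hC : IsCyclic C) {a b : G} (ha : a ∈ C) (hb : b ∈ C)
    (ha1 : a ≠ 1) (hb1 : b ≠ 1) (ha2 : a * a = 1) (hb2 : b * b = 1) : a = b := by
  classical
  by_contra hne
  have := Fintype.ofFinite C
  have h1 := IsCyclic.card_pow_eq_one_le (α := C) (n := 2) two_pos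
  have h2 : ({1, ⟨a, ha⟩, ⟨b, hb⟩} : Finset C) ⊆ Finset.univ.filter (fun c : C => c ^ 2 = 1) := by
    intro c hc
    simp only [Finset.mem_insert, Finset.mem_singleton] at hc
    rcases hc with rfl | rfl | rfl <;> simp [pow_two, Subtype.ext_iff, ha2, hb2]
  have h3 := Finset.card_le_card h2
  rw [Finset.card_eq_three.2 ⟨_, _, _, by simp [Subtype.ext_iff, ha1.symm], by simp [Subtype.ext_iff, hb1.symm],
    by simp [Subtype.ext_iff, hne], rfl⟩] at h3
  omega

end Cfsg.Agent.H29
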