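import Mathlib
import Cfsg.Agent.H6.Except
import Cfsg.Agent.H13.TICount

/-! Counting the irreducible characters not vanishing on an abelian CC-subgroup. -/

set_option autoImplicit false

open scoped ComplexConjugate
open Cfsg Subgroup

namespace Cfsg.Agent.H29.ExC

open Cfsg.Agent.H6 Cfsg.Agent.H13

variable {G : Type*} [Group G] [Fintype G] (T : Subgroup G)

/-- The induced generalized characters. -/
noncomputable def vv (l : T →* ℂˣ) : G → ℂ := indFun T ((fun _ => 1) - fun t => (l t : ℂ))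

/-- The action of the normalizer on the linear characters. -/
@[reducible] noncomputable def act : MulAction (normalizer (T : Set G)) (T →* ℂˣ) where
  smul g l := l.comp (T.normalizerMonoidHom g⁻¹).toMonoidHom
  one_smul l := MonoidHom.ext fun t => by
    change l (T.normalizerMonoidHom 1⁻¹ t) = _
    rw [inv_one, map_one]; rfl
  mul_smul g h l := MonoidHom.ext fun t => by
    change l (T.normalizerMonoidHom (g * h)⁻¹ t) =
      l (T.normalizerMonoidHom h⁻¹ (T.normalizerMonoidHom g⁻¹ t))
    rw [mul_inv_rev, map_mul]; rfl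

attribute [local instance] act

variable {T}

omit [Fintype G] in
theorem smul_app (g : normalizer (T : Set G)) (l : T →* ℂˣ) (t : T) :
    (g • l) t = l (T.normalizerMonoidHom g⁻¹ t) := rfl

theorem vv_gen (l : T →* ℂˣ) : IsGeneralizedCharacter G (vv T l) :=
  isGen_indFun T (isGen_sub (isGen_of_irr isIrr_one) (isGen_of_irr (isIrr_linear l)))

theorem vv_class (l : T →* ℂˣ) : IsClassFunction G (vv T l) := isClassFunction_indFun T _

theorem vv_one (l : T →* ℂˣ) : vv T l 1 = 0 := by simp [vv, indFun_one]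

omit [Fintype G] in
theorem lin_ne {l m : T →* ℂˣ} (h : l ≠ m) : (fun t => (l t : ℂ)) ≠ fun t => (m t : ℂ) :=
  fun e => h (MonoidHom.ext fun t => Units.ext (congrFun e t))

open Classical in
theorem inner_lin [Fintype T] {l m : T →* ℂˣ} (hl : l ≠ 1) (hm : m ≠ 1) :
    classInner ((fun _ => 1) - fun t => (l t : ℂ)) ((fun _ => 1) - fun t => (m t : ℂ)) =
      1 + if l = m then 1 else 0 := by
  have h1 := classInner_irr_of_ne (isIrr_linear l) (isIrr_linear 1) (lin_ne hl)
  have h2 := classInner_irr_of_ne (isIrr_linear 1) (isIrr_linear m) (lin_ne hm.symm)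
  simp only [MonoidHom.one_apply, Units.val_one] at h1 h2
  rw [classInner_sub_left, classInner_sub_right, classInner_sub_right, h1, h2, classInner_one_one]
  split_ifs with h
  · rw [h, classInner_irr_self (isIrr_linear m)]; ring
  · rw [classInner_irr_of_ne (isIrr_linear l) (isIrr_linear m) (lin_ne h)]; ring

theorem vv_const {l : T →* ℂˣ} (hl : l ≠ 1) {χ : G → ℂ} (hχ : IsClassFunction G χ) {c : ℂ}
    (h : ∀ t ∈ T, t ≠ 1 → χ t = c) : classInner (vv T l) χ = conj c := by
  haveI := Fintype.ofFinite T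
  have h1 := classInner_irr_of_ne (isIrr_linear l) (isIrr_linear 1) (lin_ne hl)
  simp only [MonoidHom.one_apply, Units.val_one] at h1
  have h2 : classInner ((fun _ => 1) - fun t => (l t : ℂ)) (fun t : T => χ t) =
      classInner ((fun _ => 1) - fun t => (l t : ℂ)) (c • fun _ => 1) := by
    rw [classInner_def, classInner_def]
    congr 1
    refine Finset.sum_congr rfl fun t _ => ?_
    by_cases ht : t = 1
    · simp [ht]
    · rw [h t t.2 fun e => ht (Subtype.ext e)]; simp
  rw [vv, classInner_indFun_left T _ hχ, h2, classInner_smul_right, classInner_sub_left, h1,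
    classInner_one_one, sub_zero, mul_one]

theorem dvd_of_vv (hT : IsCC T) {χ : G → ℂ} (hχ : IsCharacter G χ)
    (h : ∀ l : T →* ℂˣ, l ≠ 1 → classInner (vv T l) χ = 0) {n : ℕ} (hn : χ 1 = n) :
    Nat.card T ∣ n := by
  haveI := Fintype.ofFinite T
  have hr := isCharacter_restrict T hχ
  obtain ⟨k, hk⟩ := classInner_nat hr isCharacter_one
  have h1 : (fun t : T => χ t) = (k : ℂ) • regChar T := by
    refine eq_of_classInner_irr (isClassFunction_of_isCharacter hr)
      (isClassFunction_smul _ (isClassFunction_of_isCharacter isCharacter_regChar)) fun ψ hψ => ?_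
    obtain ⟨l, rfl⟩ := exists_linear_of_comm (fun a b => Subtype.ext (hT.comm b.2 a.2)) hψ
    rw [classInner_smul_left, classInner_regChar_left, ← hk]
    by_cases hl : l = 1
    · simp [hl]
    · have h2 := h l hl
      rw [vv, classInner_indFun_left T _ (isClassFunction_of_isCharacter hχ),
        classInner_eq_zero_comm] at h2
      rw [classInner_sub_right, sub_eq_zero] at h2
      simp [h2]
  have h2 := congrFun h1 1
  rw [Pi.smul_apply, regChar_one, OneMemClass.coe_one, hn, smul_eq_mul] at h2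
  exact ⟨k, by rw [mul_comm]; exact_mod_cast h2⟩

omit [Fintype G] in
theorem smul_ne_one {m : T →* ℂˣ} (hm : m ≠ 1) (g : normalizer (T : Set G)) : g • m ≠ 1 :=
  fun h => hm (by rw [← inv_smul_smul g m, h]; rfl)

theorem stab_eq (hT : IsCC T) {m : T →* ℂˣ} (hm : m ≠ 1) :
    MulAction.stabilizer (normalizer (T : Set G)) m = T.subgroupOf _ := by
  ext g
  rw [MulAction.mem_stabilizer_iff, mem_subgroupOf]
  constructor
  · intro h
    by_contra hg
    let f : T → T := fun t => T.normalizerMonoidHom g⁻¹ t * t⁻¹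
    have hf : Function.Injective f := fun a b hab => by
      have h1 : (g : G)⁻¹ * a * (g : G)⁻¹⁻¹ * (a : G)⁻¹ = (g : G)⁻¹ * b * (g : G)⁻¹⁻¹ * (b : G)⁻¹ :=
        congrArg Subtype.val hab
      by_contra hne
      refine hg (hT.mem_of_comm (T.mul_mem (T.inv_mem b.2) a.2) (fun e => hne (Subtype.ext
        (inv_mul_eq_one.mp e).symm)) ?_)
      calc (g : G) * ((b : G)⁻¹ * a) = g * (b : G)⁻¹ * a := by group
        _ = (b : G)⁻¹ * g * ((g : G)⁻¹ * b * (g : G)⁻¹⁻¹ * (b : G)⁻¹) * a := by group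
        _ = _ := by rw [← h1]; group
    refine hm (MonoidHom.ext fun t => ?_)
    obtain ⟨s, rfl⟩ := Finite.injective_iff_surjective.mp hf t
    rw [map_mul, ← smul_app, h, map_inv, mul_inv_cancel]; rfl
  · intro h
    refine MonoidHom.ext fun t => ?_
    rw [smul_app]
    congr 1
    refine Subtype.ext ?_
    change (g : G)⁻¹ * t * (g : G)⁻¹⁻¹ = t
    rw [hT.comm t.2 (T.inv_mem h)]; group

theorem vv_res (hT : IsCC T) [Fintype (normalizer (T : Set G))] (m : T →* ℂˣ) :
    (fun t : T => vv T m t) = (Nat.card T : ℂ)⁻¹ •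
      ∑ g : normalizer (T : Set G), ((fun _ => 1) - fun t => ((g • m) t : ℂ)) := by
  funext t
  rw [Pi.smul_apply, Finset.sum_apply, smul_eq_mul]
  by_cases ht : t = 1
  · simp [ht, vv_one]
  rw [vv, indFun_apply, sum_eq_sum_subgroup (normalizer (T : Set G))]
  · congr 1
    refine Finset.sum_congr rfl fun g _ => ?_
    have h1 : (g : G)⁻¹ * t * g = (T.normalizerMonoidHom g⁻¹ t : T) := by
      change _ = (g : G)⁻¹ * t * (g : G)⁻¹⁻¹
      rw [inv_inv]
    rw [h1, extendByZero_coe]; rfl
  · intro g hg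
    refine extendByZero_of_not_mem T _ fun h => hg ?_
    exact inv_mem_iff.mp (hT.mem_normalizer t.2 (fun e => ht (Subtype.ext e)) (k := g⁻¹)
      (by rwa [inv_inv]))

open Classical in
theorem vv_inner (hT : IsCC T) {e : ℕ} (he : Nat.card (normalizer (T : Set G)) = e * Nat.card T)
    {l m : T →* ℂˣ} (hl : l ≠ 1) (hm : m ≠ 1) : classInner (vv T l) (vv T m) =
      e + if l ∈ MulAction.orbit (normalizer (T : Set G)) m then 1 else 0 := by
  haveI := Fintype.ofFinite T
  have h0 := card_ne_zero_complex T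
  rw [vv, classInner_indFun_left T _ (vv_class m), vv_res hT, classInner_smul_right,
    classInner_sum_right, Finset.sum_congr rfl fun g _ => inner_lin hl (smul_ne_one hm g),
    Finset.sum_add_distrib, Finset.sum_const, Finset.card_univ, ← Nat.card_eq_fintype_card, he]
  have h1 : (∑ g : normalizer (T : Set G), if l = g • m then (1 : ℂ) else 0) = Nat.card T *
      if l ∈ MulAction.orbit (normalizer (T : Set G)) m then 1 else 0 := by
    split_ifs with h
    · obtain ⟨g0, rfl⟩ := h
      rw [← Equiv.sum_comp (Equiv.mulLeft g0), Finset.sum_boole, mul_one,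
        ← Nat.card_congr (subgroupOfEquivOfLe (le_normalizer (H := T))).toEquiv, ← stab_eq hT hm,
        Nat.card_eq_fintype_card, Fintype.card_subtype]
      congr 2
      ext g
      simp only [Equiv.coe_mulLeft, mul_smul, smul_left_cancel_iff, Finset.mem_filter,
        Finset.mem_univ, true_and, MulAction.mem_stabilizer_iff, eq_comm]
    · rw [mul_zero]
      exact Finset.sum_eq_zero fun g _ => if_neg fun e => h ⟨g, e.symm⟩
  rw [h1]
  simp only [map_inv₀, map_natCast, nsmul_eq_mul, mul_one]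
  push_cast
  field_simp

theorem vv_eq_iff (hT : IsCC T) {e : ℕ} (he : Nat.card (normalizer (T : Set G)) = e * Nat.card T)
    {l m : T →* ℂˣ} (hl : l ≠ 1) (hm : m ≠ 1) :
    vv T l = vv T m ↔ l ∈ MulAction.orbit (normalizer (T : Set G)) m := by
  have h1 := vv_inner hT he hl hm
  have h2 := vv_inner hT he hm hm
  rw [if_pos (MulAction.mem_orbit_self m)] at h2
  constructor
  · intro h
    by_contra h3
    rw [if_neg h3, h, h2] at h1
    simp at h1
  · intro h
    have h3 := vv_inner hT he hl hl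
    have h4 := vv_inner hT he hm hl
    rw [if_pos (MulAction.mem_orbit_self l)] at h3
    rw [if_pos h] at h1
    rw [if_pos (MulAction.mem_orbit_symm.mp h)] at h4
    rw [← sub_eq_zero, ← classInner_self_eq_zero, classInner_sub_left, classInner_sub_right,
      classInner_sub_right, h1, h2, h3, h4]
    ring

/-- The family of induced generalized characters. -/
theorem exists_fam (hT : IsCC T) {e : ℕ}
    (he : Nat.card (normalizer (T : Set G)) = e * Nat.card T) :
    ∃ V : Finset (G → ℂ), V.card * e + 1 = Nat.card T ∧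
      (∀ v, v ∈ V ↔ ∃ l, l ≠ 1 ∧ vv T l = v) ∧ (∀ v ∈ V, classInner v v = e + 1) ∧
      ∀ v ∈ V, ∀ w ∈ V, v ≠ w → classInner v w = e := by
  classical
  letI : CommGroup T := { (inferInstance : Group T) with
    mul_comm := fun a b => Subtype.ext (hT.comm b.2 a.2) }
  have h1 := CommGroup.card_monoidHom_of_hasEnoughRootsOfUnity T ℂ
  haveI : Finite (T →* ℂˣ) := Nat.finite_of_card_ne_zero (by rw [h1]; exact Nat.card_pos.ne')
  haveI := Fintype.ofFinite (T →* ℂˣ)
  let Λ : Finset (T →* ℂˣ) := Finset.univ.erase 1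
  have hΛ : ∀ l, l ∈ Λ ↔ l ≠ 1 := fun l => by simp [Λ]
  refine ⟨Λ.image (vv T), ?_, fun v => by simp [hΛ], fun v hv => ?_, fun v hv w hw hne => ?_⟩
  · have h2 := Finset.card_eq_sum_card_image (vv T) Λ
    rw [Finset.sum_const_nat (m := e)] at h2
    · rw [← h2, Finset.card_erase_add_one (Finset.mem_univ _), Finset.card_univ,
        ← Nat.card_eq_fintype_card, h1]
    · intro v hv
      obtain ⟨m, hm, rfl⟩ := Finset.mem_image.mp hv
      rw [hΛ] at hm
      have h3 := (MulAction.stabilizer (normalizer (T : Set G)) m).card_mul_index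
      rw [MulAction.index_stabilizer, stab_eq hT hm,
        Nat.card_congr (subgroupOfEquivOfLe (le_normalizer (H := T))).toEquiv, he,
        mul_comm e] at h3
      rw [← Nat.eq_of_mul_eq_mul_left Nat.card_pos h3, ← Set.ncard_coe_finset]
      congr 1
      ext l
      simp only [Finset.coe_filter, hΛ, Set.mem_setOf_eq]
      exact ⟨fun h => (vv_eq_iff hT he h.1 hm).mp h.2, fun h => by
        have h4 : l ≠ 1 := by
          obtain ⟨g, rfl⟩ := h
          exact smul_ne_one hm g
        exact ⟨h4, (vv_eq_iff hT he h4 hm).mpr h⟩⟩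
  · obtain ⟨m, hm, rfl⟩ := Finset.mem_image.mp hv
    rw [vv_inner hT he ((hΛ m).mp hm) ((hΛ m).mp hm), if_pos (MulAction.mem_orbit_self m)]
  · obtain ⟨m, hm, rfl⟩ := Finset.mem_image.mp hw
    obtain ⟨l, hl, rfl⟩ := Finset.mem_image.mp hv
    rw [vv_inner hT he ((hΛ l).mp hl) ((hΛ m).mp hm), if_neg fun h => hne
      ((vv_eq_iff hT he ((hΛ l).mp hl) ((hΛ m).mp hm)).mpr h), add_zero]

open Classical in
theorem card_supp_le {v : G → ℂ} (hv : IsGeneralizedCharacter G v) {n : ℕ}
    (hn : classInner v v = n) :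
    (Finset.univ.filter fun χ : IrrCharacter G => classInner v χ ≠ 0).card ≤ n := by
  obtain ⟨m, hm, -⟩ := isGen_exists_mult hv
  have h1 := classInner_self_eq_sum_sq (isClassFunction_of_isGen hv) m hm
  rw [hn] at h1
  have h2 : (n : ℤ) = ∑ ψ, m ψ ^ 2 := by exact_mod_cast h1
  zify
  rw [h2, Finset.card_filter]
  push_cast
  refine Finset.sum_le_sum fun ψ _ => ?_
  split_ifs with h
  · have : m ψ ≠ 0 := fun h0 => h (by rw [hm, h0]; simp)
    exact (one_le_sq_iff_one_le_abs _).mpr (Int.one_le_abs this)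
  · positivity

open Classical in
theorem card_nonvan (hT : IsCC T) {e : ℕ}
    (he : Nat.card (normalizer (T : Set G)) = e * Nat.card T) :
    ∃ (A : Finset (IrrCharacter G)) (w : ℕ), w * e + 1 = Nat.card T ∧ A.card ≤ e + w ∧
      ∀ χ : IrrCharacter G, χ ∈ A ↔ ∃ l : T →* ℂˣ, l ≠ 1 ∧ classInner (vv T l) χ ≠ 0 := by
  obtain ⟨V, h1, h2, h3, h4⟩ := exists_fam hT he
  refine ⟨Finset.univ.filter fun χ => ∃ l : T →* ℂˣ, l ≠ 1 ∧ classInner (vv T l) χ ≠ 0, V.card,
    h1, ?_, fun χ => by simp⟩
  have hg : ∀ v ∈ V, IsGeneralizedCharacter G v ∧ v 1 = 0 := fun v hv => by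
    obtain ⟨l, -, rfl⟩ := (h2 v).mp hv
    exact ⟨vv_gen l, vv_one l⟩
  have h5 := (one_lt_card_iff_ne_bot T).mpr hT.ne_bot
  obtain ⟨v0, hv0⟩ : V.Nonempty := Finset.card_pos.mp (Nat.pos_of_ne_zero fun h => by
    rw [h] at h1; omega)
  have h6 := card_supp_le (hg v0 hv0).1 (n := e + 1) (by rw [h3 v0 hv0]; simp)
  by_cases h7 : ∀ v ∈ V, v = v0
  · refine (Finset.card_le_card fun χ hχ => ?_).trans
      (h6.trans (Nat.add_le_add_left (Finset.card_pos.mpr ⟨v0, hv0⟩) e))
    obtain ⟨l, hl, hχ⟩ := (Finset.mem_filter.mp hχ).2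
    rw [h7 _ ((h2 _).mpr ⟨l, hl, rfl⟩)] at hχ
    simpa using hχ
  push Not at h7
  obtain ⟨v1, hv1, hne⟩ := h7
  obtain ⟨ε, hε, μ, a1, a2, a3⟩ := exists_exceptional (ι := V) ⟨v0, hv0⟩ (fun v => v.1 - v0)
    (sub_self _) (fun v => isGen_sub (hg _ v.2).1 (hg v0 hv0).1)
    (fun v => by rw [Pi.sub_apply, (hg _ v.2).2, (hg v0 hv0).2, sub_self])
    (fun v hv => by
      have : v.1 ≠ v0 := fun h => hv (Subtype.ext h)
      rw [classInner_sub_left, classInner_sub_right, classInner_sub_right, h3 _ v.2, h3 _ hv0,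
        h4 _ v.2 _ hv0 this, h4 _ hv0 _ v.2 this.symm]; ring)
    (fun v w hv hw hvw => by
      rw [classInner_sub_left, classInner_sub_right, classInner_sub_right, h3 _ hv0,
        h4 _ v.2 _ hv0 fun h => hv (Subtype.ext h), h4 _ hv0 _ w.2 fun h => hw (Subtype.ext h.symm),
        h4 _ v.2 _ w.2 fun h => hvw (Subtype.ext h)]; ring)
  let E : Finset (IrrCharacter G) := Finset.univ.image fun v : V => ⟨μ v, a1 v⟩
  have hE : E.card ≤ V.card := Finset.card_image_le.trans (by simp)
  obtain ⟨χ0, b1, b2⟩ : ∃ χ ∈ E, classInner v0 χ ≠ 0 := by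
    by_contra h
    push Not at h
    have c1 := congrArg (classInner v0) (a3 ⟨v1, hv1⟩)
    rw [classInner_smul_right, classInner_sub_right, classInner_sub_right,
      h ⟨_, a1 _⟩ (Finset.mem_image_of_mem _ (Finset.mem_univ _)),
      h ⟨_, a1 _⟩ (Finset.mem_image_of_mem _ (Finset.mem_univ _)), h3 _ hv0,
      h4 _ hv0 _ hv1 hne.symm] at c1
    simp at c1
  have h8 := Finset.card_erase_add_one (s := Finset.univ.filter
    fun χ : IrrCharacter G => classInner v0 χ ≠ 0) (a := χ0) (by simpa using b2)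
  refine (Finset.card_le_card (t := (Finset.univ.filter
    fun χ : IrrCharacter G => classInner v0 χ ≠ 0).erase χ0 ∪ E) fun χ hχ => ?_).trans
    ((Finset.card_union_le _ _).trans (by omega))
  obtain ⟨l, hl, hχ⟩ := (Finset.mem_filter.mp hχ).2
  by_cases hχE : χ ∈ E
  · exact Finset.mem_union_right _ hχE
  refine Finset.mem_union_left _ (Finset.mem_erase.mpr ⟨fun h => hχE (h ▸ b1), ?_⟩)
  have c1 : ∀ v, classInner (μ v) χ = 0 := fun v => classInner_irr_of_ne (a1 v) χ.2 fun h =>
    hχE (Finset.mem_image.mpr ⟨v, Finset.mem_univ _, Subtype.ext h⟩)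
  have c2 := congrArg (classInner · (χ : G → ℂ)) (a3 ⟨_, (h2 _).mpr ⟨l, hl, rfl⟩⟩)
  simp only [classInner_smul_left, classInner_sub_left, c1, sub_self, mul_zero, sub_eq_zero] at c2
  simpa [← c2] using hχ

end Cfsg.Agent.H29.ExC
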