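import Mathlib
import Cfsg.Agent.L0.SL2Conj
import Cfsg.Agent.H13.GalF

/-! Overgroups of `SL₂(q)` on its natural module with a Sylow subgroup normalizing it. I. -/

set_option autoImplicit false

open Matrix

namespace Cfsg.Agent.H29.NSL

open Cfsg.Agent.L0

/-- The data. -/
structure Dt (p : ℕ) [Fact p.Prime] (F : Type) [Field F] [Algebra (ZMod p) F] (G : Type*)
    [Group G] where
  ρ : G →* Module.End (ZMod p) (Fin 2 → F)
  ι : S2 F →* G
  S : Sylow p G
  inj : Function.Injective ρ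
  act : ∀ m v, ρ (ι m) v = (m : M2 F) *ᵥ v
  hU : ∀ t, ι (uu t) ∈ S
  hN : ∀ s ∈ S, ∀ m, ∃ m', s * ι m * s⁻¹ = ι m'

/-- Vectors of the axis. -/
def ev {F : Type} [Field F] (y : F) : Fin 2 → F := ![y, 0]

section ev
variable {F : Type} [Field F]

@[simp] theorem ev0 (y : F) : ev y 0 = y := rfl
@[simp] theorem ev1 (y : F) : ev y 1 = 0 := rfl

theorem vext {v w : Fin 2 → F} (h0 : v 0 = w 0) (h1 : v 1 = w 1) : v = w := by
  ext i; fin_cases i <;> assumption

theorem ev_add (x y : F) : ev (x + y) = ev x + ev y := vext (by simp) (by simp)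

theorem ev_zero : ev (0 : F) = 0 := vext (by simp) (by simp)

theorem eq_ev {v : Fin 2 → F} (h : v 1 = 0) : v = ev (v 0) := vext rfl h

theorem ev_inj {x y : F} (h : ev x = ev y) : x = y := congrFun h 0

theorem mv0 (m : M2 F) (v : Fin 2 → F) : (m *ᵥ v) 0 = m 0 0 * v 0 + m 0 1 * v 1 := by
  simp [Matrix.mulVec, dotProduct, Fin.sum_univ_two]

theorem mv1 (m : M2 F) (v : Fin 2 → F) : (m *ᵥ v) 1 = m 1 0 * v 0 + m 1 1 * v 1 := by
  simp [Matrix.mulVec, dotProduct, Fin.sum_univ_two]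

theorem sq_eq_one_of_quad {σ : F ≃+* F} {c1 c2 : F}
    (h : ∀ y, c2 * σ (σ y) + c1 * σ y + y = 0) : σ * σ = 1 := by
  by_contra hne
  obtain ⟨z, hz⟩ : ∃ z, σ (σ z) ≠ z := by
    by_contra h'
    push Not at h'
    exact hne (RingEquiv.ext h')
  have h1 : ∀ y, c1 * (σ z - σ (σ z)) * σ y + (z - σ (σ z)) * y = 0 := fun y => by
    have a := h (z * y)
    have b := h y
    rw [map_mul, map_mul] at a
    linear_combination a - σ (σ z) * b
  have h2 := h1 1
  rw [map_one] at h2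
  have h3 : ∀ y, σ y = y := fun y => by
    have a := h1 y
    have : (z - σ (σ z)) * (y - σ y) = 0 := by linear_combination a - σ y * h2
    rcases mul_eq_zero.mp this with h4 | h4
    · exact absurd (sub_eq_zero.mp h4).symm hz
    · exact (sub_eq_zero.mp h4).symm
  exact hz (by rw [h3, h3])

theorem inv_unique [Finite F] {σ τ : F ≃+* F} (h1 : σ * σ = 1) (h2 : τ * τ = 1) (h3 : σ ≠ 1)
    (h4 : τ ≠ 1) : σ = τ := by
  classical
  haveI := H13.ringAut_cyc (K := F)
  haveI : Finite (F ≃+* F) := Finite.of_injective (fun f : F ≃+* F => (f : F → F))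
    DFunLike.coe_injective
  haveI := Fintype.ofFinite (F ≃+* F)
  by_contra hne
  have h5 := IsCyclic.card_pow_eq_one_le (α := F ≃+* F) (n := 2) two_pos
  have h6 : ({1, σ, τ} : Finset (F ≃+* F)) ⊆ Finset.univ.filter (fun a => a ^ 2 = 1) := by
    intro x hx
    simp only [Finset.mem_insert, Finset.mem_singleton] at hx
    rcases hx with rfl | rfl | rfl <;> simp [sq, *]
  have h7 := Finset.card_le_card h6
  rw [Finset.card_eq_three.mpr ⟨1, σ, τ, h3.symm, h4.symm, hne, rfl⟩] at h7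
  omega

end ev

variable {p : ℕ} [hp : Fact p.Prime] {F : Type} [Field F] [Algebra (ZMod p) F] {G : Type*}
  [Group G]

namespace Dt

variable (d : Dt p F G)

/-- The root elements. -/
def u (t : F) : G := d.ι (uu t)

theorem u_app (t : F) (v : Fin 2 → F) : d.ρ (d.u t) v = v + ev (t * v 1) := by
  rw [u, d.act]
  exact vext (by simp [mv0]) (by simp [mv1])

theorem u_add (s t : F) : d.u (s + t) = d.u s * d.u t := by rw [u, uu_add, map_mul]; rfl

theorem u_zero : d.u 0 = 1 := by rw [u, uu_zero, map_one]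

theorem mul_app (g h : G) (v : Fin 2 → F) : d.ρ (g * h) v = d.ρ g (d.ρ h v) := by
  rw [map_mul]; rfl

theorem one_app (v : Fin 2 → F) : d.ρ 1 v = v := by rw [map_one]; rfl

theorem inv_app (g : G) (v : Fin 2 → F) : d.ρ g⁻¹ (d.ρ g v) = v := by
  rw [← mul_app, inv_mul_cancel, one_app]

theorem app_inv (g : G) (v : Fin 2 → F) : d.ρ g (d.ρ g⁻¹ v) = v := by
  rw [← mul_app, mul_inv_cancel, one_app]

theorem app_inj (g : G) {v w : Fin 2 → F} (h : d.ρ g v = d.ρ g w) : v = w := by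
  rw [← d.inv_app g v, h, inv_app]

theorem gext {g h : G} (H : ∀ v, d.ρ g v = d.ρ h v) : g = h := d.inj (LinearMap.ext H)

theorem ι_inj : Function.Injective d.ι := fun m m' h => by
  have a := d.act m
  rw [h] at a
  have b : ∀ v, (m : M2 F) *ᵥ v = (m' : M2 F) *ᵥ v := fun v => by rw [← a, d.act]
  have c := b ![1, 0]
  have e := b ![0, 1]
  refine Subtype.ext (m2_ext ?_ ?_ ?_ ?_)
  · simpa [mv0] using congrFun c 0
  · simpa [mv0] using congrFun e 0
  · simpa [mv1] using congrFun c 1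
  · simpa [mv1] using congrFun e 1

theorem charP : CharP F p := charP_of_injective_algebraMap (algebraMap (ZMod p) F).injective p

theorem u_pow_p (t : F) : d.u t ^ p = 1 := by
  haveI := charP (p := p) (F := F)
  rw [u, ← map_pow, uu_pow, CharP.cast_eq_zero, zero_mul, uu_zero, map_one]

theorem fix_u {t : F} (ht : t ≠ 0) (v : Fin 2 → F) : d.ρ (d.u t) v = v ↔ v 1 = 0 := by
  rw [u_app, add_eq_left]
  constructor
  · intro h
    have := congrFun h 0
    simpa [ht] using this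
  · intro h; rw [h, mul_zero, ev_zero]

theorem u_ne_one {t : F} (ht : t ≠ 0) : d.u t ≠ 1 := fun h => by
  have := (d.fix_u ht ![0, 1]).mp (by rw [h, one_app])
  simp at this

/-- The stabilizer of the axis. -/
def NW : Subgroup G where
  carrier := {g | ∀ v, d.ρ g v 1 = 0 ↔ v 1 = 0}
  one_mem' := fun v => by rw [one_app]
  mul_mem' := fun {a b} ha hb v => by rw [mul_app, ha, hb]
  inv_mem' := fun {a} ha v => by rw [← ha, app_inv]

theorem mem_NW {g : G} : g ∈ d.NW ↔ ∀ v, d.ρ g v 1 = 0 ↔ v 1 = 0 := Iff.rfl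

theorem mem_NW_of [Finite G] {g : G} (h : ∀ y, d.ρ g (ev y) 1 = 0) : g ∈ d.NW := by
  have h1 : ∀ v, v 1 = 0 → d.ρ g v 1 = 0 := fun v hv => by rw [eq_ev hv]; exact h _
  have h2 : ∀ n : ℕ, ∀ v, v 1 = 0 → d.ρ (g ^ n) v 1 = 0 := fun n => by
    induction n with
    | zero => intro v hv; rwa [pow_zero, one_app]
    | succ n ih => intro v hv; rw [pow_succ, mul_app]; exact ih _ (h1 v hv)
  refine fun v => ⟨fun hv => ?_, h1 v⟩
  have h3 := h2 (orderOf g - 1) _ hv
  rwa [← mul_app, ← pow_succ, Nat.sub_add_cancel (orderOf_pos g), pow_orderOf_eq_one,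
    one_app] at h3

theorem NW_of_conj {g : G} {t t' : F} (ht : t ≠ 0) (h : g * d.u t * g⁻¹ = d.u t') : g ∈ d.NW := by
  have ht' : t' ≠ 0 := by
    rintro rfl
    rw [u_zero, mul_inv_eq_one, mul_eq_left] at h
    exact d.u_ne_one ht h
  intro v
  rw [← d.fix_u ht', ← d.fix_u ht, ← h, mul_app, mul_app, inv_app]
  exact ⟨fun h => d.app_inj g h, fun h => by rw [h]⟩

/-- Elements trivial on the axis and on the quotient by it. -/
def Q : Subgroup G where
  carrier := {g | (∀ y, d.ρ g (ev y) = ev y) ∧ ∀ v, d.ρ g v 1 = v 1}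
  one_mem' := ⟨fun y => d.one_app _, fun v => by rw [one_app]⟩
  mul_mem' := fun {a b} ha hb => ⟨fun y => by rw [mul_app, hb.1, ha.1],
    fun v => by rw [mul_app, ha.2, hb.2]⟩
  inv_mem' := fun {a} ha => ⟨fun y => d.app_inj a (by rw [app_inv, ha.1]),
    fun v => by rw [← ha.2 (d.ρ a⁻¹ v), app_inv]⟩

theorem mem_Q {g : G} : g ∈ d.Q ↔ (∀ y, d.ρ g (ev y) = ev y) ∧ ∀ v, d.ρ g v 1 = v 1 := Iff.rfl

theorem u_mem_Q (t : F) : d.u t ∈ d.Q :=
  ⟨fun y => by rw [u_app]; simp [ev_zero], fun v => by rw [u_app]; simp⟩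

theorem Q_pow {g : G} (hg : g ∈ d.Q) : g ^ p = 1 := by
  haveI := charP (p := p) (F := F)
  refine d.gext fun v => ?_
  have h1 : d.ρ g v = v + ev (d.ρ g v 0 - v 0) := vext (by simp) (by simp [hg.2])
  have h2 : ∀ n : ℕ, d.ρ (g ^ n) v = v + ev (n * (d.ρ g v 0 - v 0)) := fun n => by
    induction n with
    | zero => rw [pow_zero, one_app]; simp [ev_zero]
    | succ n ih =>
      rw [pow_succ', mul_app, ih, map_add, hg.1, h1, add_assoc, ← ev_add]
      congr 2
      simp only [Pi.add_apply, ev0]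
      push_cast; ring
  rw [h2, CharP.cast_eq_zero, zero_mul, ev_zero, add_zero, one_app]

theorem Q_pgroup : IsPGroup p d.Q := fun g => ⟨1, Subtype.ext (by simpa using d.Q_pow g.2)⟩

theorem Q_conj {g h : G} (hg : g ∈ d.NW) (hh : h ∈ d.Q) : g * h * g⁻¹ ∈ d.Q := by
  constructor
  · intro y
    have h1 : d.ρ g⁻¹ (ev y) 1 = 0 := (d.NW.inv_mem hg _).mpr rfl
    rw [mul_app, mul_app, eq_ev h1, hh.1, ← eq_ev h1, app_inv]
  · intro v
    have h1 : (d.ρ h (d.ρ g⁻¹ v) - d.ρ g⁻¹ v) 1 = 0 := by simp [hh.2]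
    have h2 := (hg _).mpr h1
    rw [map_sub, app_inv, Pi.sub_apply, sub_eq_zero] at h2
    rw [mul_app, mul_app, h2]

variable [Finite F] [Finite G]

theorem S_fix : ∃ c : F, c ≠ 0 ∧ ∀ s ∈ d.S, d.ρ s (ev c) = ev c := by
  haveI := charP (p := p) (F := F)
  letI : MulAction d.S (Fin 2 → F) := MulAction.compHom _ (d.ρ.comp (d.S : Subgroup G).subtype)
  have hs : ∀ (s : d.S) (v : Fin 2 → F), s • v = d.ρ s v := fun _ _ => rfl
  have h0 : (0 : Fin 2 → F) ∈ MulAction.fixedPoints d.S (Fin 2 → F) := fun s => by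
    rw [hs, map_zero]
  have hd : p ∣ Nat.card (Fin 2 → F) := by
    haveI := Fintype.ofFinite F
    obtain ⟨n, -, hn⟩ := FiniteField.card F p
    rw [Nat.card_fun, Nat.card_eq_fintype_card, hn]
    exact (dvd_pow_self p n.ne_zero).trans (dvd_pow_self _ (by simp))
  obtain ⟨b, hb, hb0⟩ := d.S.isPGroup'.exists_fixed_point_of_prime_dvd_card_of_fixed_point
    (Fin 2 → F) hd h0
  have h1 : b 1 = 0 := (d.fix_u one_ne_zero b).mp (hb ⟨_, d.hU 1⟩)
  refine ⟨b 0, fun h => hb0 ?_, fun s hs' => ?_⟩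
  · rw [eq_ev h1, h, ev_zero]
  · rw [← eq_ev h1]; exact hb ⟨s, hs'⟩

theorem S_L {m : S2 F} (hm : d.ι m ∈ d.S) : ∃ t, m = uu t := by
  obtain ⟨c, hc, h⟩ := d.S_fix
  have h1 := h _ hm
  rw [d.act] at h1
  have h2 := congrFun h1 0
  have h3 := congrFun h1 1
  rw [mv0] at h2
  rw [mv1] at h3
  simp only [ev0, ev1, mul_zero, add_zero] at h2 h3
  have h4 : (m : M2 F) 0 0 = 1 := mul_right_cancel₀ hc (by rw [h2, one_mul])
  have h5 : (m : M2 F) 1 0 = 0 := (mul_eq_zero.mp h3).resolve_right hc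
  have h6 := s2_det m
  rw [h4, h5, one_mul, mul_zero, sub_zero] at h6
  exact ⟨_, eq_uu h4 h6 h5⟩

theorem S_NW {s : G} (hs : s ∈ d.S) : s ∈ d.NW := by
  obtain ⟨m, hm⟩ := d.hN s hs (uu 1)
  obtain ⟨t, rfl⟩ := d.S_L (m := m) (by
    rw [← hm]; exact (d.S : Subgroup G).mul_mem ((d.S : Subgroup G).mul_mem hs (d.hU 1))
      ((d.S : Subgroup G).inv_mem hs))
  exact d.NW_of_conj one_ne_zero hm

theorem Q_le_S : d.Q ≤ d.S := by
  have h1 : (d.S : Subgroup G) ≤ Subgroup.normalizer (d.Q : Set G) := fun s hs => by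
    rw [Subgroup.mem_normalizer_iff]
    refine fun h => ⟨d.Q_conj (d.S_NW hs), fun hh => ?_⟩
    have := d.Q_conj (d.NW.inv_mem (d.S_NW hs)) hh
    simpa [mul_assoc] using this
  have h2 := IsPGroup.to_sup_of_normal_left' d.Q_pgroup d.S.isPGroup' h1
  have h3 := d.S.is_maximal' h2 le_sup_right
  exact le_sup_left.trans h3.le

theorem Q_eq {g : G} (hg : g ∈ d.Q) : ∃ t, g = d.u t := by
  obtain ⟨m, hm⟩ := d.hN g (d.Q_le_S hg) (mkS 1 0 1 1 (by simp))
  have hm' : g * d.ι (mkS 1 0 1 1 (by simp)) = d.ι m * g := by rw [← hm]; group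
  have h1 : ∀ v, d.ρ g ((mkS 1 0 1 1 (by simp) : S2 F) *ᵥ v) = (m : M2 F) *ᵥ d.ρ g v := fun v => by
    rw [← d.act, ← d.act, ← mul_app, hm', mul_app]
  have h2 : ∀ v, v 0 + v 1 = (m : M2 F) 1 0 * d.ρ g v 0 + (m : M2 F) 1 1 * v 1 := fun v => by
    have := congrFun (h1 v) 1
    rw [hg.2, mv1, mv1, hg.2] at this
    simpa using this
  have h3 := h2 (ev 1)
  rw [hg.1] at h3
  simp only [ev0, ev1, mul_zero, add_zero, mul_one] at h3
  refine ⟨1 - (m : M2 F) 1 1, d.gext fun v => ?_⟩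
  rw [u_app]
  have h4 := h2 v
  rw [← h3] at h4
  refine vext ?_ (by simp [hg.2])
  simp only [Pi.add_apply, ev0]
  linear_combination -h4

/-- Semilinearity on the axis and the quotient. -/
def Semi (g : G) (σ : F ≃+* F) : Prop := ∃ a b : F, a ≠ 0 ∧ b ≠ 0 ∧
  (∀ y, d.ρ g (ev y) = ev (a * σ y)) ∧ ∀ v, d.ρ g v 1 = b * σ (v 1)

theorem exists_semi {g : G} (hg : g ∈ d.NW) : ∃ σ, d.Semi g σ := by
  have h0 : ∀ t, ∃ t', g * d.u t * g⁻¹ = d.u t' := fun t => d.Q_eq (d.Q_conj hg (d.u_mem_Q t))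
  choose τ hτ using h0
  let α : F → F := fun y => d.ρ g (ev y) 0
  have hα : ∀ y, d.ρ g (ev y) = ev (α y) := fun y => eq_ev ((hg _).mpr rfl)
  have h1 : ∀ t v, α (t * v 1) = τ t * d.ρ g v 1 := fun t v => by
    have a : g * d.u t = d.u (τ t) * g := by rw [← hτ]; group
    have b := congrArg (fun x => d.ρ x v) a
    simp only [mul_app, u_app, map_add, add_right_inj] at b
    exact congrFun b 0
  have hne : ∀ y, y ≠ 0 → α y ≠ 0 := fun y hy h => hy (ev_inj (d.app_inj g (by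
    rw [hα, h, ev_zero, map_zero])))
  have ha := hne 1 one_ne_zero
  let δ : F → F := fun y => d.ρ g ![0, y] 1
  have h2 : ∀ t y, α (t * y) = τ t * δ y := fun t y => h1 t ![0, y]
  have h3 : ∀ t y, α (t * y) * α 1 = α t * α y := fun t y => by
    have a := h2 t 1
    have b := h2 1 y
    have c := h2 1 1
    rw [mul_one] at a c
    rw [one_mul] at b
    rw [h2, a, b, c]; ring
  have h4 : ∀ x y, α (x + y) = α x + α y := fun x y => by
    simp only [α, ev_add, map_add, Pi.add_apply]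
  let f : F →+* F :=
    { toFun := fun y => α y / α 1
      map_one' := div_self ha
      map_mul' := fun x y => by
        rw [div_mul_div_comm, ← h3, mul_div_mul_right _ _ ha]
      map_zero' := by simp [α, ev_zero]
      map_add' := fun x y => by rw [h4, add_div] }
  have hf : Function.Bijective f := Finite.injective_iff_bijective.mp f.injective
  have h5 := h2 1 1
  rw [mul_one] at h5
  have hτ1 : τ 1 ≠ 0 := fun h => ha (by rw [h5, h, zero_mul])
  refine ⟨RingEquiv.ofBijective f hf, α 1, α 1 / τ 1, ha, div_ne_zero ha hτ1, fun y => ?_,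
    fun v => ?_⟩
  · rw [hα]
    congr 1
    change α y = α 1 * (α y / α 1)
    field_simp
  · have := h1 1 v
    rw [one_mul] at this
    change _ = α 1 / τ 1 * (α (v 1) / α 1)
    rw [this]
    field_simp

omit [Finite F] [Finite G]

variable {d}

theorem Semi.mul {g h : G} {σ τ : F ≃+* F} (h1 : d.Semi g σ) (h2 : d.Semi h τ) :
    d.Semi (g * h) (σ * τ) := by
  obtain ⟨a, b, ha, hb, h3, h4⟩ := h1
  obtain ⟨a', b', ha', hb', h5, h6⟩ := h2
  refine ⟨a * σ a', b * σ b', mul_ne_zero ha (by simpa), mul_ne_zero hb (by simpa),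
    fun y => ?_, fun v => ?_⟩
  · rw [mul_app, h5, h3, map_mul, mul_assoc]; rfl
  · rw [mul_app, h4, h6, map_mul, mul_assoc]; rfl

theorem semi_of_Q {g : G} (hg : g ∈ d.Q) : d.Semi g 1 :=
  ⟨1, 1, one_ne_zero, one_ne_zero, fun y => by rw [hg.1, one_mul]; rfl,
    fun v => by rw [hg.2, one_mul]; rfl⟩

theorem Semi.uniq {g : G} {σ τ : F ≃+* F} (h1 : d.Semi g σ) (h2 : d.Semi g τ) : σ = τ := by
  obtain ⟨a, b, ha, hb, h3, h4⟩ := h1
  obtain ⟨a', b', ha', hb', h5, h6⟩ := h2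
  have h7 : ∀ y, a * σ y = a' * τ y := fun y => ev_inj ((h3 y).symm.trans (h5 y))
  have h8 := h7 1
  rw [map_one, map_one, mul_one, mul_one] at h8
  subst h8
  exact RingEquiv.ext fun y => mul_left_cancel₀ ha (h7 y)

theorem Semi.pow {g : G} {σ : F ≃+* F} (h : d.Semi g σ) (n : ℕ) : d.Semi (g ^ n) (σ ^ n) := by
  induction n with
  | zero => rw [pow_zero, pow_zero]; exact semi_of_Q d.Q.one_mem
  | succ n ih => rw [pow_succ, pow_succ]; exact ih.mul h

theorem Semi.pow_eq_one {g : G} {σ : F ≃+* F} (h : d.Semi g σ) {n : ℕ} (hn : g ^ n = 1) :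
    σ ^ n = 1 := (h.pow n).uniq (by rw [hn]; exact semi_of_Q d.Q.one_mem)

theorem Semi.pows {g : G} (h : d.Semi g 1) : ∃ a b : F, (∀ y, d.ρ g (ev y) = ev (a * y)) ∧
    (∀ v, d.ρ g v 1 = b * v 1) ∧ ∀ n : ℕ, g ^ n = 1 → a ^ n = 1 ∧ b ^ n = 1 := by
  obtain ⟨a, b, -, -, h3, h4⟩ := h
  refine ⟨a, b, h3, h4, fun n hn => ?_⟩
  have h5 : ∀ n : ℕ, d.ρ (g ^ n) (ev 1) = ev (a ^ n) := fun n => by
    induction n with
    | zero => rw [pow_zero, pow_zero, one_app]
    | succ n ih => rw [pow_succ', mul_app, ih, h3, pow_succ']; rfl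
  have h6 : ∀ n : ℕ, d.ρ (g ^ n) ![0, 1] 1 = b ^ n := fun n => by
    induction n with
    | zero => rw [pow_zero, pow_zero, one_app]; rfl
    | succ n ih => rw [pow_succ', mul_app, h4, ih, pow_succ']; rfl
  have h7 := h5 n
  have h8 := h6 n
  rw [hn, one_app] at h7 h8
  exact ⟨(ev_inj h7).symm, h8.symm⟩

theorem Semi.mem_Q {g : G} (h : d.Semi g 1) {k : ℕ} (hk : g ^ p ^ k = 1) : g ∈ d.Q := by
  haveI := charP (p := p) (F := F)
  obtain ⟨a, b, h1, h2, h3⟩ := h.pows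
  have h4 : ∀ c : F, c ^ p ^ k = 1 → c = 1 := fun c hc => by
    have : (c - 1) ^ p ^ k = 0 := by rw [sub_pow_char_pow, hc, one_pow, sub_self]
    exact sub_eq_zero.mp (pow_eq_zero_iff (pow_ne_zero _ hp.out.ne_zero) |>.mp this)
  obtain ⟨h5, h6⟩ := h3 _ hk
  rw [h4 a h5] at h1
  rw [h4 b h6] at h2
  exact ⟨fun y => by rw [h1, one_mul], fun v => by rw [h2, one_mul]⟩

end Dt

end Cfsg.Agent.H29.NSL
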