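import Mathlib
import Cfsg.Agent.H29.NSL1
import Cfsg.Agent.H5.Plane
import Cfsg.Agent.H10.SL

/-! Overgroups of `SL₂(q)` on its natural module with a Sylow subgroup normalizing it. II. -/

set_option autoImplicit false

open Matrix Subgroup

namespace Cfsg.Agent.H29.NSL

open Cfsg.Agent.L0

theorem quad_form {R : Type*} [Ring R] {A B : R} (hA : A * A = 0) (hB : B * B = 0) (X Y : R)
    (h : ∃ α β γ δ : R, α ∈ Subring.centralizer ({A, B} : Set R) ∧
      β ∈ Subring.centralizer ({A, B} : Set R) ∧ γ ∈ Subring.centralizer ({A, B} : Set R) ∧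
      δ ∈ Subring.centralizer ({A, B} : Set R) ∧ X = α + β * A + γ * B + δ * (A * B) ∧
      Y = α - A * β - B * γ + B * A * δ) :
    (∃ α β γ δ : R, α ∈ Subring.centralizer ({A, B} : Set R) ∧
      β ∈ Subring.centralizer ({A, B} : Set R) ∧ γ ∈ Subring.centralizer ({A, B} : Set R) ∧
      δ ∈ Subring.centralizer ({A, B} : Set R) ∧ X * (1 + A) = α + β * A + γ * B + δ * (A * B) ∧
      (1 - A) * Y = α - A * β - B * γ + B * A * δ) ∧
    (∃ α β γ δ : R, α ∈ Subring.centralizer ({A, B} : Set R) ∧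
      β ∈ Subring.centralizer ({A, B} : Set R) ∧ γ ∈ Subring.centralizer ({A, B} : Set R) ∧
      δ ∈ Subring.centralizer ({A, B} : Set R) ∧ X * (1 + B) = α + β * A + γ * B + δ * (A * B) ∧
      (1 - B) * Y = α - A * β - B * γ + B * A * δ) ∧
    X + Y ∈ Subring.centralizer ({A, B} : Set R) := by
  obtain ⟨α, β, γ, δ, hα, hβ, hγ, hδ, rfl, rfl⟩ := h
  have hT : A * B + B * A ∈ Subring.centralizer ({A, B} : Set R) := by
    rw [Subring.mem_centralizer_iff]
    rintro g (rfl | rfl)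
    · have : g * (g * B + B * g) - (g * B + B * g) * g = (g * g) * B - B * (g * g) := by
        noncomm_ring
      rw [hA, zero_mul, mul_zero, sub_zero, sub_eq_zero] at this
      exact this
    · have : g * (A * g + g * A) - (A * g + g * A) * g = (g * g) * A - A * (g * g) := by
        noncomm_ring
      rw [hB, zero_mul, mul_zero, sub_zero, sub_eq_zero] at this
      exact this
  have hc : ∀ c ∈ Subring.centralizer ({A, B} : Set R), A * c = c * A ∧ B * c = c * B ∧
      (B * A) * c = c * (B * A) ∧ (A * B + B * A) * c = c * (A * B + B * A) := fun c hc => by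
    rw [Subring.mem_centralizer_iff] at hc
    have h1 : Commute A c := hc A (by simp)
    have h2 : Commute B c := hc B (by simp)
    exact ⟨h1, h2, h2.mul_left h1, (h1.mul_left h2).add_left (h2.mul_left h1)⟩
  refine ⟨⟨α + γ * (A * B + B * A), β + α + δ * (A * B + B * A), γ, δ - γ,
      add_mem hα (mul_mem hγ hT), add_mem (add_mem hβ hα) (mul_mem hδ hT), hγ, sub_mem hδ hγ,
      ?_, ?_⟩, ⟨α, β, γ + α, δ + β, hα, hβ, add_mem hγ hα, add_mem hδ hβ, ?_, ?_⟩, ?_⟩
  · have : (α + β * A + γ * B + δ * (A * B)) * (1 + A) =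
        α + γ * (A * B + B * A) + (β + α + δ * (A * B + B * A)) * A + γ * B + (δ - γ) * (A * B)
          + β * (A * A) - δ * B * (A * A) := by noncomm_ring
    rw [this, hA, mul_zero, mul_zero, add_zero, sub_zero]
  · rw [← (hc γ hγ).2.2.2, ← (hc δ hδ).2.2.2]
    have : (1 - A) * (α - A * β - B * γ + B * A * δ) =
        α + (A * B + B * A) * γ - A * (β + α + (A * B + B * A) * δ) - B * γ + B * A * (δ - γ)
          + (A * A) * β + (A * A) * B * δ := by noncomm_ring
    rw [this, hA, zero_mul, zero_mul, zero_mul, add_zero, add_zero]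
  · have : (α + β * A + γ * B + δ * (A * B)) * (1 + B) =
        α + β * A + (γ + α) * B + (δ + β) * (A * B) + γ * (B * B) + δ * A * (B * B) := by
      noncomm_ring
    rw [this, hB, mul_zero, mul_zero, add_zero, add_zero]
  · have : (1 - B) * (α - A * β - B * γ + B * A * δ) =
        α - A * β - B * (γ + α) + B * A * (δ + β) + (B * B) * γ - (B * B) * A * δ := by
      noncomm_ring
    rw [this, hB, zero_mul, zero_mul, zero_mul, add_zero, sub_zero]
  · rw [(hc β hβ).1, (hc γ hγ).2.1, (hc δ hδ).2.2.1]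
    have : α + β * A + γ * B + δ * (A * B) + (α - β * A - γ * B + δ * (B * A)) =
        α + α + δ * (A * B + B * A) := by noncomm_ring
    rw [this]
    exact add_mem (add_mem hα hα) (mul_mem hδ hT)

theorem closure_ind {G : Type*} [Group G] [Finite G] {s : Set G} {P : G → Prop} (h1 : P 1)
    (h2 : ∀ x, ∀ y ∈ s, P x → P (x * y)) {g : G} (hg : g ∈ closure s) : P g := by
  refine closure_induction_right (p := fun x _ => P x) h1 (fun x _ y hy => h2 x y hy)
    (fun x _ y hy hx => ?_) hg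
  have h3 : ∀ n : ℕ, P (x * y ^ n) := fun n => by
    induction n with
    | zero => simpa using hx
    | succ n ih => rw [pow_succ, ← mul_assoc]; exact h2 _ y hy ih
  have h4 : y⁻¹ = y ^ (orderOf y - 1) := by
    rw [inv_eq_iff_mul_eq_one, ← pow_succ', Nat.sub_add_cancel (orderOf_pos y), pow_orderOf_eq_one]
  rw [h4]; exact h3 _

theorem add_inv_comm {G R : Type*} [Group G] [Finite G] [Ring R] {ρ : G →* R} {a b : G}
    (ha : H5b.Quad ρ a) (hb : H5b.Quad ρ b) {g : G} (hg : g ∈ closure {a, b}) :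
    Commute (ρ b) (ρ g + ρ g⁻¹) := by
  have h1 := closure_ind (P := fun g => ∃ α β γ δ : R,
      α ∈ Subring.centralizer ({ρ a - 1, ρ b - 1} : Set R) ∧
      β ∈ Subring.centralizer ({ρ a - 1, ρ b - 1} : Set R) ∧
      γ ∈ Subring.centralizer ({ρ a - 1, ρ b - 1} : Set R) ∧
      δ ∈ Subring.centralizer ({ρ a - 1, ρ b - 1} : Set R) ∧
      ρ g = α + β * (ρ a - 1) + γ * (ρ b - 1) + δ * ((ρ a - 1) * (ρ b - 1)) ∧
      ρ g⁻¹ = α - (ρ a - 1) * β - (ρ b - 1) * γ + (ρ b - 1) * (ρ a - 1) * δ)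
    ⟨1, 0, 0, 0, one_mem _, zero_mem _, zero_mem _, zero_mem _, by simp, by simp⟩
    (fun x y hy hx => by
      have h := quad_form ha hb _ _ hx
      rw [map_mul, _root_.mul_inv_rev, map_mul]
      rcases hy with rfl | rfl
      · rw [ha.map_inv]
        simpa only [add_sub_cancel] using h.1
      · rw [hb.map_inv]
        simpa only [add_sub_cancel] using h.2.1) hg
  have h2 := (quad_form ha hb _ _ h1).2.2
  rw [Subring.mem_centralizer_iff] at h2
  have h3 : Commute (ρ b - 1) (ρ g + ρ g⁻¹) := h2 _ (by simp)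
  simpa using h3.add_left (Commute.one_left _)

theorem pgroup_of_comm {G : Type*} [Group G] {p : ℕ} {a b : G} (h : Commute a b) (ha : a ^ p = 1)
    (hb : b ^ p = 1) : IsPGroup p (closure {a, b} : Subgroup G) := by
  have h1 : ∀ g ∈ closure ({a, b} : Set G), ∃ i j : ℤ, g = a ^ i * b ^ j := fun g hg => by
    induction hg using closure_induction with
    | mem x hx =>
      rcases hx with rfl | rfl
      · exact ⟨1, 0, by simp⟩
      · exact ⟨0, 1, by simp⟩
    | one => exact ⟨0, 0, by simp⟩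
    | mul x y _ _ hx hy =>
      obtain ⟨i, j, rfl⟩ := hx
      obtain ⟨k, l, rfl⟩ := hy
      refine ⟨i + k, j + l, ?_⟩
      rw [_root_.zpow_add, _root_.zpow_add, mul_assoc, mul_assoc, ← mul_assoc (b ^ j), ← mul_assoc (a ^ k),
        (h.zpow_zpow k j).eq, mul_assoc]
    | inv x _ hx =>
      obtain ⟨i, j, rfl⟩ := hx
      exact ⟨-i, -j, by rw [_root_.mul_inv_rev, (h.zpow_zpow (-i) (-j)).eq, _root_.zpow_neg, _root_.zpow_neg]⟩
  intro g
  obtain ⟨i, j, hg⟩ := h1 g g.2
  refine ⟨1, Subtype.ext ?_⟩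
  rw [pow_one, Subgroup.coe_pow, hg, (h.zpow_zpow i j).mul_pow, ← zpow_natCast, ← zpow_natCast,
    ← _root_.zpow_mul, ← _root_.zpow_mul, mul_comm i, mul_comm j, _root_.zpow_mul, _root_.zpow_mul, zpow_natCast,
    zpow_natCast, ha, hb]
  simp

variable {p : ℕ} [hp : Fact p.Prime] {F : Type} [Field F] [Algebra (ZMod p) F] {G : Type*}
  [Group G]

namespace Dt

variable (d : Dt p F G)

/-- Conjugates of nontrivial root elements. -/
def D (a : G) : Prop := ∃ h t, t ≠ 0 ∧ a = h * d.u t * h⁻¹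

/-- Strong closure of the root group. -/
def SC : Prop := ∀ s ∈ d.S, d.D s → ∃ t, s = d.u t

variable {d}

theorem D.conj {a : G} (h : d.D a) (g : G) : d.D (g * a * g⁻¹) := by
  obtain ⟨h, t, ht, rfl⟩ := h
  exact ⟨g * h, t, ht, by group⟩

theorem D.pow {a : G} (h : d.D a) : a ^ p = 1 := by
  obtain ⟨h, t, ht, rfl⟩ := h
  rw [conj_pow, u_pow_p, mul_one, mul_inv_cancel]

theorem D_u {t : F} (ht : t ≠ 0) : d.D (d.u t) := ⟨1, t, ht, by simp⟩

theorem D.ne_one {a : G} (h : d.D a) : a ≠ 1 := by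
  obtain ⟨h, t, ht, rfl⟩ := h
  intro h1
  rw [mul_inv_eq_one, mul_eq_left] at h1
  exact d.u_ne_one ht h1

theorem D.quad {a : G} (h : d.D a) : H5b.Quad d.ρ a := by
  obtain ⟨h, t, ht, rfl⟩ := h
  refine H5b.Quad.conj ?_ h
  refine LinearMap.ext fun v => ?_
  simp [u_app, ev_zero]

theorem fix_conj (h : G) {t : F} (ht : t ≠ 0) (v : Fin 2 → F) :
    d.ρ (h * d.u t * h⁻¹) v = v ↔ d.ρ h⁻¹ v 1 = 0 := by
  rw [← d.fix_u ht, mul_app, mul_app]
  exact ⟨fun H => d.app_inj h (by rw [H, app_inv]), fun H => by rw [H, app_inv]⟩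

theorem NW_of_comm {z : G} {t : F} (ht : t ≠ 0) (h : Commute z (d.u t)) : z ∈ d.NW :=
  d.NW_of_conj (t' := t) ht (by rw [h.eq, mul_inv_cancel_right])

variable [Finite F] [Finite G]

theorem sc_of_one {s : G} (hs : s ∈ d.S) (h : d.Semi s 1) : ∃ t, s = d.u t := by
  obtain ⟨k, hk⟩ := d.S.isPGroup' ⟨s, hs⟩
  exact d.Q_eq (h.mem_Q (k := k) (congrArg Subtype.val hk))

theorem sc_odd (hp2 : p ≠ 2) : d.SC := fun s hs hD => by
  obtain ⟨σ, hσ⟩ := d.exists_semi (d.S_NW hs)
  have h1 := hσ.pow_eq_one hD.pow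
  have h2 : σ * σ = 1 := by
    obtain ⟨a, b, ha, hb, h3, h4⟩ := hσ
    refine sq_eq_one_of_quad (c1 := -2 * a) (c2 := a * σ a) fun y => ?_
    have h5 := congrFun (LinearMap.congr_fun hD.quad (ev y)) 0
    simp only [Module.End.mul_apply, LinearMap.sub_apply, map_sub, Module.End.one_apply, h3,
      Pi.sub_apply, ev0, map_mul, LinearMap.zero_apply, Pi.zero_apply] at h5
    linear_combination h5
  obtain ⟨k, hk⟩ := hp.out.odd_of_ne_two hp2
  rw [hk, pow_succ, pow_mul, sq, h2, one_pow, one_mul] at h1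
  exact sc_of_one hs (h1 ▸ hσ)

omit [Finite G] in
theorem two_fixed (hp2 : p = 2) (hq : Nat.card F ≠ 4) {σ : F ≃+* F} (h1 : σ ≠ 1) (h2 : σ * σ = 1)
    {c : F} (hc : c * σ c = 1) : ∃ y z : F, y ≠ 0 ∧ z ≠ 0 ∧ y ≠ z ∧ c * σ y = y ∧ c * σ z = z := by
  classical
  subst hp2
  haveI := charP (p := 2) (F := F)
  have hσ : ∀ y, σ (σ y) = y := fun y => RingEquiv.congr_fun h2 y
  by_contra hn
  push Not at hn
  let f : F →+ F := AddMonoidHom.mk' (fun y => y + c * σ y) fun x y => by rw [map_add]; ring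
  have hf : ∀ y, f y = y + c * σ y := fun _ => rfl
  have h3 : ∀ K : AddSubgroup F, (∀ y ∈ K, c * σ y = y) → Nat.card K ≤ 2 := fun K hK => by
    by_cases h : ∃ y ∈ K, y ≠ 0
    · obtain ⟨y, hy, hy0⟩ := h
      have h4 : (K : Set F) ⊆ {0, y} := fun z hz => by
        by_cases hz0 : z = 0
        · exact Or.inl hz0
        · by_contra h5
          exact hn y z hy0 hz0 (fun h => h5 (Or.inr h.symm)) (hK y hy) (hK z hz)
      have h5 := Set.ncard_le_ncard h4 (Set.toFinite _)
      rw [Set.ncard_pair hy0.symm] at h5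
      exact h5
    · push Not at h
      have : K = ⊥ := (AddSubgroup.eq_bot_iff_forall K).mpr h
      rw [this, AddSubgroup.card_bot]; omega
  have h4 := h3 f.ker fun y hy => by
    rw [AddMonoidHom.mem_ker, hf] at hy
    have := CharTwo.add_self_eq_zero y
    linear_combination hy - this
  have h5 := h3 f.range (by
    rintro _ ⟨y, rfl⟩
    rw [hf, map_add, map_mul, hσ]
    linear_combination y * hc)
  have h6 := f.ker.card_mul_index
  rw [AddSubgroup.index_ker] at h6
  have h7 : Nat.card F ≤ 4 := by rw [← h6]; exact Nat.mul_le_mul h4 h5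
  haveI := Fintype.ofFinite F
  obtain ⟨n, -, hn2⟩ := FiniteField.card F 2
  rw [← Nat.card_eq_fintype_card] at hn2
  have h8 : Nat.card F = 2 := by
    obtain ⟨n, hn0⟩ := n
    simp only [PNat.mk_coe] at hn2
    rcases n with _ | _ | _ | n
    · omega
    · simpa using hn2
    · exact absurd hn2 hq
    · rw [hn2, pow_succ, pow_succ, pow_succ] at h7
      have := Nat.two_pow_pos n
      omega
  refine h1 (RingEquiv.ext fun y => ?_)
  obtain ⟨w, -, hw⟩ := (Nat.card_eq_two_iff' (0 : F)).mp h8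
  by_cases hy : y = 0
  · rw [hy, map_zero, map_zero]
  · rw [(hw y hy).trans (hw 1 one_ne_zero).symm, map_one, map_one]

theorem sc_two (hp2 : p = 2) (hq : Nat.card F ≠ 4) : d.SC := fun s hs hD => by
  obtain ⟨σ, hσ⟩ := d.exists_semi (d.S_NW hs)
  by_cases h1 : σ = 1
  · exact sc_of_one hs (h1 ▸ hσ)
  exfalso
  haveI := charP (p := p) (F := F)
  have hs2 := hD.pow
  have h2 := hσ.pow_eq_one hs2
  have hσ' := hσ
  obtain ⟨a, b, ha, hb, h3, h4⟩ := hσ
  subst hp2
  rw [sq] at h2 hs2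
  have hσσ : ∀ y, σ (σ y) = y := fun y => RingEquiv.congr_fun h2 y
  have h5 : a * σ a = 1 := by
    have := h3 (a * σ 1)
    rw [← h3, ← mul_app, hs2, one_app, map_one, mul_one] at this
    exact (ev_inj this).symm
  have h6 : b * σ b = 1 := by
    have := h4 (d.ρ s ![0, 1])
    rw [← mul_app, hs2, one_app, h4] at this
    simpa using this.symm
  have hb' : σ b ≠ 0 := by simpa using hb
  obtain ⟨y, z, hy, hz, hyz, h7, h8⟩ := two_fixed (p := 2) rfl hq h1 h2 (c := a / b) (by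
    rw [map_div₀, div_mul_div_comm, h5, h6, div_one])
  obtain ⟨h, t, ht, hst⟩ := hD
  have key : ∀ y : F, y ≠ 0 → a / b * σ y = y →
      ∃ τ, τ ≠ 1 ∧ τ * τ = 1 ∧ d.Semi (h⁻¹ * d.u y * h) τ := fun y hy hy' => by
    have c1 : Commute s (d.u y) := d.gext fun v => by
      rw [mul_app, mul_app, u_app, u_app, map_add, h3, h4, map_mul]
      congr 2
      have : a * σ y = y * b := by rw [← hy']; nth_rw 2 [← hy']; field_simp
      rw [← mul_assoc, this, mul_assoc]
    have c2 : Commute (h⁻¹ * d.u y * h) (d.u t) := by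
      have := c1.symm.eq
      rw [hst] at this
      change _ = _
      calc h⁻¹ * d.u y * h * d.u t = h⁻¹ * (d.u y * (h * d.u t * h⁻¹)) * h := by group
        _ = _ := by rw [this]; group
    obtain ⟨τ, hτ⟩ := d.exists_semi (NW_of_comm ht c2)
    have c3 : (h⁻¹ * d.u y * h) ^ 2 = 1 := by simpa using ((D_u (d := d) hy).conj h⁻¹).pow
    refine ⟨τ, ?_, by rw [← sq]; exact hτ.pow_eq_one c3, hτ⟩
    rintro rfl
    have c4 := hτ.mem_Q (k := 1) (by rw [pow_one]; exact c3)
    have c5 : h ∈ d.NW := d.mem_NW_of fun x => by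
      have := c4.1 x
      rw [← inv_inv h, inv_inv h⁻¹, fix_conj h⁻¹ hy, inv_inv] at this
      exact this
    exact h1 (hσ'.uniq (semi_of_Q (hst ▸ d.Q_conj c5 (d.u_mem_Q t))))
  obtain ⟨τ1, a1, a2, a3⟩ := key y hy h7
  obtain ⟨τ2, b1, b2, b3⟩ := key z hz h8
  obtain ⟨τ3, c1, c2, c3⟩ := key (y + z) (fun h => hyz (by
    have := CharTwo.add_self_eq_zero z
    linear_combination h - this)) (by rw [map_add, mul_add, h7, h8])
  have e1 := a3.mul b3
  rw [← inv_unique a2 b2 a1 b1, a2] at e1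
  refine c1 (c3.uniq ?_)
  convert e1 using 1
  rw [u_add]; group

theorem SC.same (h : d.SC) {P : Subgroup G} (hP : IsPGroup p P) {a b : G} (ha : d.D a)
    (hb : d.D b) (haP : a ∈ P) (hbP : b ∈ P) :
    ∃ g s t, a = g * d.u s * g⁻¹ ∧ b = g * d.u t * g⁻¹ := by
  obtain ⟨T, hT⟩ := hP.exists_le_sylow
  obtain ⟨g, hg⟩ := MulAction.exists_smul_eq G d.S T
  have h1 : ∀ x ∈ P, d.D x → ∃ s, x = g * d.u s * g⁻¹ := fun x hx hD => by
    have h2 := hT hx
    rw [← hg, Sylow.coe_subgroup_smul, Subgroup.mem_pointwise_smul_iff_inv_smul_mem] at h2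
    have h3 : g⁻¹ * x * g⁻¹⁻¹ ∈ (d.S : Subgroup G) := by simpa using h2
    obtain ⟨s, hs⟩ := h _ h3 (hD.conj _)
    exact ⟨s, by rw [← hs]; group⟩
  obtain ⟨s, hs⟩ := h1 a haP ha
  obtain ⟨t, ht⟩ := h1 b hbP hb
  exact ⟨g, s, t, hs, ht⟩

theorem SC.fix (h : d.SC) {P : Subgroup G} (hP : IsPGroup p P) {a z : G} (ha : d.D a)
    (hb : d.D (a * z)) (haP : a ∈ P) (hzP : z ∈ P) (hz : z ≠ 1) (v : Fin 2 → F) :
    d.ρ a v = v ↔ d.ρ z v = v := by
  obtain ⟨g, s, t, hs, ht⟩ := h.same hP ha hb haP (P.mul_mem haP hzP)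
  have h1 : z = g * d.u (t - s) * g⁻¹ := by
    have : d.u t = d.u s * d.u (t - s) := by rw [← u_add, add_sub_cancel]
    rw [this] at ht
    apply mul_left_cancel (a := a)
    rw [ht, hs]; group
  have hs0 : s ≠ 0 := by
    rintro rfl
    exact ha.ne_one (by rw [hs, u_zero]; group)
  have hs1 : t - s ≠ 0 := fun h0 => hz (by rw [h1, h0, u_zero]; group)
  rw [hs, fix_conj g hs0, h1, fix_conj g hs1]

theorem span_act {a b : G} {x : Fin 2 → F} (ha : d.ρ a (ev 1) = ev 1) (hb : d.ρ b (ev 1) = ev 1)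
    (hax : d.ρ a x = x + ev 1) (hbx : d.ρ b x = x) {g : G} (hg : g ∈ closure {a, b}) :
    d.ρ g (ev 1) = ev 1 ∧ ∃ n : ℕ, d.ρ g x = x + n • ev 1 := by
  refine closure_ind (P := fun g => d.ρ g (ev 1) = ev 1 ∧ ∃ n : ℕ, d.ρ g x = x + n • ev 1)
    ⟨d.one_app _, 0, by simp⟩ ?_ hg
  rintro y z (rfl | rfl) ⟨h1, n, h2⟩
  · exact ⟨by rw [mul_app, ha, h1], n + 1, by rw [mul_app, hax, map_add, h1, h2, succ_nsmul,
      add_assoc]⟩
  · exact ⟨by rw [mul_app, hb, h1], n, by rw [mul_app, hbx, h2]⟩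

theorem SC.spread_two (h : d.SC) (hp2 : p = 2) {k : G} (hk : d.ρ k (ev 1) = ev 1) :
    k ∈ d.NW := by
  haveI := charP (p := p) (F := F)
  refine d.mem_NW_of fun y => ?_
  by_contra hx
  subst hp2
  set x := d.ρ k (ev y) with hxd
  have ha : d.D (d.u (x 1)⁻¹) := D_u (inv_ne_zero hx)
  have hb : d.D (k * d.u 1 * k⁻¹) := (D_u one_ne_zero).conj k
  have ha1 : d.ρ (d.u (x 1)⁻¹) (ev 1) = ev 1 := (d.u_mem_Q _).1 1
  have hax : d.ρ (d.u (x 1)⁻¹) x = x + ev 1 := by rw [u_app, inv_mul_cancel₀ hx]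
  have hb1 : d.ρ (k * d.u 1 * k⁻¹) (ev 1) = ev 1 := by
    rw [fix_conj k one_ne_zero, ← hk, inv_app]; rfl
  have hbx : d.ρ (k * d.u 1 * k⁻¹) x = x := by
    rw [fix_conj k one_ne_zero, hxd, inv_app]; rfl
  generalize d.u (x 1)⁻¹ = a at *
  generalize k * d.u 1 * k⁻¹ = b at *
  have ha2 := ha.pow
  have hb2 := hb.pow
  rw [sq] at ha2 hb2
  have ha3 : a⁻¹ = a := inv_eq_of_mul_eq_one_right ha2
  have hb3 : b⁻¹ = b := inv_eq_of_mul_eq_one_right hb2
  have h1 : ∀ n : ℕ, d.ρ ((a * b) ^ n) x = x + ev (n : F) := fun n => by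
    have e : ∀ n : ℕ, d.ρ ((a * b) ^ n) (ev 1) = ev 1 := fun n => by
      induction n with
      | zero => rw [pow_zero, one_app]
      | succ n ih => rw [pow_succ, mul_app, mul_app, hb1, ha1, ih]
    induction n with
    | zero => simp [ev_zero]
    | succ n ih =>
      rw [pow_succ, mul_app, mul_app, hbx, hax, map_add, ih, e, add_assoc, ← ev_add]
      push_cast; rfl
  have h2 := h1 (orderOf (a * b))
  rw [pow_orderOf_eq_one, one_app, left_eq_add, ← ev_zero] at h2
  obtain ⟨m, hm⟩ := (CharP.cast_eq_zero_iff F 2 _).mp (ev_inj h2)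
  have hm0 : 0 < m := by have := orderOf_pos (a * b); omega
  have hz : (a * b) ^ m ≠ 1 := pow_ne_one_of_lt_orderOf hm0.ne' (by omega)
  have hz2 : ((a * b) ^ m) ^ 2 = 1 := by rw [← pow_mul, mul_comm m, ← hm, pow_orderOf_eq_one]
  have h3 : a * (a * b) * a⁻¹ = (a * b)⁻¹ := by
    rw [← mul_assoc, ha2, one_mul, _root_.mul_inv_rev, hb3]
  have h4 : Commute a ((a * b) ^ m) := by
    have := congrArg (· ^ m) h3
    simp only [conj_pow, inv_pow] at this
    rw [inv_eq_of_mul_eq_one_right (by rw [← sq]; exact hz2 : (a * b) ^ m * (a * b) ^ m = 1),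
      mul_inv_eq_iff_eq_mul] at this
    exact this
  have h5 : Commute b ((a * b) ^ m) := by
    have : Commute (a * (a * b)) ((a * b) ^ m) :=
      h4.mul_left (Commute.self_pow _ _)
    rwa [← mul_assoc, ha2, one_mul] at this
  have h6 : ∀ n : ℕ, d.D (a * (a * b) ^ n) ∧ d.D (a * (a * b) ^ (n + 1)) := fun n => by
    induction n with
    | zero => exact ⟨by simpa using ha, by rwa [zero_add, pow_one, ← mul_assoc, ha2, one_mul]⟩
    | succ n ih =>
      refine ⟨ih.2, ?_⟩
      have e := ih.1.conj (a * b)⁻¹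
      rw [inv_inv, ← h3] at e
      convert e using 1
      rw [pow_succ, pow_succ']
      simp only [mul_assoc, inv_mul_cancel_left]
  have h7 := h.fix (pgroup_of_comm h4 ha.pow hz2) ha (h6 m).1 (subset_closure (by simp))
    (subset_closure (by simp)) hz x
  have h8 := h.fix (pgroup_of_comm h5 hb.pow hz2) hb (by
    have := (h6 m).2
    rwa [pow_succ', ← mul_assoc, ← mul_assoc, ha2, one_mul] at this) (subset_closure (by simp))
    (subset_closure (by simp)) hz x
  have h9 := h7.mpr (h8.mp hbx)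
  rw [hax, add_eq_left, ← ev_zero] at h9
  exact one_ne_zero (ev_inj h9)

theorem SC.inv_fix (h : d.SC) (hp2 : p ≠ 2) {k : G} (hk : d.ρ k (ev 1) = ev 1) {y : F}
    (hx : d.ρ k (ev y) 1 ≠ 0) : ∃ σ : F ≃+* F, σ ≠ 1 ∧ σ * σ = 1 ∧ σ y = y := by
  haveI := charP (p := p) (F := F)
  have h2F : (2 : F) ≠ 0 := fun h0 => hp2 ((Nat.prime_dvd_prime_iff_eq hp.out Nat.prime_two).mp
    ((CharP.cast_eq_zero_iff F p 2).mp (by exact_mod_cast h0)))
  set x := d.ρ k (ev y) with hxd
  have ha : d.D (d.u (x 1)⁻¹) := D_u (inv_ne_zero hx)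
  have hb : d.D (k * d.u 1 * k⁻¹) := (D_u one_ne_zero).conj k
  have ha1 : d.ρ (d.u (x 1)⁻¹) (ev 1) = ev 1 := (d.u_mem_Q _).1 1
  have hax : d.ρ (d.u (x 1)⁻¹) x = x + ev 1 := by rw [u_app, inv_mul_cancel₀ hx]
  have hb1 : d.ρ (k * d.u 1 * k⁻¹) (ev 1) = ev 1 := by
    rw [fix_conj k one_ne_zero, ← hk, inv_app]; rfl
  have hbx : d.ρ (k * d.u 1 * k⁻¹) x = x := by
    rw [fix_conj k one_ne_zero, hxd, inv_app]; rfl
  generalize d.u (x 1)⁻¹ = a at *
  have hn : ¬ IsPGroup p (closure {a, k * d.u 1 * k⁻¹} : Subgroup G) := fun hP => by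
    obtain ⟨g, s, t, hs, ht⟩ := h.same hP ha hb (subset_closure (by simp))
      (subset_closure (by simp))
    have hs0 : s ≠ 0 := by
      rintro rfl
      exact ha.ne_one (by rw [hs, u_zero]; group)
    have ht0 : t ≠ 0 := by
      rintro rfl
      exact hb.ne_one (by rw [ht, u_zero]; group)
    rw [ht, fix_conj g ht0, ← fix_conj g hs0, ← hs, hax, add_eq_left, ← ev_zero] at hbx
    exact one_ne_zero (ev_inj hbx)
  obtain ⟨κ, hκ, hκ'⟩ := H5b.natSub_of_not_isPGroup hp2 d.inj ha.quad hb.quad hn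
  obtain ⟨g, hg, hg'⟩ := hκ' (-1)
  have h1 : ∀ w, d.ρ g (κ w) = -κ w := fun w => by
    rw [H5b.mem_planeGraph.mp hg' w, ← map_neg]
    simp [Matrix.neg_mulVec]
  have h2 : ∀ n : ℕ, ∀ w, d.ρ (g ^ n) (κ w) = (-1 : ℤ) ^ n • κ w := fun n w => by
    induction n with
    | zero => simp
    | succ n ih => rw [pow_succ, mul_app, h1, map_neg, ih, pow_succ]; simp
  have h3 : Even (orderOf g) := by
    by_contra h4
    have h5 := h2 (orderOf g) ![1, 0]
    rw [pow_orderOf_eq_one, one_app, (Nat.not_even_iff_odd.mp h4).neg_one_pow, neg_one_zsmul,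
      ← map_neg] at h5
    have h6 := congrFun (hκ h5) 0
    have h7 : (2 : ZMod p) = 0 := by
      simp only [Matrix.cons_val_zero, Pi.neg_apply] at h6
      linear_combination h6
    exact hp2 ((Nat.prime_dvd_prime_iff_eq hp.out Nat.prime_two).mp
      ((ZMod.natCast_eq_zero_iff 2 p).mp (by exact_mod_cast h7)))
  obtain ⟨m, hm⟩ := h3
  have hm0 : 0 < m := by have := orderOf_pos g; omega
  have hz : g ^ m ≠ 1 := pow_ne_one_of_lt_orderOf hm0.ne' (by omega)
  have hz2 : g ^ m * g ^ m = 1 := by rw [← pow_add, ← hm, pow_orderOf_eq_one]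
  have hzm := pow_mem hg m
  generalize g ^ m = z at *
  have h4 := add_inv_comm ha.quad hb.quad hzm
  rw [inv_eq_of_mul_eq_one_right hz2] at h4
  have h5 : Commute (k * d.u 1 * k⁻¹) z := d.gext fun v => by
    have e := LinearMap.congr_fun h4.eq v
    simp only [Module.End.mul_apply, LinearMap.add_apply, map_add] at e
    rw [d.mul_app _ z, d.mul_app z]
    have e2 : ∀ v w : Fin 2 → F, v + v = w + w → v = w := fun v w h => by
      ext i
      have := congrFun h i
      simp only [Pi.add_apply] at this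
      exact mul_left_cancel₀ h2F (by linear_combination this)
    exact e2 _ _ e
  obtain ⟨h6, n, h7⟩ := span_act ha1 hb1 hax hbx hzm
  have h8 : d.ρ z x = x := by
    have e := d.mul_app z z x
    rw [hz2, one_app, h7, map_add, map_nsmul, h6, h7, add_assoc, left_eq_add] at e
    have e1 := congrFun e 0
    have e2 : (n • ev (1 : F)) = 0 := vext (mul_left_cancel₀ h2F (by
      simp only [Pi.add_apply, Pi.zero_apply] at e1 ⊢
      linear_combination e1)) (by simp)
    rw [h7, e2, add_zero]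
  have c1 : Commute (k⁻¹ * z * k) (d.u 1) := by
    change _ = _
    calc k⁻¹ * z * k * d.u 1 = k⁻¹ * (z * (k * d.u 1 * k⁻¹)) * k := by group
      _ = _ := by rw [← h5.eq]; group
  obtain ⟨σ, hσ⟩ := d.exists_semi (NW_of_comm one_ne_zero c1)
  have c2 : (k⁻¹ * z * k) ^ 2 = 1 := by
    rw [sq]
    calc k⁻¹ * z * k * (k⁻¹ * z * k) = k⁻¹ * (z * z) * k := by group
      _ = 1 := by rw [hz2]; group
  have c3 : d.ρ (k⁻¹ * z * k) (ev 1) = ev 1 := by
    rw [mul_app, mul_app, hk, h6, ← hk, inv_app, hk]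
  have c4 : d.ρ (k⁻¹ * z * k) (ev y) = ev y := by
    rw [mul_app, mul_app, ← hxd, h8, hxd, inv_app]
  refine ⟨σ, ?_, by rw [← sq]; exact hσ.pow_eq_one c2, ?_⟩
  · rintro rfl
    obtain ⟨α, β, -, -, e1, e2⟩ := hσ
    have e3 := e1 1
    rw [c3, map_one, mul_one] at e3
    rw [← ev_inj e3] at e1
    have e4 : k⁻¹ * z * k ∈ d.Q := by
      refine ⟨fun y => by rw [e1, one_mul]; rfl, fun v => ?_⟩
      have e5 := congrArg (fun g => d.ρ g v) c1.eq
      simp only [d.mul_app (k⁻¹ * z * k), d.mul_app (d.u 1), u_app, map_add, e1, add_right_inj,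
        one_mul] at e5
      exact (ev_inj e5).symm
    have e6 := d.Q_pow e4
    obtain ⟨j, hj⟩ := hp.out.odd_of_ne_two hp2
    rw [hj, pow_succ, pow_mul, c2, one_pow, one_mul] at e6
    apply hz
    calc z = k * (k⁻¹ * z * k) * k⁻¹ := by group
      _ = 1 := by rw [e6]; group
  · obtain ⟨α, β, -, -, e1, e2⟩ := hσ
    have e3 := e1 1
    rw [c3, map_one, mul_one] at e3
    have e4 := e1 y
    rw [c4, ← ev_inj e3, one_mul] at e4
    exact (ev_inj e4).symm

theorem SC.spread (h : d.SC) {k : G} (hk : d.ρ k (ev 1) = ev 1) : k ∈ d.NW := by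
  by_cases hp2 : p = 2
  · exact h.spread_two hp2 hk
  refine d.mem_NW_of fun y => ?_
  by_contra hx
  obtain ⟨σ, h1, h2, h3⟩ := h.inv_fix hp2 hk hx
  obtain ⟨z, hz⟩ : ∃ z, σ z ≠ z := by
    by_contra h'
    push Not at h'
    exact h1 (RingEquiv.ext h')
  have h4 : d.ρ k (ev z) 1 = 0 := by
    by_contra h5
    obtain ⟨τ, a1, a2, a3⟩ := h.inv_fix hp2 hk h5
    exact hz (inv_unique h2 a2 h1 a1 ▸ a3)
  obtain ⟨τ, a1, a2, a3⟩ := h.inv_fix hp2 hk (y := y + z) (by
    rwa [ev_add, map_add, Pi.add_apply, h4, add_zero])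
  rw [← inv_unique h2 a2 h1 a1, map_add, h3, add_right_inj] at a3
  exact hz a3

omit [Finite F] [Finite G] in
theorem exists_col (v : Fin 2 → F) (hv : v ≠ 0) : ∃ m : S2 F, (m : M2 F) *ᵥ ev 1 = v := by
  by_cases h : v 0 = 0
  · have h1 : v 1 ≠ 0 := fun h1 => hv (vext h h1)
    exact ⟨mkS 0 (-(v 1)⁻¹) (v 1) 0 (by simp [h1]), vext (by simp [mv0, h]) (by simp [mv1])⟩
  · exact ⟨mkS (v 0) 0 (v 1) (v 0)⁻¹ (by simp [h]), vext (by simp [mv0]) (by simp [mv1])⟩

theorem SC.normal (h : d.SC) : d.ι.range.Normal := by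
  have h1 : ∀ g t, g * d.u t * g⁻¹ ∈ d.ι.range := fun g t => by
    obtain ⟨m, hm⟩ := exists_col (d.ρ g (ev 1)) fun h0 => one_ne_zero (ev_inj (d.app_inj g (by
      rw [h0, ev_zero, map_zero])))
    have h2 : (d.ι m)⁻¹ * g ∈ d.NW := h.spread (by rw [mul_app, ← hm, ← d.act, inv_app])
    obtain ⟨s, hs⟩ := d.Q_eq (d.Q_conj h2 (d.u_mem_Q t))
    refine ⟨m * uu s * m⁻¹, ?_⟩
    rw [map_mul, map_mul, map_inv]
    change _ * d.u s * _ = _
    rw [← hs]; group
  refine ⟨?_⟩
  rintro _ ⟨m, rfl⟩ g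
  have h2 := H10.SL_eq_top_of_transvection_mem
    (d.ι.range.comap ((MulAut.conj g).toMonoidHom.comp d.ι)) fun i j hij a => by
    fin_cases i <;> fin_cases j
    · exact absurd rfl hij
    · have : Matrix.SpecialLinearGroup.transvection hij a = uu a :=
        Subtype.ext (m2_ext (by simp [Matrix.SpecialLinearGroup.transvection, Matrix.transvection])
          (by simp [Matrix.SpecialLinearGroup.transvection, Matrix.transvection])
          (by simp [Matrix.SpecialLinearGroup.transvection, Matrix.transvection])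
          (by simp [Matrix.SpecialLinearGroup.transvection, Matrix.transvection]))
      rw [this]
      exact h1 g a
    · have : Matrix.SpecialLinearGroup.transvection hij a =
          mkS 0 (-1) 1 0 (by simp) * uu (-a) * (mkS 0 (-1) 1 0 (by simp))⁻¹ := by
        rw [eq_mul_inv_iff_mul_eq]
        refine Subtype.ext ?_
        rw [Matrix.SpecialLinearGroup.coe_mul, Matrix.SpecialLinearGroup.coe_mul]
        refine m2_ext ?_ ?_ ?_ ?_ <;> rw [m2_mul_apply, m2_mul_apply] <;>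
          simp [Matrix.SpecialLinearGroup.transvection, Matrix.transvection]
      rw [this, Subgroup.mem_comap]
      have e := h1 (g * d.ι (mkS 0 (-1) 1 0 (by simp))) (-a)
      convert e using 1
      simp only [MonoidHom.comp_apply, map_mul, map_inv, MulEquiv.coe_toMonoidHom,
        MulAut.conj_apply, u]
      group
    · exact absurd rfl hij
  exact (h2 ▸ Subgroup.mem_top m : m ∈ d.ι.range.comap _)

end Dt

end Cfsg.Agent.H29.NSL
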