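import Mathlib
import Cfsg.Agent.H29.NSL2
import Cfsg.Agent.H10.SmallIso2
import Cfsg.Agent.H16.Supp

/-! Overgroups of `SL₂(q)` on its natural module with a Sylow subgroup normalizing it. III. -/

set_option autoImplicit false

open Matrix Subgroup
open scoped MatrixGroups

namespace Cfsg.Agent.H29.NSL

open Cfsg.Agent.L0

theorem triv_of_simple {A B : Type*} [Group A] [Group B] [IsSimpleGroup A] (f : A →* B)
    (h : ¬ Nat.card A ∣ Nat.card B) (a : A) : f a = 1 := by
  rcases f.normal_ker.eq_bot_or_eq_top with h1 | h1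
  · exact absurd (Subgroup.card_dvd_of_injective f ((MonoidHom.ker_eq_bot_iff f).mp h1)) h
  · exact (h1 ▸ Subgroup.mem_top a : a ∈ f.ker)

theorem conj_mem_of_index {A G : Type*} [Group A] [Group G] [Finite G] [IsSimpleGroup A]
    (f : A →* G) (N : Subgroup G) (h : ¬ Nat.card A ∣ N.index.factorial) (a : A) (g : G) :
    g * f a * g⁻¹ ∈ N := by
  have h1 := triv_of_simple ((MulAction.toPermHom G (G ⧸ N)).comp f) (by
    rw [Nat.card_perm]; exact h) a
  have h2 : f a ∈ N.normalCore := by rw [Subgroup.normalCore_eq_ker]; exact h1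
  exact h2 g

theorem a7_of {G : Type*} [Group G] [Finite G] (φ : G →* Equiv.Perm (Fin 8))
    (hφ : Function.Injective φ) (hs : ∀ g, Equiv.Perm.sign (φ g) = 1) (h1 : 840 ∣ Nat.card G)
    (h2 : Nat.card G ∣ 2520) : Nonempty (G ≃* alternatingGroup (Fin 7)) := by
  classical
  haveI : Fact (Nat.Prime 7) := ⟨by norm_num⟩
  haveI : Fact (Nat.Prime 5) := ⟨by norm_num⟩
  obtain ⟨c, hc⟩ := exists_prime_orderOf_dvd_card' (G := G) 7 (dvd_trans (by norm_num) h1)
  obtain ⟨e, he⟩ := exists_prime_orderOf_dvd_card' (G := G) 5 (dvd_trans (by norm_num) h1)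
  rw [← orderOf_injective φ hφ] at hc he
  have hc1 : (φ c).IsCycle := Equiv.Perm.isCycle_of_prime_order' (by rw [hc]; norm_num)
    (by rw [hc]; simp)
  have he1 : (φ e).IsCycle := Equiv.Perm.isCycle_of_prime_order' (by rw [he]; norm_num)
    (by rw [he]; simp)
  rw [hc1.orderOf] at hc
  rw [he1.orderOf] at he
  obtain ⟨f, hf⟩ := Finset.card_eq_one.mp (show (φ c).supportᶜ.card = 1 by
    rw [Finset.card_compl, hc]; simp)
  have hf1 : ∀ x, φ c x ≠ x ↔ x ≠ f := fun x => by
    rw [← Equiv.Perm.mem_support, ne_eq, ← Finset.mem_singleton, ← hf, Finset.mem_compl, not_not]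
  have hf2 : ∀ x y, x ≠ f → y ≠ f → ∃ g, φ g x = y ∧ φ g f = f := fun x y hx hy => by
    obtain ⟨i, hi⟩ := hc1.exists_pow_eq ((hf1 x).mpr hx) ((hf1 y).mpr hy)
    refine ⟨c ^ i, by rw [map_pow, hi], ?_⟩
    rw [map_pow]
    exact Equiv.Perm.pow_apply_eq_self_of_apply_eq_self (by
      by_contra h; exact (hf1 f).mp h rfl) i
  by_cases hfix : ∀ g, φ g f = f
  · have h3 : ∀ g x, φ g x ≠ f ↔ x ≠ f := fun g x => by
      rw [ne_eq, ne_eq]
      nth_rw 1 [← hfix g]
      rw [(φ g).apply_eq_iff_eq]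
    let ψ : G →* Equiv.Perm {x // x ≠ f} := MonoidHom.mk' (fun g => (φ g).subtypePerm (h3 g))
      fun a b => Equiv.ext fun x => Subtype.ext (by
        change φ (a * b) x = φ a (φ b x)
        rw [map_mul]; rfl)
    have hψ : Function.Injective ψ := by
      rw [injective_iff_map_eq_one]
      intro g hg
      refine hφ (Equiv.ext fun x => ?_)
      rw [map_one]
      by_cases hx : x = f
      · rw [hx, hfix]; rfl
      · exact congrArg Subtype.val (Equiv.congr_fun hg ⟨x, hx⟩)
    have hcard : Nat.card {x // x ≠ f} = 7 := by simp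
    refine H10.nonempty_equiv_alternating_of_injective hcard ψ hψ ?_
    let ψ' : G →* alternatingGroup {x // x ≠ f} := ψ.codRestrict _ fun g => by
      rw [Equiv.Perm.mem_alternatingGroup, ← hs g]
      have h4 : ∀ x, φ g x ≠ x → x ≠ f := fun x hx h => hx (by rw [h, hfix])
      convert Equiv.Perm.sign_subtypePerm (φ g) (h3 g) h4
      rfl
    have hψ' : Function.Injective ψ' := fun a b h => hψ (congrArg Subtype.val h)
    haveI := alternatingGroup.isSimpleGroup (α := {x // x ≠ f}) (by rw [hcard]; norm_num)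
    haveI : Nontrivial {x // x ≠ f} := Finite.one_lt_card_iff_nontrivial.mp (by omega)
    have h4 : Nat.card (alternatingGroup {x // x ≠ f}) = 2520 := by
      rw [nat_card_alternatingGroup, hcard]; rfl
    have h5 := ψ'.range.card_mul_index
    rw [h4, ← Nat.card_congr (MonoidHom.ofInjective hψ').toEquiv] at h5
    obtain ⟨k, hk⟩ := h1
    have h6 : ψ'.range.index ≤ 3 := by
      have : k * ψ'.range.index = 3 := by rw [hk, mul_assoc] at h5; omega
      exact Nat.le_of_dvd (by norm_num) (Dvd.intro_left _ this)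
    have h7 : ψ'.range = ⊤ := eq_top_iff.mpr fun a _ => by
      have := conj_mem_of_index (MonoidHom.id _) ψ'.range (by
        rw [h4]
        intro h
        have := (Nat.le_of_dvd (Nat.factorial_pos _) h).trans (Nat.factorial_le h6)
        norm_num [Nat.factorial] at this) a 1
      simpa using this
    rw [h7, Subgroup.index_top, mul_one] at h5
    rw [h5]; rfl
  · exfalso
    push Not at hfix
    obtain ⟨g0, hg0⟩ := hfix
    have h3 : ∀ a, ∃ g, φ g f = a := fun a => by
      by_cases ha : a = f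
      · exact ⟨1, by simp [ha]⟩
      · obtain ⟨g, hg, -⟩ := hf2 _ a hg0 ha
        exact ⟨g * g0, by rw [map_mul, Equiv.Perm.mul_apply, hg]⟩
    have h4 : MulAction.IsMultiplyPretransitive φ.range (Fin 8) 2 := by
      rw [MulAction.is_two_pretransitive_iff]
      intro a b a' b' hab hab'
      obtain ⟨g1, rfl⟩ := h3 a
      obtain ⟨g2, rfl⟩ := h3 a'
      obtain ⟨g, hg, hg'⟩ := hf2 ((φ g1)⁻¹ b) ((φ g2)⁻¹ b')
        (fun h => hab (by rw [← h]; simp)) (fun h => hab' (by rw [← h]; simp))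
      refine ⟨⟨φ (g2 * g * g1⁻¹), _, rfl⟩, ?_, ?_⟩
      · change φ (g2 * g * g1⁻¹) _ = _
        simp [hg']
      · change φ (g2 * g * g1⁻¹) _ = _
        rw [map_mul, map_mul, map_inv, Equiv.Perm.mul_apply, Equiv.Perm.mul_apply, hg]
        simp
    have h5 := H16.jordan_prime_cycle (MulAction.isPreprimitive_of_is_two_pretransitive h4)
      (p := 5) (by norm_num) (by simp) he1 he ⟨e, rfl⟩
    have h6 := Subgroup.card_dvd_of_le h5
    rw [nat_card_alternatingGroup, ← Nat.card_congr (MonoidHom.ofInjective hφ).toEquiv] at h6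
    have h7 := Nat.le_of_dvd (by norm_num) (h6.trans h2)
    norm_num [Nat.factorial] at h7

variable {F : Type} [Field F] [Finite F] {G : Type*} [Group G] [Finite G]

namespace Dt

theorem exists_a8 [Algebra (ZMod 2) F] (d : Dt 2 F G) (hq : Nat.card F = 4) :
    ∃ φ : G →* alternatingGroup (Fin 8), Function.Injective φ := by
  have h1 : Module.finrank (ZMod 2) (Fin 2 → F) = 4 := by
    have := Module.natCard_eq_pow_finrank (K := ZMod 2) (V := Fin 2 → F)
    rw [Nat.card_fun, hq, Nat.card_zmod] at this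
    have h2 : 2 ^ 4 = 2 ^ Module.finrank (ZMod 2) (Fin 2 → F) := by rw [← this]; simp
    exact (Nat.pow_right_injective le_rfl h2).symm
  let b := Module.finBasisOfFinrankEq (ZMod 2) (Fin 2 → F) h1
  let μ : G →* Matrix (Fin 4) (Fin 4) (ZMod 2) :=
    (LinearMap.toMatrixAlgEquiv b).toMulEquiv.toMonoidHom.comp d.ρ
  have hμ : Function.Injective μ := (LinearMap.toMatrixAlgEquiv b).injective.comp d.inj
  have h2 : ∀ g, (μ g).det = 1 := fun g => by
    have h3 : (μ g).det * (μ g⁻¹).det = 1 := by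
      rw [← Matrix.det_mul, ← map_mul, mul_inv_cancel, map_one, Matrix.det_one]
    generalize (μ g).det = x at *
    generalize (μ g⁻¹).det = y at *
    revert x y; decide
  let ν : G →* SL(4, ZMod 2) := MonoidHom.mk' (fun g => ⟨μ g, h2 g⟩) fun a b =>
    Subtype.ext (map_mul μ a b)
  obtain ⟨e⟩ := H10.SL4_zmod_two
  exact ⟨e.toMonoidHom.comp ν, e.injective.comp fun a b h => hμ (congrArg Subtype.val h)⟩

theorem card_S [Algebra (ZMod 2) F] (d : Dt 2 F G) (hq : Nat.card F = 4) {s : G} (hs : s ∈ d.S)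
    (hs' : ∀ t, s ≠ d.u t) : Nat.card d.S = 8 := by
  haveI := Fintype.ofFinite F
  haveI := charP (p := 2) (F := F)
  have hA := (H13.ringAut_cyc_card (K := F) (p := 2) (f := 2)
    (by rw [← Nat.card_eq_fintype_card, hq]; rfl)).2
  have h1 : Nat.card d.Q = 4 := by
    rw [← hq]
    refine (Nat.card_congr (Equiv.ofBijective (fun t : F => (⟨d.u t, d.u_mem_Q t⟩ : d.Q))
      ⟨fun a b h => uu_inj (d.ι_inj (congrArg Subtype.val h)), fun g => ?_⟩)).symm
    obtain ⟨t, ht⟩ := d.Q_eq g.2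
    exact ⟨t, Subtype.ext ht.symm⟩
  have h2 : ∀ x ∈ d.S, x ∉ d.Q → ∃ σ, σ ≠ 1 ∧ d.Semi x σ := fun x hx hx' => by
    obtain ⟨σ, hσ⟩ := d.exists_semi (d.S_NW hx)
    refine ⟨σ, ?_, hσ⟩
    rintro rfl
    obtain ⟨t, rfl⟩ := sc_of_one hx hσ
    exact hx' (d.u_mem_Q t)
  have hsQ : s ∉ d.Q := fun h => by
    obtain ⟨t, ht⟩ := d.Q_eq h
    exact hs' t ht
  have h3 : (d.Q.subgroupOf d.S).index = 2 := by
    rw [Subgroup.index_eq_two_iff]
    refine ⟨⟨s, hs⟩, fun b => ?_⟩
    rw [Subgroup.mem_subgroupOf, Subgroup.mem_subgroupOf]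
    by_cases hb : (b : G) ∈ d.Q
    · exact Or.inr ⟨hb, fun h => hsQ (by simpa using d.Q.mul_mem (d.Q.inv_mem hb) h)⟩
    · refine Or.inl ⟨?_, hb⟩
      obtain ⟨σ, a1, a2⟩ := h2 b b.2 hb
      obtain ⟨τ, b1, b2⟩ := h2 s hs hsQ
      obtain ⟨w, -, hw⟩ := (Nat.card_eq_two_iff' (1 : RingAut F)).mp hA
      have e1 : σ * τ = 1 := by
        have e2 : (σ : RingAut F) ^ 2 = 1 := by rw [← hA]; exact pow_card_eq_one'
        rw [(hw τ b1).trans (hw σ a1).symm, ← sq]
        exact e2
      have e3 := a2.mul b2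
      rw [e1] at e3
      obtain ⟨t, ht⟩ := sc_of_one ((d.S : Subgroup G).mul_mem b.2 hs) e3
      change (b : G) * s ∈ d.Q
      rw [ht]; exact d.u_mem_Q t
  have h4 := (d.Q.subgroupOf d.S).card_mul_index
  rw [h3, Nat.card_congr (Subgroup.subgroupOfEquivOfLe d.Q_le_S).toEquiv, h1] at h4
  exact h4.symm

theorem four [Algebra (ZMod 2) F] (d : Dt 2 F G) (hq : Nat.card F = 4) :
    d.ι.range.Normal ∨ Nonempty (G ≃* alternatingGroup (Fin 7)) := by
  by_cases hS : ∀ s ∈ d.S, ∃ t, s = d.u t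
  · exact Or.inl (SC.normal fun s hs _ => hS s hs)
  push Not at hS
  obtain ⟨s, hs, hs'⟩ := hS
  have h1 := d.card_S hq hs hs'
  obtain ⟨φ, hφ⟩ := d.exists_a8 hq
  have h2 := Subgroup.card_dvd_of_injective φ hφ
  rw [nat_card_alternatingGroup, Nat.card_fin] at h2
  have h3 := (d.S : Subgroup G).card_mul_index
  have h4 := d.S.not_dvd_index
  rw [h1] at h3
  have h5 : (d.S : Subgroup G).index ∣ 315 := by
    rw [← h3] at h2
    have : (d.S : Subgroup G).index ∣ 64 * 315 := (Dvd.intro_left _ rfl).trans h2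
    exact (Nat.Coprime.pow_right 6 ((Nat.Prime.coprime_iff_not_dvd Nat.prime_two).mpr
      h4).symm).dvd_of_dvd_mul_left this
  have h6 : Nat.card G ∣ 2520 := h3 ▸ Nat.mul_dvd_mul_left 8 h5
  haveI := Fintype.ofFinite F
  haveI : IsSimpleGroup (S2 F) := by
    haveI := H10.isSimpleGroup_PSL_fin (F := F) le_rfl fun _ => hq.ge
    exact (H10.slEquivPsl (H10.center_SL_eq_bot (n := 2) one_le_two (by
      rw [← Nat.card_eq_fintype_card, hq]; rfl))).isSimpleGroup
  have hL : Nat.card (S2 F) = 60 := by rw [H10.card_SL2, hq]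
  have hL' : Nat.card d.ι.range = 60 := by
    rw [← Nat.card_congr (MonoidHom.ofInjective d.ι_inj).toEquiv, hL]
  let N := Subgroup.normalizer (d.ι.range : Set G)
  have hSN : (d.S : Subgroup G) ≤ N := fun x hx => by
    rw [Subgroup.mem_normalizer_iff]
    refine fun h => ⟨?_, fun hh => ?_⟩
    · rintro ⟨m, rfl⟩
      obtain ⟨m', hm⟩ := d.hN x hx m
      exact ⟨m', hm.symm⟩
    · obtain ⟨m, hm⟩ := hh
      obtain ⟨m', hm'⟩ := d.hN x⁻¹ ((d.S : Subgroup G).inv_mem hx) m
      exact ⟨m', by rw [← hm', hm]; group⟩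
  have h7 : 120 ∣ Nat.card N := by
    have a := Subgroup.card_dvd_of_le hSN
    have b := Subgroup.card_dvd_of_le (Subgroup.le_normalizer (H := d.ι.range))
    rw [h1] at a
    rw [hL'] at b
    exact Nat.lcm_dvd a b
  by_cases h8 : 7 ∣ Nat.card G
  · refine Or.inr (a7_of ((alternatingGroup (Fin 8)).subtype.comp φ)
      (Subtype.val_injective.comp hφ) (fun g => (φ g).2) ?_ h6)
    exact Nat.lcm_dvd (h7.trans (Subgroup.card_subgroup_dvd_card N)) h8
  left
  have h9 : Nat.card G ∣ 360 :=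
    ((Nat.Prime.coprime_iff_not_dvd (by norm_num)).mpr h8).symm.dvd_of_dvd_mul_left
      (show Nat.card G ∣ 7 * 360 from h6)
  have h10 := N.card_mul_index
  obtain ⟨k, hk⟩ := h7
  have h11 : N.index ≤ 3 := by
    rw [← h10, hk, mul_assoc] at h9
    have : k * N.index ∣ 3 := Nat.dvd_of_mul_dvd_mul_left (by norm_num : 0 < 120) h9
    exact Nat.le_of_dvd (by norm_num) ((Dvd.intro_left _ rfl).trans this)
  have h12 := conj_mem_of_index d.ι N (by
    rw [hL]
    intro h
    have := (Nat.le_of_dvd (Nat.factorial_pos _) h).trans (Nat.factorial_le h11)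
    norm_num [Nat.factorial] at this)
  refine ⟨?_⟩
  rintro _ ⟨m, rfl⟩ g
  let ψ : S2 F →* N := ((MulAut.conj g).toMonoidHom.comp d.ι).codRestrict N fun m => h12 m g
  have h13 := triv_of_simple ((QuotientGroup.mk' (d.ι.range.subgroupOf N)).comp ψ) (by
    rw [hL]
    intro h
    have a := (d.ι.range.subgroupOf N).card_mul_index
    rw [Nat.card_congr (Subgroup.subgroupOfEquivOfLe Subgroup.le_normalizer).toEquiv, hL'] at a
    have b := Nat.le_of_dvd (by norm_num) ((Subgroup.card_subgroup_dvd_card N).trans h9)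
    have c := Nat.le_of_dvd Nat.card_pos h
    rw [← Subgroup.index_eq_card] at c
    omega) m
  exact (QuotientGroup.eq_one_iff (N := d.ι.range.subgroupOf N) (ψ m)).mp h13

theorem main {p : ℕ} [Fact p.Prime] [Algebra (ZMod p) F] (d : Dt p F G) :
    d.ι.range.Normal ∨ (Nat.card F = 4 ∧ Nonempty (G ≃* alternatingGroup (Fin 7))) := by
  by_cases hp2 : p = 2
  · by_cases hq : Nat.card F = 4
    · subst hp2
      exact (d.four hq).imp id fun h => ⟨hq, h⟩
    · exact Or.inl (sc_two hp2 hq).normal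
  · exact Or.inl (sc_odd hp2).normal

end Dt

end Cfsg.Agent.H29.NSL
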