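import Mathlib

/-! Frames of minimal self-adjoint idempotents in a star algebra. -/

set_option autoImplicit false
set_option linter.unusedSectionVars false

namespace Cfsg.Agent.H29.Pn

section ring
variable {R : Type*} [Ring R] [StarRing R]

theorem ms (g : unitary R) : (g : R) * star (g : R) = 1 := g.2.2
theorem sm (g : unitary R) : star (g : R) * (g : R) = 1 := g.2.1
theorem cinv (g : unitary R) : ((g⁻¹ : unitary R) : R) = star (g : R) := rfl
theorem ms' (g : unitary R) (x : R) : (g : R) * (star (g : R) * x) = x := by rw [← mul_assoc, ms, one_mul]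
theorem sm' (g : unitary R) (x : R) : star (g : R) * ((g : R) * x) = x := by rw [← mul_assoc, sm, one_mul]

/-- Conjugation by a unitary element. -/
def cj (g : unitary R) : R →+* R where
  toFun x := g * x * star (g : R)
  map_one' := by rw [mul_one, ms]
  map_mul' x y := by simp only [mul_assoc, sm']
  map_zero' := by simp
  map_add' x y := by simp [mul_add, add_mul]

theorem cj_def (g : unitary R) (x : R) : cj g x = g * x * star (g : R) := rfl
theorem cj_mul (g h : unitary R) (x : R) : cj (g * h) x = cj g (cj h x) := by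
  simp [cj_def, mul_assoc]
theorem cj_one (x : R) : cj 1 x = x := by simp [cj_def]
theorem cj_inv (g : unitary R) (x : R) : cj g⁻¹ (cj g x) = x := by rw [← cj_mul, inv_mul_cancel, cj_one]
theorem cj_inv' (g : unitary R) (x : R) : cj g (cj g⁻¹ x) = x := by rw [← cj_mul, mul_inv_cancel, cj_one]
theorem cj_star (g : unitary R) (x : R) : star (cj g x) = cj g (star x) := by simp [cj_def, mul_assoc]
theorem cj_coe (g h : unitary R) : ((g * h * g⁻¹ : unitary R) : R) = cj g h := rfl
theorem cj_inj (g : unitary R) {x y : R} (h : cj g x = cj g y) : x = y := by rw [← cj_inv g x, h, cj_inv]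
theorem cj_eq_iff {g : unitary R} {x y : R} : cj g x = y ↔ (g : R) * x = y * g :=
  ⟨fun h => by rw [← h, cj_def, mul_assoc _ (star (g : R)), sm, mul_one],
    fun h => by rw [cj_def, h, mul_assoc, ms, mul_one]⟩

/-- The elements acting trivially off the idempotent `e`. -/
def LL (e : R) : Subgroup (unitary R) where
  carrier := {g | (1 - e) * g = 1 - e ∧ (g : R) * (1 - e) = 1 - e}
  one_mem' := by simp
  mul_mem' := by
    rintro a b ⟨h1, h2⟩ ⟨h3, h4⟩
    exact ⟨by rw [Submonoid.coe_mul, ← mul_assoc, h1, h3], by rw [Submonoid.coe_mul, mul_assoc, h4, h2]⟩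
  inv_mem' := by
    rintro a ⟨h1, h2⟩
    refine ⟨?_, ?_⟩
    · conv_lhs => rw [← h1, cinv, mul_assoc, ms, mul_one]
    · conv_lhs => rw [← h2, cinv, sm']

theorem mem_LL {e : R} {g : unitary R} : g ∈ LL e ↔ (1 - e) * g = 1 - e ∧ (g : R) * (1 - e) = 1 - e := Iff.rfl

theorem LL_conj {e : R} {g : unitary R} (h : g ∈ LL e) (w : unitary R) : w * g * w⁻¹ ∈ LL (cj w e) := by
  have := congrArg (cj w) h.1
  have h2 := congrArg (cj w) h.2
  rw [map_mul, map_sub, map_one] at this h2
  exact ⟨this, h2⟩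

theorem LL_left {e f : R} {g : unitary R} (h : g ∈ LL e) (hf : f * e = 0) : f * g = f := by
  have : f * (1 - e) = f := by rw [mul_sub, hf, mul_one, sub_zero]
  rw [← this, mul_assoc, h.1]

theorem LL_right {e f : R} {g : unitary R} (h : g ∈ LL e) (hf : e * f = 0) : g * f = f := by
  have : (1 - e) * f = f := by rw [sub_mul, hf, one_mul, sub_zero]
  rw [← this, ← mul_assoc, h.2]

theorem LL_cj {e f : R} {g : unitary R} (h : g ∈ LL e) (h1 : f * e = 0) (h2 : e * f = 0) : cj g f = f :=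
  cj_eq_iff.2 (by rw [LL_left h h1, LL_right h h2])

theorem LL_mono {e f : R} (h1 : e * f = e) (h2 : f * e = e) : LL e ≤ LL f := fun _ h =>
  ⟨LL_left h (by rw [sub_mul, h2, one_mul, sub_self]), LL_right h (by rw [mul_sub, h1, mul_one, sub_self])⟩

theorem LL_cj_self {e : R} {g : unitary R} (h : g ∈ LL e) : cj g e = e := by
  have := cj_eq_iff.2 (h.2.trans h.1.symm)
  rwa [map_sub, map_one, sub_right_inj] at this

/-- Root elements. -/
def Rt (x : unitary R) (ρ : R) : Prop := x ∈ LL ρ ∧ (x : R) * x = 1 - 2 * ρ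

theorem Rt.conj {x : unitary R} {ρ : R} (h : Rt x ρ) (w : unitary R) : Rt (w * x * w⁻¹) (cj w ρ) :=
  ⟨LL_conj h.1 w, by rw [cj_coe, ← map_mul, h.2, map_sub, map_one, map_mul, map_ofNat]⟩

theorem Rt.add_star {x : unitary R} {ρ : R} (h : Rt x ρ) (hρ : ρ * ρ = ρ) : (x : R) + star (x : R) = 2 * (1 - ρ) := by
  have h1 : star (x : R) = x * (1 - 2 * ρ) := by
    have : (x : R) * (x * (1 - 2 * ρ)) = 1 := by
      rw [← mul_assoc, h.2]; linear_combination (norm := noncomm_ring) 4 * hρ
    have := congrArg (star (x : R) * ·) this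
    simpa only [sm', mul_one] using this.symm
  rw [h1]
  linear_combination (norm := noncomm_ring) 2 * h.1.2

end ring

section alg
variable (F : Type*) {R : Type*} [Field F] [Ring R] [StarRing R] [Algebra F R]

/-- Minimal self-adjoint idempotents. -/
structure Pt (ρ : R) : Prop where
  idem : ρ * ρ = ρ
  sa : star ρ = ρ
  ne : ρ ≠ 0
  sc : ∀ T : R, star T = T → ∃ c : F, ρ * T * ρ = c • ρ

variable {F}

theorem cj_smul (g : unitary R) (c : F) (x : R) : cj g (c • x) = c • cj g x := by simp [cj_def]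

theorem Pt.conj {ρ : R} (h : Pt F ρ) (g : unitary R) : Pt F (cj g ρ) where
  idem := by rw [← map_mul, h.idem]
  sa := by rw [cj_star, h.sa]
  ne e := h.ne (cj_inj g (e.trans (map_zero _).symm))
  sc T hT := by
    obtain ⟨c, hc⟩ := h.sc (cj g⁻¹ T) (by rw [cj_star, hT])
    exact ⟨c, by rw [← cj_smul, ← hc, map_mul, map_mul, cj_inv']⟩

theorem Pt.smul_inj {ρ : R} (h : Pt F ρ) {a b : F} (e : a • ρ = b • ρ) : a = b := by
  by_contra k
  have : (a - b) • ρ = 0 := by rw [sub_smul, e, sub_self]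
  exact h.ne ((smul_eq_zero.1 this).resolve_left (sub_ne_zero.2 k))

theorem two_cancel (h2 : (2 : F) ≠ 0) {x y : R} (h : 2 * x = 2 * y) : x = y := by
  have k : ∀ x : R, 2 * x = (2 : F) • x := fun x => by rw [two_mul, two_smul]
  rw [k, k] at h
  exact smul_right_injective R h2 h

/-- The involution of a point. -/
def Pt.z {ρ : R} (h : Pt F ρ) : unitary R :=
  ⟨1 - 2 * ρ, by
    have e : star (1 - 2 * ρ) = 1 - 2 * ρ := by rw [star_sub, star_one, two_mul, star_add, h.sa]
    have k : (1 - 2 * ρ) * (1 - 2 * ρ) = 1 := by linear_combination (norm := noncomm_ring) 4 * h.idem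
    exact ⟨by rw [e, k], by rw [e, k]⟩⟩

theorem Pt.z_coe {ρ : R} (h : Pt F ρ) : (h.z : R) = 1 - 2 * ρ := rfl

theorem z_LL {ρ : R} (h : ρ * ρ = ρ) {z : unitary R} (hz : (z : R) = 1 - 2 * ρ) : z ∈ LL ρ :=
  ⟨by rw [hz]; linear_combination (norm := noncomm_ring) 2 * h, by rw [hz]; linear_combination (norm := noncomm_ring) 2 * h⟩

theorem z_sq {ρ : R} (h : ρ * ρ = ρ) {z : unitary R} (hz : (z : R) = 1 - 2 * ρ) : z * z = 1 :=
  Subtype.ext (by rw [Submonoid.coe_mul, hz]; simp only [OneMemClass.coe_one]; linear_combination (norm := noncomm_ring) 4 * h)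

theorem cj_of_z (h2 : (2 : F) ≠ 0) {ρ ρ' : R} {z z' g : unitary R} (hz : (z : R) = 1 - 2 * ρ) (hz' : (z' : R) = 1 - 2 * ρ')
    (e : g * z * g⁻¹ = z') : cj g ρ = ρ' := by
  have := congrArg Subtype.val e
  rw [cj_coe, hz, hz', map_sub, map_one, map_mul, map_ofNat, sub_right_inj] at this
  exact two_cancel h2 this

theorem z_conj {ρ : R} {z : unitary R} (hz : (z : R) = 1 - 2 * ρ) (g : unitary R) :
    ((g * z * g⁻¹ : unitary R) : R) = 1 - 2 * cj g ρ := by
  rw [cj_coe, hz, map_sub, map_one, map_mul, map_ofNat]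

variable {ι : Type*} [Fintype ι] [DecidableEq ι]

variable (F) in
/-- Frames. -/
structure Fr (π : ι → R) : Prop where
  pt : ∀ i, Pt F (π i)
  orth : ∀ i j, i ≠ j → π i * π j = 0
  sum : ∑ i, π i = 1

variable {π : ι → R}

theorem Fr.inj (h : Fr F π) : Function.Injective π := fun i j e => by
  by_contra k
  exact (h.pt i).ne (by rw [← (h.pt i).idem]; nth_rewrite 2 [e]; exact h.orth i j k)

/-- The stabiliser of a frame. -/
def Fr.M (h : Fr F π) : Subgroup (unitary R) where
  carrier := {g | ∀ k, ∃ l, cj g (π k) = π l}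
  one_mem' k := ⟨k, cj_one _⟩
  mul_mem' := fun {a b} ha hb k => by
    obtain ⟨l, e⟩ := hb k
    obtain ⟨m, e'⟩ := ha l
    exact ⟨m, by rw [cj_mul, e, e']⟩
  inv_mem' := fun {a} ha k => by
    choose σ hσ using ha
    have : Function.Injective σ := fun i j e => h.inj (cj_inj a (by rw [hσ, hσ, e]))
    obtain ⟨l, rfl⟩ := Finite.surjective_of_injective this k
    exact ⟨l, by rw [← hσ, cj_inv]⟩

theorem Fr.mem_M (h : Fr F π) {g : unitary R} : g ∈ h.M ↔ ∀ k, ∃ l, cj g (π k) = π l := Iff.rfl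

theorem Fr.of_comm (h : Fr F π) {ρ : R} (hρ : Pt F ρ) (hc : ∀ k, ρ * π k = π k * ρ) : ∃ k, ρ = π k := by
  obtain ⟨k, hk⟩ : ∃ k, ρ * π k ≠ 0 := by
    by_contra! e
    exact hρ.ne (by rw [← mul_one ρ, ← h.sum, Finset.mul_sum]; simp [e])
  obtain ⟨a, ha⟩ := hρ.sc _ (h.pt k).sa
  obtain ⟨b, hb⟩ := (h.pt k).sc _ hρ.sa
  rw [mul_assoc, ← hc, ← mul_assoc, hρ.idem] at ha
  rw [← hc, mul_assoc, (h.pt k).idem] at hb
  have e1 : ρ * π k = a • (ρ * π k) := by rw [← smul_mul_assoc, ← ha, mul_assoc, (h.pt k).idem]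
  have e2 : ρ * π k = b • (ρ * π k) := by rw [← mul_smul_comm, ← hb, ← mul_assoc, hρ.idem]
  have a1 : a = 1 := smul_left_injective F hk (by simpa using e1.symm)
  have b1 : b = 1 := smul_left_injective F hk (by simpa using e2.symm)
  exact ⟨k, by rw [← one_smul F ρ, ← a1, ← ha, hb, b1, one_smul]⟩

theorem Fr.swap (h : Fr F π) {ρ : R} (hρ : Pt F ρ) {x : unitary R} (hx : x ∈ LL ρ) {i j : ι} (hij : i ≠ j)
    (e : cj x (π i) = π j) : 2 * ρ = π j - x * π i - π i * star (x : R) + π i := by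
  have e1 := cj_eq_iff.1 e
  have ii := (h.pt i).idem
  have e2 : π i * x * π i = 0 := by rw [mul_assoc, e1, ← mul_assoc, h.orth i j hij, zero_mul]
  have e3 : π i * star (x : R) * π i = 0 := by
    simpa [(h.pt i).sa, mul_assoc] using congrArg star e2
  obtain ⟨c, hc⟩ : ∃ c : R, c = x * π i - π i := ⟨_, rfl⟩
  have c1 : star c = π i * star (x : R) - π i := by rw [hc, star_sub, star_mul, (h.pt i).sa]
  have c2 : ρ * c = c := by
    rw [hc]; linear_combination (norm := noncomm_ring) -(hx.1 * π i)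
  have c3 : star c * ρ = star c := by simpa [hρ.sa] using congrArg star c2
  have c4 : star c * c = 2 * π i := by
    rw [c1, hc]
    linear_combination (norm := noncomm_ring) π i * sm x * π i + 2 * ii - e2 - e3
  have c5 : c * π i = c := by rw [hc, sub_mul, mul_assoc, ii]
  have c0 : c ≠ 0 := fun k => (h.pt i).ne (by
    have : π i * c = -π i := by rw [hc]; linear_combination (norm := noncomm_ring) e2 - ii
    rw [k, mul_zero] at this; exact neg_eq_zero.1 this.symm)
  obtain ⟨ν, hν⟩ := hρ.sc (c * star c) (by simp)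
  rw [← mul_assoc, c2, mul_assoc, c3] at hν
  have n2 : ν = 2 := smul_left_injective F c0 (by
    have : c * star c * c = (2 : F) • c := by rw [mul_assoc, c4, two_mul, mul_add, c5, two_smul]
    simpa [hν, c2] using this)
  rw [n2, two_smul, ← two_mul] at hν
  rw [← hν, c1, hc, ← e, cj_def]
  linear_combination (norm := noncomm_ring) x * ii * star (x : R) - x * ii - ii * star (x : R) + ii

theorem Fr.root (h : Fr F π) (h2 : (2 : F) ≠ 0) {ρ : R} (hρ : Pt F ρ) {x : unitary R} (hx : Rt x ρ) (hM : x ∈ h.M) :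
    ∃ k, ρ = π k := by
  have k : ∀ i, (x : R) * π i = π i * x := fun i => by
    obtain ⟨j, e⟩ := hM i
    by_cases hij : i = j
    · subst hij; exact cj_eq_iff.1 e
    exfalso
    have e0 := h.swap hρ hx.1 hij e
    have e1 := hx.add_star hρ.idem
    have ii := (h.pt i).idem
    have e2 : π i * x * π i = 0 := by rw [mul_assoc, cj_eq_iff.1 e, ← mul_assoc, h.orth i j hij, zero_mul]
    have e3 : π i * star (x : R) * π i = 0 := by
      simpa [(h.pt i).sa, mul_assoc] using congrArg star e2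
    refine (h.pt i).ne ?_
    have e4 := h.orth i j hij
    linear_combination (norm := noncomm_ring) π i * e0 * π i - π i * e1 * π i + e4 * π i + e2 + e3 - e2 * π i - π i * e3 +
      ii * π i - ii - π i * x * ii + e2 * π i - e2 - ii * star (x : R) * π i + π i * e3 - e3
  refine h.of_comm hρ fun i => two_cancel h2 ?_
  linear_combination (norm := noncomm_ring) hx.2 * π i - π i * hx.2 - x * k i - k i * x

theorem Fr.inv (h : Fr F π) (h2 : (2 : F) ≠ 0) {ρ : R} (hρ : Pt F ρ) {z : unitary R} (hz : (z : R) = 1 - 2 * ρ)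
    (hM : z ∈ h.M) : (∃ k, ρ = π k) ∨ ∃ i j, i ≠ j ∧ cj z (π i) = π j ∧
      ∀ l, l ≠ i → l ≠ j → ρ * π l = 0 ∧ π l * ρ = 0 := by
  by_cases k : ∀ i, cj z (π i) = π i
  · refine Or.inl (h.of_comm hρ fun i => two_cancel h2 ?_)
    have := cj_eq_iff.1 (k i)
    rw [hz] at this
    linear_combination (norm := noncomm_ring) -this
  push Not at k
  obtain ⟨i, hi⟩ := k
  obtain ⟨j, e⟩ := hM i
  have hij : i ≠ j := fun k => hi (k ▸ e)
  have e0 := h.swap hρ (z_LL hρ.idem hz) hij e
  have e1 := cj_eq_iff.1 e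
  have e2 : π i * star (z : R) = star (z : R) * π j := by simpa [(h.pt _).sa] using congrArg star e1
  refine Or.inr ⟨i, j, hij, e, fun l hi hj => ⟨two_cancel h2 ?_, two_cancel h2 ?_⟩⟩
  · rw [← mul_assoc, e0, e2]
    simp [add_mul, sub_mul, mul_assoc, h.orth _ _ hi.symm, h.orth _ _ hj.symm]
  · rw [show 2 * (π l * ρ) = π l * (2 * ρ) by noncomm_ring, e0, e1]
    simp [mul_add, mul_sub, ← mul_assoc, h.orth _ _ hi, h.orth _ _ hj]

end alg

end Cfsg.Agent.H29.Pn
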