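import Mathlib
import Cfsg.Agent.H29.Pn1

/-! Subgroups containing root elements of a frame: the case of at least three blocks. -/

set_option autoImplicit false
set_option linter.unusedSectionVars false

namespace Cfsg.Agent.H29.Pn

section dih
variable {G : Type*} [Group G] {a b : G}

theorem dih_pow (ha : a * a = 1) (hb : b * b = 1) (n : ℕ) : a * (a * b) ^ n = ((a * b) ^ n)⁻¹ * a := by
  have k : a * (a * b) * a⁻¹ = (a * b)⁻¹ := by
    rw [mul_inv_rev, inv_eq_of_mul_eq_one_left ha, inv_eq_of_mul_eq_one_left hb, ← mul_assoc, ha, one_mul]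
  rw [← inv_pow, ← k, conj_pow]; group

theorem dih_pow' (ha : a * a = 1) (hb : b * b = 1) (n : ℕ) : (a * b) ^ n * a = a * ((a * b) ^ n)⁻¹ := by
  rw [eq_mul_inv_iff_mul_eq, mul_assoc, dih_pow ha hb, mul_inv_cancel_left]

theorem dih_refl (ha : a * a = 1) (hb : b * b = 1) (n : ℕ) :
    ∃ r : ℕ, (a * b) ^ n * a = (a * b) ^ r * a * ((a * b) ^ r)⁻¹ ∨
      (a * b) ^ n * a = ((a * b) ^ r * a) * b * ((a * b) ^ r * a)⁻¹ := by
  obtain ⟨r, rfl | rfl⟩ := Nat.even_or_odd' n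
  · exact ⟨r, Or.inl (by rw [two_mul, pow_add, mul_assoc, mul_assoc, ← dih_pow' ha hb])⟩
  · refine ⟨r, Or.inr ?_⟩
    rw [show 2 * r + 1 = r + 1 + r by ring, pow_add, pow_succ, mul_inv_rev, inv_eq_of_mul_eq_one_left ha,
      ← dih_pow' ha hb]
    simp only [mul_assoc]

end dih

variable {F : Type*} {R : Type*} [Field F] [Ring R] [StarRing R] [Algebra F R]

theorem odd_pair (h2 : (2 : F) ≠ 0) {ρ σ : R} (hρ : Pt F ρ) {a b : unitary R} (ha : (a : R) = 1 - 2 * ρ)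
    (hσ : σ * σ = σ) (hb : (b : R) = 1 - 2 * σ) (ho : Odd (orderOf (a * b))) :
    ∃ ν : F, ν ≠ 0 ∧ ρ * σ * ρ = (ν * ν) • ρ ∧ σ * ρ * σ = (ν * ν) • σ := by
  have aa := z_sq hρ.idem ha
  have bb := z_sq hσ hb
  obtain ⟨r, hr⟩ := ho
  have e1 : (a * b) ^ (2 * r + 1) = 1 := hr ▸ pow_orderOf_eq_one _
  obtain ⟨w, hw⟩ : ∃ w, w = (a * b) ^ r * a := ⟨_, rfl⟩
  have ww : w * w = 1 := by
    rw [hw, mul_assoc, ← mul_assoc a, dih_pow aa bb, mul_assoc _ a, aa, mul_one, mul_inv_cancel]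
  have wi : w⁻¹ = w := inv_eq_of_mul_eq_one_left ww
  have ws : star (w : R) = w := by rw [← cinv, wi]
  have e2 : w * a * w⁻¹ = b := by
    rw [wi, hw, mul_assoc _ a a, aa, mul_one, ← mul_assoc, ← pow_add, ← two_mul]
    rw [pow_succ, ← mul_assoc] at e1
    rw [eq_inv_of_mul_eq_one_left e1, inv_eq_of_mul_eq_one_left bb]
  have e3 := cj_of_z h2 ha hb e2
  rw [cj_def, ws] at e3
  obtain ⟨ν, hν⟩ := hρ.sc w ws
  have e4 : ρ * σ * ρ = (ν * ν) • ρ := by
    rw [← e3, show ρ * (w * ρ * w) * ρ = ρ * w * ρ * w * ρ by simp only [mul_assoc], hν, smul_mul_assoc, smul_mul_assoc,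
      hν, smul_smul]
  refine ⟨ν, fun k => hρ.ne (two_cancel h2 ?_), e4, ?_⟩
  · rw [k, zero_mul, zero_smul] at e4
    have k1 : ((a * b : unitary R) : R) * ρ = -ρ - 2 * (σ * ρ) := by
      rw [Submonoid.coe_mul, ha, hb]; linear_combination (norm := noncomm_ring) 4 * e4 - 2 * hρ.idem
    have k2 : ((a * b : unitary R) : R) * (σ * ρ) = -(σ * ρ) := by
      rw [Submonoid.coe_mul, ha, hb]
      linear_combination (norm := noncomm_ring) 2 * e4 - 2 * (hσ * ρ) + 4 * (ρ * hσ * ρ)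
    have k3 : ∀ n : ℕ, ((a * b : unitary R) : R) ^ n * ρ = (-1) ^ n * (ρ + (2 * n : ℕ) * (σ * ρ)) := fun n => by
      induction n with
      | zero => simp
      | succ n ih =>
        rw [pow_succ', mul_assoc, ih, ← mul_assoc, ((Commute.neg_one_right _).pow_right n).eq, mul_assoc, mul_add,
          ← mul_assoc _ ((2 * n : ℕ) : R), ← (Nat.cast_commute _ _).eq, mul_assoc, k1, k2, pow_succ]
        push_cast
        noncomm_ring
    have k4 := k3 (2 * r + 1)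
    rw [← SubmonoidClass.coe_pow, e1, pow_succ, pow_mul, neg_one_sq, one_pow] at k4
    have k5 := congrArg (ρ * ·) k4
    simp only [OneMemClass.coe_one, one_mul, neg_mul, mul_neg, mul_add, hρ.idem] at k5
    rw [← mul_assoc, ← (Nat.cast_commute _ _).eq, mul_assoc, ← mul_assoc ρ, e4, mul_zero] at k5
    linear_combination (norm := noncomm_ring) k5
  · have wr : (w : R) * w = 1 := congrArg Subtype.val ww
    have : σ * ρ * σ = w * (ρ * w * ρ) * (w * ρ * w) := by rw [← e3]; simp only [mul_assoc]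
    rw [this, hν, mul_smul_comm, smul_mul_assoc, show (w : R) * ρ * (w * ρ * w) = w * (ρ * w * ρ) * w by
      simp only [mul_assoc], hν, mul_smul_comm, smul_mul_assoc, smul_smul, e3]

variable {ι : Type*} [Fintype ι] [DecidableEq ι] {π : ι → R}

theorem Fr.sum_mul (h : Fr F π) (I : Finset ι) (k : ι) : (∑ i ∈ I, π i) * π k = if k ∈ I then π k else 0 := by
  rw [Finset.sum_mul, Finset.sum_eq_ite k fun i _ hi => h.orth _ _ hi, (h.pt k).idem]

theorem Fr.mul_sum (h : Fr F π) (I : Finset ι) (k : ι) : π k * (∑ i ∈ I, π i) = if k ∈ I then π k else 0 := by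
  rw [Finset.mul_sum, Finset.sum_eq_ite k fun i _ hi => h.orth _ _ hi.symm, (h.pt k).idem]

theorem Fr.LL_le (h : Fr F π) {I : Finset ι} {k : ι} (hk : k ∈ I) : LL (π k) ≤ LL (∑ i ∈ I, π i) :=
  LL_mono (by rw [h.mul_sum, if_pos hk]) (by rw [h.sum_mul, if_pos hk])

theorem Fr.fix (h : Fr F π) {I : Finset ι} {w : unitary R} (hw : w ∈ LL (∑ i ∈ I, π i)) {k : ι} (hk : k ∉ I) :
    cj w (π k) = π k := LL_cj hw (by rw [h.mul_sum, if_neg hk]) (by rw [h.sum_mul, if_neg hk])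

/-- The inductive context. -/
structure Cx (h : Fr F π) (I : Finset ι) (K : Subgroup (unitary R)) : Prop where
  two : (2 : F) ≠ 0
  le : K ≤ LL (∑ k ∈ I, π k)
  rt : ∀ k ∈ I, ∃ x ∈ K, Rt x (π k)
  ih : ∀ I' ⊂ I, K ⊓ LL (∑ k ∈ I', π k) ≤ h.M

variable {h : Fr F π} {I : Finset ι} {K : Subgroup (unitary R)}

theorem Cx.cent' (c : Cx h I K) {I' : Finset ι} (h1 : I' ⊂ I) {g : unitary R} (hg : g ∈ K)
    (e : cj g (∑ k ∈ I', π k) = ∑ k ∈ I', π k) {k : ι} (hk : k ∈ I') : ∃ l, cj g (π k) = π l := by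
  obtain ⟨x, hx, rx⟩ := c.rt k (h1.1 hk)
  exact h.root c.two ((h.pt k).conj g) (rx.conj g) (c.ih I' h1
    ⟨K.mul_mem (K.mul_mem hg hx) (K.inv_mem hg), e ▸ LL_conj (h.LL_le hk rx.1) g⟩)

theorem Cx.cent (c : Cx h I K) {I' : Finset ι} (h1 : I' ⊂ I) (h0 : I'.Nonempty) {g : unitary R} (hg : g ∈ K)
    (e : cj g (∑ k ∈ I', π k) = ∑ k ∈ I', π k) : g ∈ h.M := fun k => by
  by_cases k1 : k ∈ I'
  · exact c.cent' h1 hg e k1
  by_cases k2 : k ∈ I
  · refine c.cent' (Finset.sdiff_ssubset h1.1 h0) hg ?_ (Finset.mem_sdiff.2 ⟨k2, k1⟩)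
    rw [Finset.sum_sdiff_eq_sub h1.1, map_sub, e, LL_cj_self (c.le hg)]
  · exact ⟨k, h.fix (c.le hg) k2⟩

theorem Cx.cent1 (c : Cx h I K) {k l : ι} (hk : k ∈ I) (hl : l ∈ I) (hkl : k ≠ l) {g : unitary R} (hg : g ∈ K)
    (e : cj g (π k) = π k) : g ∈ h.M :=
  c.cent (I' := {k}) ⟨Finset.singleton_subset_iff.2 hk, fun s => hkl (Finset.mem_singleton.1 (s hl)).symm⟩
    (Finset.singleton_nonempty k) hg (by simpa using e)

theorem Cx.mem (c : Cx h I K) {k l : ι} (hk : k ∈ I) {g : unitary R} (hg : g ∈ K) (e : cj g (π k) = π l) : l ∈ I := by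
  by_contra hl
  exact hl (h.inj (cj_inj g (e.trans (h.fix (c.le hg) hl).symm)) ▸ hk)

theorem Cx.b (c : Cx h I K) {k l : ι} (hk : k ∈ I) {g : unitary R} (hg : g ∈ K) (e : cj g (π k) = π l) : g ∈ h.M := fun i => by
  by_cases k1 : i = k
  · exact ⟨l, k1 ▸ e⟩
  by_cases k2 : i ∈ I
  · obtain ⟨x, hx, rx⟩ := c.rt i k2
    obtain ⟨m, hm, hlm⟩ : ∃ m ∈ I, l ≠ m := by
      by_cases e : l = k
      · exact ⟨i, k2, e ▸ Ne.symm k1⟩
      · exact ⟨k, hk, e⟩
    refine h.root c.two ((h.pt i).conj g) (rx.conj g) (c.cent1 (c.mem hk hg e) hm hlm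
      (K.mul_mem (K.mul_mem hg hx) (K.inv_mem hg)) ?_)
    rw [← e, cj_mul, cj_mul, cj_inv, LL_cj rx.1 (h.orth _ _ (Ne.symm k1)) (h.orth _ _ k1)]
  · exact ⟨i, h.fix (c.le hg) k2⟩

theorem Cx.z_mem (c : Cx h I K) {k : ι} (hk : k ∈ I) : (h.pt k).z ∈ K := by
  obtain ⟨x, hx, rx⟩ := c.rt k hk
  exact (Subtype.ext rx.2 : x * x = (h.pt k).z) ▸ K.mul_mem hx hx

theorem exists_third (h3 : 3 ≤ I.card) (i j : ι) : ∃ l ∈ I, l ≠ i ∧ l ≠ j := by
  by_contra! k
  have : I ⊆ {i, j} := fun l hl => by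
    by_cases e : l = i
    · simp [e]
    · simp [k l hl e]
  have := (Finset.card_le_card this).trans Finset.card_le_two
  omega

theorem Cx.a (c : Cx h I K) (h3 : 3 ≤ I.card) {k : ι} (hk : k ∈ I) {w : unitary R} (hw : w ∈ K)
    (e : w * (h.pt k).z * w⁻¹ ∈ h.M) : w ∈ h.M := by
  rcases h.inv c.two ((h.pt k).conj w) (z_conj (h.pt k).z_coe w) e with ⟨l, hl⟩ | ⟨i, j, -, -, hl⟩
  · exact c.b hk hw hl
  obtain ⟨l, l1, l2, l3⟩ := exists_third h3 i j
  obtain ⟨m, m1, m2, -⟩ := exists_third h3 k k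
  obtain ⟨x, hx, rx⟩ := c.rt l l1
  obtain ⟨l', hl'⟩ := h.root c.two ((h.pt l).conj w⁻¹) (rx.conj w⁻¹) (c.cent1 hk m1 m2.symm
    (K.mul_mem (K.mul_mem (K.inv_mem hw) hx) (K.inv_mem (K.inv_mem hw))) (by
      rw [cj_mul, cj_mul, inv_inv, LL_cj rx.1 (hl l l2 l3).1 (hl l l2 l3).2, cj_inv]))
  simpa using h.M.inv_mem (c.b l1 (K.inv_mem hw) hl')

theorem cj_of_comm (h2 : (2 : F) ≠ 0) {e : R} {t g : unitary R} (ht : (t : R) = 1 - 2 * e) (hc : g * t = t * g) :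
    cj g e = e := cj_of_z h2 ht ht (by rw [hc, mul_inv_cancel_right])

theorem Cx.c [Finite (unitary R)] (c : Cx h I K) (h3 : 3 ≤ I.card) {k l : ι} (hk : k ∈ I) (hl : l ∈ I) {w : unitary R}
    (hw : w ∈ K) (hM : w ∉ h.M) : Odd (orderOf ((h.pt l).z * (w * (h.pt k).z * w⁻¹))) := by
  by_contra ho
  obtain ⟨n, hn⟩ := Nat.not_odd_iff_even.1 ho
  have aa := z_sq (h.pt l).idem (h.pt l).z_coe
  have bK : w * (h.pt k).z * w⁻¹ ∈ K := K.mul_mem (K.mul_mem hw (c.z_mem hk)) (K.inv_mem hw)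
  have bb := z_sq ((h.pt k).conj w).idem (z_conj (h.pt k).z_coe w)
  have aK := c.z_mem hl
  generalize hb : w * (h.pt k).z * w⁻¹ = b at hn bb bK
  generalize ha : (h.pt l).z = a at hn aa aK
  have n0 : 0 < n := by have := orderOf_pos (a * b); omega
  have t1 : (a * b) ^ n ≠ 1 := pow_ne_one_of_lt_orderOf n0.ne' (by omega)
  have tt : (a * b) ^ n * (a * b) ^ n = 1 := by rw [← pow_add, ← hn, pow_orderOf_eq_one]
  have ta : a * (a * b) ^ n = (a * b) ^ n * a := by rw [dih_pow aa bb, inv_eq_of_mul_eq_one_left tt]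
  have tb : b * (a * b) ^ n = (a * b) ^ n * b := by
    have k1 : b = a * (a * b) := by rw [← mul_assoc, aa, one_mul]
    nth_rewrite 1 [k1]
    rw [mul_assoc, ← pow_succ', pow_succ, ← mul_assoc, ta, mul_assoc, ← k1]
  have pK := fun r : ℕ => K.pow_mem (K.mul_mem aK bK) r
  obtain ⟨v, hv, k', hk', e⟩ : ∃ v ∈ K, ∃ k' ∈ I, (a * b) ^ n * a = v * (h.pt k').z * v⁻¹ := by
    obtain ⟨r, e | e⟩ := dih_refl aa bb n
    · exact ⟨_, pK r, l, hl, ha ▸ e⟩
    · exact ⟨_, K.mul_mem (K.mul_mem (pK r) aK) hw, k, hk, by rw [e, ← hb]; group⟩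
  obtain ⟨m, m1, m2, -⟩ := exists_third h3 l l
  have vM := c.a h3 hk' hv (e ▸ c.cent1 hl m1 m2.symm (K.mul_mem (pK n) aK)
    (cj_of_comm c.two (h.pt l).z_coe (by rw [ha, ← mul_assoc, ta])))
  obtain ⟨j, hj⟩ := vM k'
  have e1 : (((a * b) ^ n * a : unitary R) : R) = 1 - 2 * π j := by rw [e, z_conj (h.pt k').z_coe, hj]
  have jl : j ≠ l := fun k => t1 (by
    have : (a * b) ^ n * a = a := Subtype.ext (by rw [e1, k, ← ha, Pt.z_coe])
    simpa using this)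
  have e2 : (((a * b) ^ n : unitary R) : R) = 1 - 2 * ∑ i ∈ {j, l}, π i := by
    rw [show (a * b) ^ n = (a * b) ^ n * a * a by rw [mul_assoc, aa, mul_one], Submonoid.coe_mul, e1, ← ha, Pt.z_coe,
      Finset.sum_pair jl]
    linear_combination (norm := noncomm_ring) 4 * h.orth j l jl
  obtain ⟨u, u1, u2, u3⟩ := exists_third h3 j l
  refine hM (c.a h3 hk hw (hb ▸ c.cent (I' := {j, l}) ⟨?_, fun s => ?_⟩ (by simp) bK (cj_of_comm c.two e2 tb)))
  · exact Finset.insert_subset (c.mem hk' hv hj) (Finset.singleton_subset_iff.2 hl)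
  · simpa [u2, u3] using s u1

theorem Cx.big [Finite (unitary R)] (c : Cx h I K) (h3 : 3 ≤ I.card) (hsq : ¬ IsSquare (2 : F)) : K ≤ h.M := fun w hw => by
  by_contra hM
  obtain ⟨p, hp⟩ : I.Nonempty := Finset.card_pos.1 (by omega)
  obtain ⟨q, hq, hqp, -⟩ := exists_third h3 p p
  obtain ⟨x, hx, rx⟩ := c.rt p hp
  obtain ⟨a, a0, a1, -⟩ := odd_pair c.two (h.pt p) (h.pt p).z_coe ((h.pt p).conj w).idem (z_conj (h.pt p).z_coe w)
    (c.c h3 hp hp hw hM)
  obtain ⟨b, b0, -, b1⟩ := odd_pair c.two (h.pt p) (h.pt p).z_coe ((h.pt q).conj w).idem (z_conj (h.pt q).z_coe w)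
    (c.c h3 hq hp hw hM)
  have o1 : cj w (π q) * cj w (π p) = 0 := by rw [← map_mul, h.orth _ _ hqp, map_zero]
  have o2 : cj w (π p) * cj w (π q) = 0 := by rw [← map_mul, h.orth _ _ hqp.symm, map_zero]
  have e1 : ((x : R) - 1) * π p = x - 1 := by linear_combination (norm := noncomm_ring) -rx.1.2
  have e2 : π p * (star (x : R) - 1) = star (x : R) - 1 := by simpa [(h.pt p).sa] using congrArg star e1
  have e3 : ((x : R) - 1) * (star (x : R) - 1) = 2 * π p := by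
    linear_combination (norm := noncomm_ring) ms x - rx.add_star (h.pt p).idem
  have e4 : ((x : R) - 1) * cj w (π p) * (star (x : R) - 1) = (a * a) • (2 * π p) := by
    rw [← e3, ← e1, ← e2, ← smul_mul_assoc, ← mul_smul_comm, ← a1, e1, e2]
    nth_rewrite 1 [← e1, ← e2]
    simp only [mul_assoc]
  have e5 : cj w (π q) * cj x (cj w (π p)) * cj w (π q) = (2 * (a * b) * (a * b)) • cj w (π q) := by
    have : cj w (π q) * cj x (cj w (π p)) * cj w (π q) =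
        cj w (π q) * (((x : R) - 1) * cj w (π p) * (star (x : R) - 1)) * cj w (π q) := by
      rw [cj_def x]
      linear_combination (norm := noncomm_ring) o1 * star (x : R) * cj w (π q) + cj w (π q) * x * o2 - o1 * cj w (π q)
    rw [this, e4, mul_smul_comm, smul_mul_assoc, two_mul, mul_add, add_mul, b1, ← two_smul F, smul_smul, smul_smul]
    congr 1; ring
  have e6 : π q * cj (w⁻¹ * x * w) (π p) * π q = (2 * (a * b) * (a * b)) • π q := by
    have := congrArg (cj w⁻¹) e5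
    rwa [map_mul, map_mul, cj_smul, cj_inv, ← cj_mul, ← cj_mul] at this
  have ab := mul_ne_zero a0 b0
  have fin : ∀ ν : F, ν * ν ≠ 2 * (a * b) * (a * b) := fun ν k => hsq ⟨ν / (a * b), by field_simp; linear_combination -k⟩
  by_cases k : w⁻¹ * x * w ∈ h.M
  · obtain ⟨j, hj⟩ := k p
    rw [hj] at e6
    by_cases hjq : j = q
    · rw [hjq, (h.pt q).idem, (h.pt q).idem] at e6
      exact fin 1 ((h.pt q).smul_inj (by rw [← e6, one_mul, one_smul]))
    · rw [mul_assoc, h.orth _ _ hjq, mul_zero] at e6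
      exact fin 0 ((h.pt q).smul_inj (by rw [← e6, zero_mul, zero_smul]))
  · obtain ⟨ν, -, e, -⟩ := odd_pair c.two (h.pt q) (h.pt q).z_coe ((h.pt p).conj _).idem (z_conj (h.pt p).z_coe _)
      (c.c h3 hp hq (K.mul_mem (K.mul_mem (K.inv_mem hw) hx) hw) k)
    exact fin ν ((h.pt q).smul_inj (e.symm.trans e6))

end Cfsg.Agent.H29.Pn
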