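import Mathlib
import Cfsg.Agent.H8.ZStar
import Cfsg.Agent.H2.Fitting
import Cfsg.Agent.H18.SylIn

/-! A consequence of the `Z*`-theorem. -/

set_option autoImplicit false
set_option linter.unusedSectionVars false

set_option linter.style.haveILetI false

open scoped Pointwise commutatorElement

namespace Cfsg.Agent.H29.Pn

theorem zl {G : Type*} [Group G] [Finite G] {t z : G} (ht : t ∈ Subgroup.center G) (tt : t * t = 1) (zz : z * z = 1)
    (z1 : z ≠ 1) (zt : z ≠ t) {B : Subgroup G} (hB : IsPGroup 2 B)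
    (iso : ∀ g, (g * z * g⁻¹ * z * (g * z * g⁻¹)⁻¹ = z ∨ g * z * g⁻¹ * z * (g * z * g⁻¹)⁻¹ = t * z) →
      g * z * g⁻¹ = z ∨ g * z * g⁻¹ = t * z) :
    (∀ g, g * z * g⁻¹ = z ∨ g * z * g⁻¹ = t * z) ∨ ∃ r : ℕ, r.Prime ∧ Odd r ∧ ∃ R : Subgroup G, IsPGroup r R ∧
      (∀ b ∈ B, ∀ x ∈ R, b * x * b⁻¹ ∈ R) ∧ ∃ y ∈ R, y * z ≠ z * y := by
  have hT : ∀ x, x ∈ Subgroup.zpowers t ↔ x = 1 ∨ x = t := fun x => by
    refine ⟨?_, by rintro (rfl | rfl); exacts [one_mem _, Subgroup.mem_zpowers _]⟩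
    rintro ⟨n, rfl⟩
    have k : t ^ (2 : ℤ) = 1 := by rw [zpow_two, tt]
    obtain ⟨m, rfl | rfl⟩ := Int.even_or_odd' n
    · left; simp only [zpow_mul, k, one_zpow]
    · right; simp only [zpow_add, zpow_mul, k, one_zpow, one_mul, zpow_one]
  generalize hT' : Subgroup.zpowers t = T at hT
  have TZ : T ≤ Subgroup.center G := fun x hx => by rcases (hT x).1 hx with rfl | rfl; exacts [one_mem _, ht]
  haveI : T.Normal := ⟨fun x hx g => by rwa [Subgroup.mem_center_iff.1 (TZ hx) g, mul_inv_cancel_right]⟩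
  have e1 : ∀ x y : G, (x : G ⧸ T) = y ↔ x = y ∨ x = t * y := fun x y => by
    rw [← mul_inv_eq_one, ← QuotientGroup.mk_inv, ← QuotientGroup.mk_mul, QuotientGroup.eq_one_iff, hT,
      mul_inv_eq_one, mul_inv_eq_iff_eq_mul]
  have hz : Cfsg.IsIsolatedInvolution (z : G ⧸ T) := by
    refine ⟨orderOf_eq_prime (by rw [pow_two, ← QuotientGroup.mk_mul, zz]; rfl) fun e => ?_, fun g hg => ?_⟩
    · rcases (hT z).1 ((QuotientGroup.eq_one_iff _).1 e) with e | e
      exacts [z1 e, zt e]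
    · obtain ⟨g, rfl⟩ := QuotientGroup.mk_surjective g
      refine (e1 (g * z * g⁻¹) z).2 (iso g ((e1 _ _).1 ?_))
      simp only [QuotientGroup.mk_mul, QuotientGroup.mk_inv]
      rw [← hg.eq, mul_inv_cancel_right]
  obtain ⟨N, hN⟩ : ∃ N, N = (oddCore (G ⧸ T)).comap (QuotientGroup.mk' T) := ⟨_, rfl⟩
  haveI : N.Normal := hN ▸ inferInstance
  have iN : Odd (T.subgroupOf N).index := by
    rw [← Subgroup.relIndex, ← QuotientGroup.ker_mk' T, ← MonoidHom.comap_bot, Subgroup.relIndex_comap, hN,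
      Subgroup.map_comap_eq_self_of_surjective (QuotientGroup.mk'_surjective T), Subgroup.relIndex_bot_left]
    exact H2.odd_card_oddCore
  obtain ⟨C, hC⟩ : ∃ C, C = (Subgroup.centralizer {z}).subgroupOf N := ⟨_, rfl⟩
  have mC : ∀ x : N, x ∈ C ↔ z * x = x * z := fun x => by
    rw [hC, Subgroup.mem_subgroupOf, Subgroup.mem_centralizer_singleton_iff, eq_comm]
  by_cases h1 : C.index = 1
  · refine Or.inl fun g => iso g (Or.inl ?_)
    have k : ⁅g, z⁆ ∈ N := by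
      rw [hN, Subgroup.mem_comap, map_commutatorElement]
      exact H8.zstar hz _
    have : z * (g * z * g⁻¹ * z⁻¹) = g * z * g⁻¹ * z⁻¹ * z :=
      (mC ⟨_, k⟩).1 (Subgroup.index_eq_one.1 h1 ▸ Subgroup.mem_top _)
    rw [mul_inv_eq_iff_eq_mul]
    calc g * z * g⁻¹ * z = g * z * g⁻¹ * z⁻¹ * z * z := by group
      _ = z * (g * z * g⁻¹) := by rw [← this]; group
  obtain ⟨r, hr, rd⟩ := Nat.exists_prime_and_dvd h1
  haveI := Fact.mk hr
  have TC : T.subgroupOf N ≤ C := fun x hx => (mC x).2 (Subgroup.mem_center_iff.1 (TZ hx) z)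
  refine Or.inr ⟨r, hr, (iN.of_dvd_nat (Subgroup.index_dvd_of_le TC)).of_dvd_nat rd, ?_⟩
  letI : MulAction B (Sylow r N) := MulAction.compHom _ ((MulAut.conjNormal (H := N)).comp B.subtype)
  obtain ⟨P0⟩ : Nonempty (Sylow r N) := inferInstance
  obtain ⟨P, hP⟩ := hB.nonempty_fixed_point_of_prime_not_dvd_card (Sylow r N) (by
    rw [Sylow.card_eq_index_normalizer P0, ← even_iff_two_dvd, Nat.not_even_iff_odd]
    refine iN.of_dvd_nat (Subgroup.index_dvd_of_le fun x hx => Subgroup.center_le_normalizer _ ?_)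
    exact Subgroup.mem_center_iff.2 fun g => Subtype.ext (Subgroup.mem_center_iff.1 (TZ hx) g))
  refine ⟨(P : Subgroup N).map N.subtype, P.2.map _, ?_, ?_⟩
  · rintro b hb _ ⟨x, hx, rfl⟩
    have k : MulAut.conjNormal (H := N) b • P = P := hP ⟨b, hb⟩
    refine ⟨MulAut.conjNormal b x, ?_, rfl⟩
    rw [← k, Sylow.pointwise_smul_def]
    exact Subgroup.smul_mem_pointwise_smul _ _ _ hx
  · by_contra! k
    exact P.not_dvd_index (rd.trans (Subgroup.index_dvd_of_le fun x hx => (mC x).2 (k _ ⟨x, hx, rfl⟩).symm))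

theorem mem_of_two_normal {G : Type*} [Group G] [Finite G] {Q T : Subgroup G} (hQ : H18.SylIn 2 Q ⊤) (h : Q ≤ T) {y : G}
    (hy : y ^ 4 = 1) (hn : ∀ v ∈ T, y * v * y⁻¹ ∈ T) : y ∈ T := by
  obtain ⟨g, hg, k⟩ := (hQ.mono (h.trans Subgroup.le_normalizer) le_top).exists_conj_mem
    (Subgroup.zpowers_le.2 (H18.mem_normalizer_of_conj_mem hn)) (p := 2) (fun ⟨_, n, rfl⟩ => ⟨2, Subtype.ext (by
      show (y ^ n) ^ 2 ^ 2 = 1
      rw [← zpow_natCast, ← zpow_mul, mul_comm, zpow_mul, zpow_natCast, show 2 ^ 2 = 4 by rfl, hy, one_zpow])⟩)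
  exact (Subgroup.mem_normalizer_iff.1 hg y).2 (h (k y (Subgroup.mem_zpowers y)))

end Cfsg.Agent.H29.Pn
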