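import Mathlib
import Cfsg.Agent.H29.Pn2

/-! Quaternion block matrices. -/

set_option autoImplicit false
set_option linter.unusedSectionVars false
set_option linter.unusedSimpArgs false
set_option linter.unnecessarySeqFocus false

namespace Cfsg.Agent.H29.Pn

section quat
open Quaternion Matrix
variable {F : Type*} [Field F]

/-- Quaternion with given coordinates. -/
def q4 (a b c d : F) : ℍ[F] := ⟨a, b, c, d⟩
@[simp] theorem q4_re (a b c d : F) : (q4 a b c d).re = a := rfl
@[simp] theorem q4_imI (a b c d : F) : (q4 a b c d).imI = b := rfl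
@[simp] theorem q4_imJ (a b c d : F) : (q4 a b c d).imJ = c := rfl
@[simp] theorem q4_imK (a b c d : F) : (q4 a b c d).imK = d := rfl

variable (F) in
/-- The quaternion units. -/
def qi : unitary ℍ[F] := ⟨q4 0 1 0 0, by constructor <;> ext <;> simp⟩
variable (F) in
/-- The quaternion units. -/
def qj : unitary ℍ[F] := ⟨q4 0 0 1 0, by constructor <;> ext <;> simp⟩
variable (F) in
/-- The quaternion units. -/
def qk : unitary ℍ[F] := ⟨q4 0 0 0 1, by constructor <;> ext <;> simp⟩
/-- An element of order six. -/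
def qw (h2 : (2 : F) ≠ 0) : unitary ℍ[F] :=
  ⟨q4 2⁻¹ 2⁻¹ 2⁻¹ 2⁻¹, by constructor <;> ext <;> simp <;> field_simp <;> ring⟩

theorem q_prime (h2 : (2 : F) ≠ 0) {x b : ℍ[F]} (h1 : x * b = 0) (hi : x * qi F * b = 0) (hj : x * qj F * b = 0)
    (hk : x * qk F * b = 0) : x = 0 ∨ b = 0 := by
  have k : ∀ c : ℍ[F], (4 * (b * c).re) • x = 0 := fun c => by
    have : b * c - qi F * (b * c) * qi F - qj F * (b * c) * qj F - qk F * (b * c) * qk F = (4 * (b * c).re) • 1 := by
      generalize b * c = y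
      ext <;> simp [qi, qj, qk] <;> ring
    rw [← mul_one x, ← mul_smul_comm, ← this]
    linear_combination (norm := noncomm_ring) h1 * c - hi * c * qi F - hj * c * qj F - hk * c * qk F
  have h4 : (4 : F) ≠ 0 := by rw [show (4 : F) = 2 * 2 by norm_num]; exact mul_ne_zero h2 h2
  refine or_iff_not_imp_left.2 fun x0 => ?_
  have k' : ∀ c : ℍ[F], (b * c).re = 0 := fun c => by simpa [x0, h4] using k c
  ext
  · simpa using k' 1
  · simpa [qi] using k' (qi F)
  · simpa [qj] using k' (qj F)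
  · simpa [qk] using k' (qk F)

theorem q_null (h2 : (2 : F) ≠ 0) {b : ℍ[F]} (hi : b * qi F * star b = 0) (hj : b * qj F * star b = 0)
    (hk : b * qk F * star b = 0) : b = 0 := by
  have a1 := congrArg QuaternionAlgebra.imI hi
  have a2 := congrArg QuaternionAlgebra.imJ hi
  have a3 := congrArg QuaternionAlgebra.imI hj
  have a4 := congrArg QuaternionAlgebra.imJ hj
  have a5 := congrArg QuaternionAlgebra.imK hk
  simp [qi, qj, qk] at a1 a2 a3 a4 a5
  have e1 : b.re * b.re = b.imI * b.imI := mul_left_cancel₀ h2 (by linear_combination a4 + a5)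
  have e2 : b.re * b.re = b.imJ * b.imJ := mul_left_cancel₀ h2 (by linear_combination a1 + a5)
  have e3 : b.re * b.re = b.imK * b.imK := mul_left_cancel₀ h2 (by linear_combination a1 + a4)
  have e4 : b.re * b.imK = 0 := mul_left_cancel₀ h2 (mul_left_cancel₀ h2 (by linear_combination a2 - a3))
  have e5 : b.re = 0 := by
    rcases mul_eq_zero.1 e4 with e | e
    · exact e
    · exact mul_self_eq_zero.1 (by rw [e3, e, mul_zero])
  rw [e5, mul_zero] at e1 e2 e3
  ext
  exacts [e5, mul_self_eq_zero.1 e1.symm, mul_self_eq_zero.1 e2.symm, mul_self_eq_zero.1 e3.symm]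

theorem q_cent (h2 : (2 : F) ≠ 0) {a : ℍ[F]} (hi : qi F * a * star (qi F : ℍ[F]) = a)
    (hj : qj F * a * star (qj F : ℍ[F]) = a) : a = a.re • 1 := by
  have a1 := congrArg QuaternionAlgebra.imJ hi
  have a2 := congrArg QuaternionAlgebra.imK hi
  have a3 := congrArg QuaternionAlgebra.imI hj
  simp [qi, qj] at a1 a2 a3
  ext
  · simp
  · simpa using mul_left_cancel₀ h2 (by linear_combination -a3 : 2 * a.imI = 2 * 0)
  · simpa using mul_left_cancel₀ h2 (by linear_combination -a1 : 2 * a.imJ = 2 * 0)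
  · simpa using mul_left_cancel₀ h2 (by linear_combination -a2 : 2 * a.imK = 2 * 0)

theorem q_sa (h2 : (2 : F) ≠ 0) {a : ℍ[F]} (h : star a = a) : a = a.re • 1 := by
  have a1 := congrArg QuaternionAlgebra.imJ h
  have a2 := congrArg QuaternionAlgebra.imK h
  have a3 := congrArg QuaternionAlgebra.imI h
  simp at a1 a2 a3
  ext
  · simp
  · simpa using mul_left_cancel₀ h2 (by linear_combination -a3 : 2 * a.imI = 2 * 0)
  · simpa using mul_left_cancel₀ h2 (by linear_combination -a1 : 2 * a.imJ = 2 * 0)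
  · simpa using mul_left_cancel₀ h2 (by linear_combination -a2 : 2 * a.imK = 2 * 0)

variable {ι : Type*} [Fintype ι] [DecidableEq ι]

variable (F) in
/-- The standard frame. -/
def pi (k : ι) : Matrix ι ι ℍ[F] := single k k 1

theorem pi_mul_pi (k l : ι) (g : Matrix ι ι ℍ[F]) : pi F k * g * pi F l = single k l (g k l) := by
  simp [pi, single_mul_mul_single]

theorem star_single (k l : ι) (a : ℍ[F]) : star (single k l a : Matrix ι ι ℍ[F]) = single l k (star a) := by
  rw [star_eq_conjTranspose, conjTranspose_single]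

theorem fr (h2 : (2 : F) ≠ 0) : Fr F (pi F : ι → Matrix ι ι ℍ[F]) where
  pt k := ⟨by simp [pi], by simp [pi, star_single], fun e => by simpa [pi] using congrFun (congrFun e k) k,
    fun T hT => ⟨(T k k).re, by
      rw [pi_mul_pi, pi, smul_single, ← q_sa h2]
      exact congrFun (congrFun hT k) k⟩⟩
  orth i j h := by simp [pi, h]
  sum := by ext1 i j; simp [pi, Matrix.sum_apply, single, one_apply, ite_and, eq_comm]

/-- Diagonal unitary matrices. -/
def dg : (ι → unitary ℍ[F]) →* unitary (Matrix ι ι ℍ[F]) where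
  toFun c := ⟨diagonal fun i => (c i : ℍ[F]), by
    constructor <;> simp [star_eq_conjTranspose, diagonal_conjTranspose, diagonal_mul_diagonal, ms, sm]⟩
  map_one' := Subtype.ext (by simp)
  map_mul' c d := Subtype.ext (by simp [diagonal_mul_diagonal])

theorem dg_coe (c : ι → unitary ℍ[F]) : (dg c).1 = diagonal fun i => (c i : ℍ[F]) := rfl

/-- The `k`-th fundamental subgroup. -/
def ee (k : ι) : unitary ℍ[F] →* unitary (Matrix ι ι ℍ[F]) := dg.comp (MonoidHom.mulSingle (fun _ => unitary ℍ[F]) k)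

theorem ee_coe (k : ι) (y : unitary ℍ[F]) : (ee k y).1 = 1 - pi F k + single k k (y : ℍ[F]) := by
  ext1 i j
  by_cases h : i = j
  · subst h
    by_cases h : i = k
    · subst h; simp [ee, dg_coe, pi]
    · simp [ee, dg_coe, pi, h, Ne.symm h]
  · simp [ee, dg_coe, pi, h, single, (show ¬ (k = i ∧ k = j) from fun e => h (e.1.symm.trans e.2))]

theorem ee_LL (k : ι) (y : unitary ℍ[F]) : ee k y ∈ LL (pi F k) := by
  constructor <;> simp [ee_coe, pi, mul_add, add_mul, mul_sub, sub_mul]

theorem ee_rt (k : ι) {y : unitary ℍ[F]} (hy : (y : ℍ[F]) * y = -1) : Rt (ee k y) (pi F k) :=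
  ⟨ee_LL k y, by
    rw [← Submonoid.coe_mul, ← map_mul, ee_coe, Submonoid.coe_mul, hy, ← single_neg, two_mul, pi]; abel⟩

theorem LL_eq {R : Type*} [Ring R] [StarRing R] {e : R} {g : unitary R} (h : g ∈ LL e) (he : e * e = e) :
    (g : R) = 1 - e + e * g * e := by
  linear_combination (norm := noncomm_ring) h.2 + h.1 * e - he

theorem exists_ee {k : ι} {g : unitary (Matrix ι ι ℍ[F])} (h : g ∈ LL (pi F k)) : ∃ y, ee k y = g := by
  have e := LL_eq h (by simp [pi])
  rw [pi_mul_pi] at e
  generalize g.1 k k = a at e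
  have e1 := congrFun (congrFun (ms g) k) k
  have e2 := congrFun (congrFun (sm g) k) k
  simp [e, pi, star_single, mul_add, add_mul, mul_sub, sub_mul] at e1 e2
  exact ⟨⟨a, e2, e1⟩, Subtype.ext (by rw [ee_coe, e])⟩

/-- Block matrices. -/
def blk (p q : ι) (a b c d : ℍ[F]) : Matrix ι ι ℍ[F] :=
  1 - (pi F p + pi F q) + (single p p a + single p q b + single q p c + single q q d)

variable {p q : ι}

theorem blk_mul (h : p ≠ q) (a b c d a' b' c' d' : ℍ[F]) : blk p q a b c d * blk p q a' b' c' d' =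
    blk p q (a * a' + b * c') (a * b' + b * d') (c * a' + d * c') (c * b' + d * d') := by
  simp [blk, pi, mul_add, add_mul, mul_sub, sub_mul, h, h.symm, single_add]
  abel

theorem blk_star (a b c d : ℍ[F]) : star (blk p q a b c d) = blk p q (star a) (star c) (star b) (star d) := by
  simp [blk, pi, star_single]
  abel

theorem blk_pp (h : p ≠ q) (a b c d : ℍ[F]) : blk p q a b c d p p = a := by simp [blk, pi, h, h.symm]
theorem blk_pq (h : p ≠ q) (a b c d : ℍ[F]) : blk p q a b c d p q = b := by simp [blk, pi, h, h.symm]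
theorem blk_qp (h : p ≠ q) (a b c d : ℍ[F]) : blk p q a b c d q p = c := by simp [blk, pi, h, h.symm]
theorem blk_qq (h : p ≠ q) (a b c d : ℍ[F]) : blk p q a b c d q q = d := by simp [blk, pi, h, h.symm]

theorem blk_inj (h : p ≠ q) {a b c d a' b' c' d' : ℍ[F]} (e : blk p q a b c d = blk p q a' b' c' d') :
    a = a' ∧ b = b' ∧ c = c' ∧ d = d' :=
  ⟨by rw [← blk_pp h a b c d, e, blk_pp h], by rw [← blk_pq h a b c d, e, blk_pq h],
    by rw [← blk_qp h a b c d, e, blk_qp h], by rw [← blk_qq h a b c d, e, blk_qq h]⟩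

theorem blk_one : blk p q (1 : ℍ[F]) 0 0 1 = 1 := by simp [blk, pi]

theorem LL_blk (h : p ≠ q) {g : unitary (Matrix ι ι ℍ[F])} (hg : g ∈ LL (∑ k ∈ {p, q}, pi F k)) :
    g.1 = blk p q (g.1 p p) (g.1 p q) (g.1 q p) (g.1 q q) := by
  rw [Finset.sum_pair h] at hg
  have e := LL_eq hg (by simp [pi, mul_add, add_mul, h, h.symm])
  rw [add_mul, add_mul, mul_add, mul_add, pi_mul_pi, pi_mul_pi, pi_mul_pi, pi_mul_pi] at e
  refine e.trans ?_
  rw [blk]; abel

theorem ee_p (y : unitary ℍ[F]) : (ee p y).1 = blk p q (y : ℍ[F]) 0 0 1 := by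
  simp [ee_coe, blk, pi]; abel

theorem ee_q (y : unitary ℍ[F]) : (ee q y).1 = blk p q 1 0 0 (y : ℍ[F]) := by
  simp [ee_coe, blk, pi]; abel

theorem ee_pq (h : p ≠ q) (y y' : unitary ℍ[F]) :
    (ee p y * ee q y').1 = blk p q (y : ℍ[F]) 0 0 y' := by
  rw [Submonoid.coe_mul, ee_p (q := q), ee_q (p := p), blk_mul h]; simp

theorem z_ee (h2 : (2 : F) ≠ 0) (k : ι) : ((fr h2).pt k).z = ee k (-1) :=
  Subtype.ext (by rw [Pt.z_coe, ee_coe, two_mul, Unitary.coe_neg, OneMemClass.coe_one, ← single_neg, pi]; abel)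

end quat

end Cfsg.Agent.H29.Pn
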