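import Mathlib
import Cfsg.Agent.H29.Pn3
import Cfsg.Agent.H29.Pn4

/-! Subgroups containing the quaternion subgroups of two blocks. -/

set_option autoImplicit false
set_option linter.unusedSectionVars false
set_option linter.unusedSimpArgs false
set_option linter.unnecessarySeqFocus false
set_option linter.style.haveILetI false

namespace Cfsg.Agent.H29.Pn

section proj
variable {R : Type*} [Ring R] [StarRing R]

@[simp] theorem neg_one_coe : ((-1 : unitary R) : R) = -1 := rfl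

/-- The component of `δ` on the idempotent `ρ`. -/
def prj {ρ : R} (h1 : ρ * ρ = ρ) (h2 : star ρ = ρ) (δ : unitary R) (h : cj δ ρ = ρ) : unitary R :=
  ⟨ρ * δ + (1 - ρ), by
    have e := cj_eq_iff.1 h
    have e' : ρ * star (δ : R) = star (δ : R) * ρ := by simpa [h2] using congrArg star e
    have k : star (ρ * δ + (1 - ρ)) = star (δ : R) * ρ + (1 - ρ) := by simp [h2]
    constructor
    · rw [k]
      linear_combination (norm := noncomm_ring) star (δ : R) * h1 * δ - e' * δ + ρ * sm δ - star (δ : R) * h1 - h1 * δ + h1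
    · rw [k]
      linear_combination (norm := noncomm_ring) ρ * ms δ * ρ + 2 * h1 - h1 * δ - (1 - ρ) * e' - h1 * star (δ : R) - ρ * e⟩

variable {ρ : R} {h1 : ρ * ρ = ρ} {h2 : star ρ = ρ} {δ : unitary R} {h : cj δ ρ = ρ}

theorem prj_coe : (prj h1 h2 δ h : R) = ρ * δ + (1 - ρ) := rfl

theorem prj_LL : prj h1 h2 δ h ∈ LL ρ := by
  have e := cj_eq_iff.1 h
  constructor
  · rw [prj_coe]; linear_combination (norm := noncomm_ring) h1 - h1 * δ
  · rw [prj_coe]; linear_combination (norm := noncomm_ring) h1 - h1 * δ - ρ * e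

theorem prj_conj {g : unitary R} (hg : g ∈ LL ρ) : prj h1 h2 δ h * g * (prj h1 h2 δ h)⁻¹ = δ * g * δ⁻¹ := by
  have e := cj_eq_iff.1 h
  have k : δ⁻¹ * prj h1 h2 δ h * g = g * (δ⁻¹ * prj h1 h2 δ h) := Subtype.ext (by
    have k1 : ((δ⁻¹ * prj h1 h2 δ h : unitary R) : R) = ρ + star (δ : R) * (1 - ρ) := by
      rw [Submonoid.coe_mul, cinv, prj_coe, ← e, mul_add, sm']
    have e' : ρ * star (δ : R) = star (δ : R) * ρ := by simpa [h2] using congrArg star e
    rw [Submonoid.coe_mul _ _ g, Submonoid.coe_mul _ g, k1]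
    linear_combination (norm := noncomm_ring) star (δ : R) * hg.1 - hg.2 * star (δ : R) - g * e' + e' - hg.1 + hg.2)
  calc _ = δ * (δ⁻¹ * prj h1 h2 δ h * g) * (prj h1 h2 δ h)⁻¹ := by group
    _ = _ := by rw [k]; group

theorem prj_pow (n : ℕ) (hn : δ ^ n = 1) : prj h1 h2 δ h ^ n = 1 := by
  have e := cj_eq_iff.1 h
  have k : ∀ n : ℕ, (ρ * δ + (1 - ρ)) ^ n = ρ * (δ : R) ^ n + (1 - ρ) := fun n => by
    induction n with
    | zero => simp
    | succ n ih =>
      rw [pow_succ', ih, pow_succ']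
      linear_combination (norm := noncomm_ring) ρ * e * (δ : R) ^ n + h1 * δ * (δ : R) ^ n - ρ * e - h1 * δ -
        h1 * (δ : R) ^ n + h1
  refine Subtype.ext ?_
  rw [SubmonoidClass.coe_pow, prj_coe, k, ← SubmonoidClass.coe_pow, hn]
  simp

end proj

open Quaternion Matrix

variable {F : Type*} [Field F] [Finite F] {ι : Type*} [Fintype ι] [DecidableEq ι] {p q : ι}

instance finite_quat : Finite ℍ[F] := Finite.of_equiv _ (Quaternion.equivProd F).symm

/-- The product of two fundamental subgroups. -/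
def bd (h : p ≠ q) : unitary ℍ[F] × unitary ℍ[F] →* unitary (Matrix ι ι ℍ[F]) :=
  (ee p).noncommCoprod (ee q) fun a b => Subtype.ext (by
    rw [ee_pq h, Submonoid.coe_mul, ee_q (p := p), ee_p (q := q), blk_mul h]; simp)

theorem bd_apply (h : p ≠ q) (u v : unitary ℍ[F]) : bd h (u, v) = ee p u * ee q v := rfl

theorem bd_coe (h : p ≠ q) (u v : unitary ℍ[F]) : (bd h (u, v)).1 = blk p q (u : ℍ[F]) 0 0 v := ee_pq h u v

theorem cj_blk (h : p ≠ q) (u v : unitary ℍ[F]) {x : unitary (Matrix ι ι ℍ[F])} {a b c d : ℍ[F]}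
    (hx : x.1 = blk p q a b c d) : (bd h (u, v) * x * (bd h (u, v))⁻¹).1 =
      blk p q (u.1 * a * star u.1) (u.1 * b * star v.1) (v.1 * c * star u.1) (v.1 * d * star v.1) := by
  rw [cj_coe, cj_def, bd_coe, hx, blk_star, blk_mul h, blk_mul h]; simp

theorem nil_core (h2 : (2 : F) ≠ 0) (h : p ≠ q) {Q : Subgroup (unitary ℍ[F])} (hi : qi F ∈ Q) (hj : qj F ∈ Q)
    (hk : qk F ∈ Q) {R : Subgroup (unitary (Matrix ι ι ℍ[F]))} (hL : R ≤ LL (∑ k ∈ {p, q}, pi F k)) {r : ℕ}
    (hr : r.Prime) (ro : Odd r) (hR : IsPGroup r R) (hB : ∀ b ∈ (Q.prod Q).map (bd h), ∀ x ∈ R, b * x * b⁻¹ ∈ R)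
    {y : unitary (Matrix ι ι ℍ[F])} (hy : y ∈ R) : y * ee p (-1) = ee p (-1) * y := by
  by_contra hne
  haveI := Fact.mk hr
  have odd : ∀ x ∈ R, x * x = 1 → x = 1 := fun x hx e => by
    obtain ⟨n, hn⟩ := hR ⟨x, hx⟩
    exact (pow_eq_one_iff_of_coprime ((Nat.coprime_two_left.2 ro).pow_right n)).1 ⟨by rw [pow_two, e], congrArg Subtype.val hn⟩
  have mB : ∀ u ∈ Q, ∀ v ∈ Q, bd h (u, v) ∈ (Q.prod Q).map (bd h) := fun u hu v hv => ⟨_, ⟨hu, hv⟩, rfl⟩
  have Zc : ∀ u ∈ Q, ∀ v ∈ Q, ∀ x, (∀ y ∈ R, x * y = y * x) → ∀ y ∈ R,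
      bd h (u, v) * x * (bd h (u, v))⁻¹ * y = y * (bd h (u, v) * x * (bd h (u, v))⁻¹) := fun u hu v hv x hx y hy => by
    have := hx _ (hB _ (inv_mem (mB u hu v hv)) y hy)
    calc _ = bd h (u, v) * (x * ((bd h (u, v))⁻¹ * y * (bd h (u, v))⁻¹⁻¹)) * (bd h (u, v))⁻¹ := by group
      _ = _ := by rw [this]; group
  have n1 : (-1 : unitary ℍ[F]) ∈ Q := (Subtype.ext (by ext <;> simp [qi]) : qi F * qi F = -1) ▸ Q.mul_mem hi hi
  have zb : ee p (-1) = bd (F := F) h (-1, 1) := by rw [bd_apply, map_one, mul_one]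
  rw [zb] at hne
  have zz : bd (F := F) h (-1, 1) * bd h (-1, 1) = 1 := by rw [← map_mul, ← map_one (bd h)]; congr 1; simp
  have zi := inv_eq_of_mul_eq_one_left zz
  have cm : ∀ x ∈ R, x * bd h (-1, 1) = bd h (-1, 1) * x ↔ x.1 p q = 0 ∧ x.1 q p = 0 := fun x hx => by
    rw [Subtype.ext_iff, Submonoid.coe_mul, Submonoid.coe_mul, bd_coe]
    generalize hb : x.1 p q = b
    generalize hc : x.1 q p = c
    rw [LL_blk h (hL hx), hb, hc, blk_mul h, blk_mul h]
    refine ⟨fun e => ?_, by rintro ⟨rfl, rfl⟩; simp⟩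
    obtain ⟨-, e1, e2, -⟩ := blk_inj h e
    simp at e1 e2
    exact ⟨two_cancel h2 (by linear_combination (norm := noncomm_ring) e1),
      two_cancel h2 (by linear_combination (norm := noncomm_ring) -e2)⟩
  haveI : Nontrivial R := (Subgroup.nontrivial_iff_exists_ne_one R).2 ⟨y, hy, fun e => hne (by simp [e])⟩
  haveI := hR.center_nontrivial
  obtain ⟨⟨⟨e, eR⟩, he⟩, e1⟩ := exists_ne (1 : Subgroup.center R)
  have e1' : e ≠ 1 := fun k => e1 (Subtype.ext (Subtype.ext k))
  have eZ : ∀ y ∈ R, e * y = y * e := fun y hy => (congrArg Subtype.val (Subgroup.mem_center_iff.1 he ⟨y, hy⟩)).symm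
  by_cases ez : e * bd h (-1, 1) = bd h (-1, 1) * e
  · obtain ⟨y, hy, y0⟩ : ∃ y ∈ R, y.1 p q ≠ 0 := by
      by_contra! k
      exact hne ((cm y hy).2 ⟨k y hy, by simpa [cinv, star_apply] using k _ (R.inv_mem hy)⟩)
    have be := LL_blk h (hL eR)
    rw [((cm e eR).1 ez).1, ((cm e eR).1 ez).2] at be
    have key : ∀ s ∈ Q, ∀ u ∈ Q, ∀ v ∈ Q, (s.1 * e.1 p p * star s.1) * (u.1 * y.1 p q * star v.1) =
        (u.1 * y.1 p q * star v.1) * e.1 q q := fun s hs u hu v hv => by
      have := congrArg Subtype.val (Zc s hs 1 Q.one_mem e eZ _ (hB _ (mB u hu v hv) y hy))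
      rw [Submonoid.coe_mul _ (_ * e * _), Submonoid.coe_mul _ (_ * y * _), cj_blk h _ _ be,
        cj_blk h _ _ (LL_blk h (hL hy)), blk_mul h, blk_mul h] at this
      simpa using (blk_inj h this).2.1
    have k1 : ∀ s ∈ Q, s.1 * e.1 p p * star s.1 = e.1 p p := fun s hs => by
      have k : ∀ u ∈ Q, (s.1 * e.1 p p * star s.1 - e.1 p p) * u.1 * y.1 p q = 0 := fun u hu => by
        have a1 := key s hs u hu 1 Q.one_mem
        have a2 := key 1 Q.one_mem u hu 1 Q.one_mem
        simp only [OneMemClass.coe_one, star_one, mul_one, one_mul] at a1 a2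
        linear_combination (norm := noncomm_ring) a1 - a2
      exact sub_eq_zero.1 ((q_prime h2 (by simpa using k 1 Q.one_mem) (k _ hi) (k _ hj) (k _ hk)).resolve_right y0)
    have k2 := q_cent h2 (k1 _ hi) (k1 _ hj)
    generalize (e.1 p p).re = s at k2
    have k3 : e.1 q q = s • 1 := by
      have k : ∀ v ∈ Q, y.1 p q * v.1 * (e.1 q q - s • 1) = 0 := fun v hv => by
        have a1 := key 1 Q.one_mem 1 Q.one_mem _ (Q.inv_mem hv)
        simp only [OneMemClass.coe_one, star_one, mul_one, one_mul, cinv, star_star, k2, smul_mul_assoc] at a1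
        rw [mul_sub, ← a1, mul_smul_comm, mul_one, sub_self]
      exact sub_eq_zero.1 ((q_prime h2 (by simpa using k 1 Q.one_mem) (k _ hi) (k _ hj) (k _ hk)).resolve_left y0)
    rw [k2, k3] at be
    refine e1' (odd e eR (Subtype.ext ?_))
    have : star e.1 = e.1 := by rw [be, blk_star]; simp
    rw [Submonoid.coe_mul]
    nth_rewrite 1 [← this]
    exact sm e
  · obtain ⟨y, hy, yZ, yi, y1⟩ : ∃ y ∈ R, (∀ x ∈ R, y * x = x * y) ∧ bd h (-1, 1) * y * (bd h (-1, 1))⁻¹ = y⁻¹ ∧ y ≠ 1 := by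
      have k1 := hB _ (mB _ n1 _ Q.one_mem) e eR
      have k2 := Zc _ n1 _ Q.one_mem e eZ
      refine ⟨e⁻¹ * (bd h (-1, 1) * e * (bd h (-1, 1))⁻¹), R.mul_mem (R.inv_mem eR) k1, fun x hx => ?_, ?_, fun k => ez ?_⟩
      · rw [mul_assoc, k2 x hx, ← mul_assoc, ((show Commute e x from eZ x hx).inv_left).eq, mul_assoc]
      · calc _ = bd h (-1, 1) * e⁻¹ * bd h (-1, 1) * e * (bd h (-1, 1) * bd h (-1, 1))⁻¹ := by group
          _ = bd h (-1, 1) * e⁻¹ * (bd h (-1, 1))⁻¹ * e := by rw [zz, zi]; group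
          _ = _ := by group
      · rw [inv_mul_eq_one, eq_mul_inv_iff_mul_eq] at k; exact k
    have by' := LL_blk h (hL hy)
    have k1 := congrArg Subtype.val yi
    rw [cj_blk h _ _ by', cinv, congrArg star by', blk_star] at k1
    have k2 : y.1 q p = -star (y.1 p q) := by simpa [neg_eq_iff_eq_neg] using (blk_inj h k1).2.2.1
    have k3 : ∀ v ∈ Q, star v.1 = -v.1 → y.1 p q * v.1 * star (y.1 p q) = 0 := fun v hv e => by
      have := congrArg Subtype.val (yZ _ (hB _ (mB 1 Q.one_mem v hv) y hy))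
      rw [Submonoid.coe_mul _ y, Submonoid.coe_mul _ (_ * y * _), cj_blk h _ _ by'] at this
      generalize y.1 p p = a at by' this
      generalize y.1 q q = d at by' this
      rw [k2] at by' this
      generalize y.1 p q = b at by' this
      rw [by', blk_mul h, blk_mul h] at this
      have k := (blk_inj h this).1
      simp only [OneMemClass.coe_one, star_one, mul_one, one_mul, e] at k
      exact two_cancel h2 (by linear_combination (norm := noncomm_ring) -k)
    have k4 := q_null h2 (k3 _ hi (by ext <;> simp [qi])) (k3 _ hj (by ext <;> simp [qj])) (k3 _ hk (by ext <;> simp [qk]))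
    rw [← (cm y hy).2 ⟨k4, by rw [k2, k4, star_zero, neg_zero]⟩, mul_inv_cancel_right] at yi
    exact y1 (odd y hy (mul_eq_one_iff_eq_inv.2 yi))

end Cfsg.Agent.H29.Pn
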