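import Mathlib
import Cfsg.Agent.H29.Pn5

/-! Subgroups containing the quaternion subgroups of all blocks. -/

set_option autoImplicit false
set_option linter.unusedSectionVars false
set_option linter.unusedSimpArgs false
set_option linter.unnecessarySeqFocus false
set_option linter.style.haveILetI false

namespace Cfsg.Agent.H29.Pn

open Quaternion Matrix

variable {F : Type*} [Field F] [Finite F] {ι : Type*} [Fintype ι] [DecidableEq ι] {p q : ι}
  {Q : Subgroup (unitary ℍ[F])} {K : Subgroup (unitary (Matrix ι ι ℍ[F]))}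

theorem half_mem (h2 : (2 : F) ≠ 0) (h : p ≠ q) (hQ : H18.SylIn 2 Q ⊤) (hL : K ≤ LL (∑ k ∈ {p, q}, pi F k))
    (hK : ∀ k ∈ ({p, q} : Finset ι), ∀ y ∈ Q, ee k y ∈ K) {w : unitary (Matrix ι ι ℍ[F])} (hw : w ∈ K) {k : ι}
    (hk : k ∈ ({p, q} : Finset ι)) {n : unitary ℍ[F]} (hn : n⁻¹ ∈ Subgroup.normalizer (Q : Set (unitary ℍ[F])))
    (hs : (w * ((fr h2).pt k).z * w⁻¹).1 = blk p q 0 n.1 (star n.1) 0) {y : unitary ℍ[F]} (hy : y ∈ Q) (y4 : y ^ 4 = 1) :
    ∃ H ∈ K, ∃ a b c d, H.1 = blk p q a b c d ∧ 2 * a = 1 + y.1 ∧ 2 * b = (1 - y.1) * n.1 ∧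
      2 * c = star n.1 * (1 - y.1) ∧ 2 * d = star n.1 * (1 + y.1) * n.1 := by
  have hz := z_conj ((fr h2).pt k).z_coe w
  have hρ := ((fr h2).pt k).conj w
  have dK : bd h (y, n⁻¹ * y * n) ∈ K := K.mul_mem (hK p (by simp) y hy) (hK q (by simp) _ (by
    simpa using (Subgroup.mem_normalizer_iff.1 hn y).1 hy))
  have d4 : bd h (y, n⁻¹ * y * n) ^ 4 = 1 := by
    rw [← map_pow, Prod.pow_mk, show n⁻¹ * y * n = n⁻¹ * y * n⁻¹⁻¹ by rw [inv_inv], conj_pow, y4, ← map_one (bd h)]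
    congr 1; simp
  have db : (bd h (y, n⁻¹ * y * n)).1 = blk p q y.1 0 0 (star n.1 * y.1 * n.1) := bd_coe h _ _
  generalize bd h (y, n⁻¹ * y * n) = δ at dK d4 db
  have sd : (w * ((fr h2).pt k).z * w⁻¹).1 * δ.1 = blk p q 0 (y.1 * n.1) (star n.1 * y.1) 0 := by
    rw [hs, db, blk_mul h]; simp [mul_assoc, ms']
  have hc : cj δ (cj w (pi F k)) = cj w (pi F k) := cj_of_comm h2 hz (Subtype.ext (by
    rw [Submonoid.coe_mul _ δ, Submonoid.coe_mul _ _ δ, sd, hs, db, blk_mul h]; simp [mul_assoc, ms]))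
  obtain ⟨H, hH⟩ : ∃ H, H = prj hρ.idem hρ.sa δ hc := ⟨_, rfl⟩
  have HK : H ∈ K := by
    obtain ⟨y', hy'⟩ := exists_ee (cj_inv w (pi F k) ▸ LL_conj (hH ▸ prj_LL : H ∈ LL (cj w (pi F k))) w⁻¹)
    have : y' ∈ K.comap (ee k) := mem_of_two_normal hQ (hK k hk) (by
      have : ee k (y' ^ 4) = ee k 1 := by rw [map_pow, hy', conj_pow, hH, prj_pow 4 d4, map_one]; simp
      have := congrFun (congrFun (congrArg Subtype.val this) k) k
      simp only [ee_coe, Matrix.add_apply, add_right_inj, single_apply_same] at this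
      exact Subtype.ext this) fun v hv => by
        rw [Subgroup.mem_comap, map_mul, map_mul, map_inv, hy',
          show w⁻¹ * H * w⁻¹⁻¹ * ee k v * (w⁻¹ * H * w⁻¹⁻¹)⁻¹ = w⁻¹ * (H * (w * ee k v * w⁻¹) * H⁻¹) * w by group,
          hH, prj_conj (LL_conj (ee_LL k v) w)]
        exact K.mul_mem (K.mul_mem (K.inv_mem hw) (K.mul_mem (K.mul_mem dK (K.mul_mem (K.mul_mem hw hv) (K.inv_mem hw)))
          (K.inv_mem dK))) hw
    rw [Subgroup.mem_comap, hy'] at this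
    simpa [mul_assoc] using K.mul_mem (K.mul_mem hw this) (K.inv_mem hw)
  have e : H.1 + H.1 = δ.1 - blk p q 0 (y.1 * n.1) (star n.1 * y.1) 0 + blk p q 1 0 0 1 + blk p q 0 n.1 (star n.1) 0 := by
    rw [← sd, ← hs, hz, hH, prj_coe, blk_one]; noncomm_ring
  rw [db] at e
  refine ⟨H, HK, _, _, _, _, LL_blk h (hL HK), ?_, ?_, ?_, ?_⟩
  · have := congrFun (congrFun e p) p
    simp only [Matrix.add_apply, Matrix.sub_apply, blk_pp h] at this
    linear_combination (norm := noncomm_ring) this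
  · have := congrFun (congrFun e p) q
    simp only [Matrix.add_apply, Matrix.sub_apply, blk_pq h] at this
    linear_combination (norm := noncomm_ring) this
  · have := congrFun (congrFun e q) p
    simp only [Matrix.add_apply, Matrix.sub_apply, blk_qp h] at this
    linear_combination (norm := noncomm_ring) this
  · have := congrFun (congrFun e q) q
    simp only [Matrix.add_apply, Matrix.sub_apply, blk_qq h] at this
    linear_combination (norm := noncomm_ring) this - sm n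

theorem qi4 : qi F ^ 4 = 1 := Subtype.ext (by ext <;> simp [qi, pow_succ])
theorem qj4 : qj F ^ 4 = 1 := Subtype.ext (by ext <;> simp [qj, pow_succ])

theorem qI1 (h2 : (2 : F) ≠ 0) :
    (1 + (qi F).1) * (1 + (qj F).1) + (1 - (qi F).1) * (qk F).1 * (1 - (qj F).1) = 2 * (2 * (qw h2).1) := by
  ext <;> simp [qi, qj, qk, qw, two_mul] <;> field_simp <;> ring
theorem qI2 : (1 + (qi F).1) * (1 - (qj F).1) + (1 - (qi F).1) * (qk F).1 * (1 + (qj F).1) = 0 := by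
  ext <;> simp [qi, qj, qk]
theorem qI3 : (1 - (qi F).1) * (1 + (qj F).1) + (1 + (qi F).1) * (qk F).1 * (1 - (qj F).1) = 0 := by
  ext <;> simp [qi, qj, qk]
theorem qI4 (h2 : (2 : F) ≠ 0) : (1 - (qi F).1) * (1 - (qj F).1) + (1 + (qi F).1) * (qk F).1 * (1 + (qj F).1) =
    2 * (2 * ((qk F).1 * (qw h2).1 * star (qk F).1)) := by
  ext <;> simp [qi, qj, qk, qw, two_mul] <;> field_simp <;> ring

set_option maxHeartbeats 800000 in
theorem swap_core (h2 : (2 : F) ≠ 0) (h : p ≠ q) (hQ : H18.SylIn 2 Q ⊤) (hi : qi F ∈ Q) (hj : qj F ∈ Q)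
    (hk' : qk F ∈ Q) (hL : K ≤ LL (∑ k ∈ {p, q}, pi F k))
    (hK : ∀ k ∈ ({p, q} : Finset ι), ∀ y ∈ Q, ee k y ∈ K) {w : unitary (Matrix ι ι ℍ[F])} (hw : w ∈ K) {k : ι}
    (hk : k ∈ ({p, q} : Finset ι)) {n : unitary ℍ[F]} (hn : n⁻¹ ∈ Subgroup.normalizer (Q : Set (unitary ℍ[F])))
    (hs : (w * ((fr h2).pt k).z * w⁻¹).1 = blk p q 0 n.1 (star n.1) 0) :
    bd h (qw h2, n⁻¹ * (qk F * qw h2 * (qk F)⁻¹) * n) ∈ K := by
  obtain ⟨H, hH, a, b, c, d, e, ha, hb, hc, hd⟩ := half_mem h2 h hQ hL hK hw hk hn hs hi qi4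
  obtain ⟨H', hH', a', b', c', d', e', ha', hb', hc', hd'⟩ := half_mem h2 h hQ hL hK hw hk hn hs hj qj4
  have m1 : ee q (n⁻¹ * qk F * n) ∈ K := hK q (by simp) _ (by simpa using (Subgroup.mem_normalizer_iff.1 hn _).1 hk')
  convert K.mul_mem (K.mul_mem hH m1) hH' using 1
  refine Subtype.ext ?_
  rw [Submonoid.coe_mul, Submonoid.coe_mul, ee_q (p := p), e, e', blk_mul h, blk_mul h, bd_coe]
  have I1 := qI1 h2
  have I2 := qI2 (F := F)
  have I3 := qI3 (F := F)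
  have I4 := qI4 h2
  have em : n.1 * (n⁻¹ * qk F * n).1 * star n.1 = (qk F).1 := by simp [cinv, mul_assoc, ms', ms]
  have ew : (n⁻¹ * (qk F * qw h2 * (qk F)⁻¹) * n).1 = star n.1 * ((qk F).1 * (qw h2).1 * star (qk F).1) * n.1 := rfl
  rw [ew]
  generalize (n⁻¹ * qk F * n).1 = m at em
  generalize (qi F).1 = i at *
  generalize (qj F).1 = j at *
  generalize (qk F).1 = k at *
  generalize (qw h2).1 = w at *
  simp only [mul_one, mul_zero, add_zero, zero_add]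
  congr 1 <;> refine two_cancel h2 (two_cancel h2 ?_)
  · linear_combination (norm := noncomm_ring) -(ha * (2 * a') + (1 + i) * ha' + hb * m * (2 * c') +
      (1 - i) * n.1 * m * hc' + (1 - i) * em * (1 - j) + I1)
  · linear_combination (norm := noncomm_ring) -(ha * (2 * b') + (1 + i) * hb' + hb * m * (2 * d') +
      (1 - i) * n.1 * m * hd' + (1 - i) * em * (1 + j) * n.1 + I2 * n.1)
  · linear_combination (norm := noncomm_ring) -(hc * (2 * a') + star n.1 * (1 - i) * ha' + hd * m * (2 * c') +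
      star n.1 * (1 + i) * n.1 * m * hc' + star n.1 * (1 + i) * em * (1 - j) + star n.1 * I3)
  · linear_combination (norm := noncomm_ring) -(hc * (2 * b') + star n.1 * (1 - i) * hb' + hd * m * (2 * d') +
      star n.1 * (1 + i) * n.1 * m * hd' + star n.1 * (1 + i) * em * (1 + j) * n.1 + star n.1 * I4 * n.1)

/-- The subgroup contains the diagonal element produced by a fused swap. -/
def Sw (h2 : (2 : F) ≠ 0) (Q : Subgroup (unitary ℍ[F])) (K : Subgroup (unitary (Matrix ι ι ℍ[F]))) : Prop :=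
  ∃ (p q : ι) (h : p ≠ q), ∃ n ∈ Subgroup.normalizer (Q : Set (unitary ℍ[F])),
    bd h (qw h2, n⁻¹ * (qk F * qw h2 * (qk F)⁻¹) * n) ∈ K

theorem no_fusion {h2 : (2 : F) ≠ 0} (h : p ≠ q) (hQ : H18.SylIn 2 Q ⊤) (hi : qi F ∈ Q) (hj : qj F ∈ Q)
    (hk' : qk F ∈ Q) (c : Cx (fr h2) {p, q} K) (hK : ∀ k ∈ ({p, q} : Finset ι), ∀ y ∈ Q, ee k y ∈ K) (hS : ¬ Sw h2 Q K)
    {w : unitary (Matrix ι ι ℍ[F])} (hw : w ∈ K) {k : ι} (hk : k ∈ ({p, q} : Finset ι))
    (e : w * ((fr h2).pt k).z * w⁻¹ ∈ (fr h2).M) : w ∈ (fr h2).M := by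
  have hz := z_conj ((fr h2).pt k).z_coe w
  have hρ := ((fr h2).pt k).conj w
  rcases (fr h2).inv h2 hρ hz e with ⟨l, hl⟩ | ⟨i, j, ij, hl, -⟩
  · exact c.b hk hw hl
  exfalso
  have sK : w * ((fr h2).pt k).z * w⁻¹ ∈ K := K.mul_mem (K.mul_mem hw (c.z_mem hk)) (K.inv_mem hw)
  have ss := z_sq hρ.idem hz
  obtain ⟨s, hs⟩ : ∃ s, s = w * ((fr h2).pt k).z * w⁻¹ := ⟨_, rfl⟩
  rw [← hs] at hl sK ss
  have si := inv_eq_of_mul_eq_one_left ss
  have i1 : i ∈ ({p, q} : Finset ι) := by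
    by_contra k
    exact ij ((fr h2).inj (((fr h2).fix (c.le sK) k).symm.trans hl))
  have j1 := c.mem i1 sK hl
  have e1 : cj s (pi F p) = pi F q := by
    simp only [Finset.mem_insert, Finset.mem_singleton] at i1 j1
    rcases i1 with rfl | rfl <;> rcases j1 with rfl | rfl
    · exact absurd rfl ij
    · exact hl
    · rw [← hl, ← cj_mul, ss, cj_one]
    · exact absurd rfl ij
  have e2 := cj_eq_iff.1 e1
  have bs := LL_blk h (c.le sK)
  have a0 : s.1 p p = 0 := by simpa [pi, h] using congrFun (congrFun e2 p) p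
  have d0 : s.1 q q = 0 := by simpa [pi, h.symm] using (congrFun (congrFun e2 q) q).symm
  have c0 : s.1 q p = star (s.1 p q) := (congrFun (congrFun (congrArg Subtype.val si) q) p).symm
  rw [a0, d0, c0] at bs
  generalize s.1 p q = b at bs
  have e3 := congrArg Subtype.val ss
  rw [Submonoid.coe_mul, bs, blk_mul h, OneMemClass.coe_one, ← blk_one (p := p) (q := q)] at e3
  obtain ⟨u1, -, -, u2⟩ := blk_inj h e3
  obtain ⟨u, rfl⟩ : ∃ u : unitary ℍ[F], u.1 = b := ⟨⟨b, by simpa using u2, by simpa using u1⟩, rfl⟩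
  obtain ⟨g, hg, k1⟩ := (hQ.mono (hK q (by simp) : Q ≤ K.comap (ee q)) le_top).exists_conj_mem
    (P := Q.map (MulAut.conj u⁻¹).toMonoidHom) (by
      rintro _ ⟨y, hy, rfl⟩
      have : s * ee p y * s⁻¹ = ee q (u⁻¹ * y * u⁻¹⁻¹) := Subtype.ext (by
        rw [si, Submonoid.coe_mul, Submonoid.coe_mul, bs, ee_p (q := q), ee_q (p := p), blk_mul h, blk_mul h]
        simp [cinv, ms])
      exact Subgroup.mem_comap.2 (this ▸ K.mul_mem (K.mul_mem sK (hK p (by simp) y hy)) (K.inv_mem sK))) (hQ.isP.map _)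
  have hn : (u * g⁻¹)⁻¹ ∈ Subgroup.normalizer (Q : Set (unitary ℍ[F])) := H18.mem_normalizer_of_conj_mem fun y hy => by
    simpa [mul_assoc] using k1 _ ⟨y, hy, rfl⟩
  refine hS ⟨p, q, h, u * g⁻¹, by simpa using inv_mem hn, swap_core h2 h hQ hi hj hk' c.le hK (K.mul_mem hg hw) hk hn ?_⟩
  rw [show ee q g * w * ((fr h2).pt k).z * (ee q g * w)⁻¹ = bd h (1, g) * s * (bd h (1, g))⁻¹ by
    rw [hs, bd_apply, map_one]; group, cj_blk h _ _ bs]
  simp [cinv]

theorem isPGroup_prod {G : Type*} [Group G] {r : ℕ} {Q : Subgroup G} (h : IsPGroup r Q) : IsPGroup r (Q.prod Q) := by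
  rintro ⟨⟨x, y⟩, hx, hy⟩
  obtain ⟨m, hm⟩ := h ⟨x, hx⟩
  obtain ⟨n, hn⟩ := h ⟨y, hy⟩
  refine ⟨m + n, Subtype.ext (Prod.ext ?_ ?_)⟩
  · show x ^ r ^ (m + n) = 1
    rw [pow_add, pow_mul, show x ^ r ^ m = 1 from congrArg Subtype.val hm, one_pow]
  · show y ^ r ^ (m + n) = 1
    rw [pow_add, mul_comm, pow_mul, show y ^ r ^ n = 1 from congrArg Subtype.val hn, one_pow]

set_option maxHeartbeats 800000 in
theorem two_blocks {h2 : (2 : F) ≠ 0} (h : p ≠ q) (hQ : H18.SylIn 2 Q ⊤) (hi : qi F ∈ Q) (hj : qj F ∈ Q)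
    (hk' : qk F ∈ Q) (c : Cx (fr h2) {p, q} K) (hK : ∀ k ∈ ({p, q} : Finset ι), ∀ y ∈ Q, ee k y ∈ K) (hS : ¬ Sw h2 Q K) :
    K ≤ (fr h2).M := by
  have hp : p ∈ ({p, q} : Finset ι) := by simp
  have hq : q ∈ ({p, q} : Finset ι) := by simp
  have zp := ((fr (ι := ι) h2).pt p).z_coe
  have zq := ((fr (ι := ι) h2).pt q).z_coe
  have aa := z_sq ((fr (ι := ι) h2).pt p).idem zp
  have bb := z_sq ((fr (ι := ι) h2).pt q).idem zq
  have e2 : (((fr h2).pt q).z * ((fr h2).pt p).z).1 = 1 - 2 * ∑ i ∈ {p, q}, pi F i := by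
    rw [Submonoid.coe_mul, zp, zq, Finset.sum_pair h]
    linear_combination (norm := noncomm_ring) 4 * (fr h2).orth q p h.symm
  have ne1 : ∀ k : ι, ((fr h2).pt k).z ≠ 1 := fun k e => ((fr h2).pt k).ne (two_cancel h2 (by
    have := congrArg Subtype.val e
    rw [Pt.z_coe, OneMemClass.coe_one, sub_eq_self] at this
    rw [this, mul_zero]))
  obtain ⟨z, hz⟩ : ∃ z : K, z.1 = ((fr h2).pt p).z := ⟨⟨_, c.z_mem hp⟩, rfl⟩
  obtain ⟨t, ht⟩ : ∃ t : K, t.1 = ((fr h2).pt q).z * ((fr h2).pt p).z := ⟨⟨_, K.mul_mem (c.z_mem hq) (c.z_mem hp)⟩, rfl⟩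
  have tz : (t * z).1 = ((fr h2).pt q).z := by rw [Subgroup.coe_mul, ht, hz, mul_assoc, aa, mul_one]
  have tc : t ∈ Subgroup.center K := Subgroup.mem_center_iff.2 fun g => Subtype.ext (Subtype.ext (by
    have := cj_eq_iff.1 (LL_cj_self (c.le g.2))
    rw [Subgroup.coe_mul, Subgroup.coe_mul, Submonoid.coe_mul, Submonoid.coe_mul, ht, e2]
    linear_combination (norm := noncomm_ring) -(2 * this)))
  have key : ∀ g : K, (g * z * g⁻¹ = z ∨ g * z * g⁻¹ = t * z) → g.1 ∈ (fr h2).M := fun g e => by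
    rcases e with e | e
    · exact c.b hp g.2 (cj_of_z h2 zp zp (by rw [← hz]; exact congrArg Subtype.val e))
    · exact c.b hp g.2 (cj_of_z h2 zp zq (by rw [← hz, ← tz]; exact congrArg Subtype.val e))
  rcases zl (B := ((Q.prod Q).map (bd h)).subgroupOf K) (z := z) tc
    (by
      have k := Subgroup.mem_center_iff.1 tc z
      have k2 : t * z * (t * z) = 1 := Subtype.ext (by rw [Subgroup.coe_mul, tz, bb]; rfl)
      have k3 : z * z = 1 := Subtype.ext (by rw [Subgroup.coe_mul, hz, aa]; rfl)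
      rwa [mul_assoc, ← mul_assoc z, k, mul_assoc t, k3, mul_one] at k2)
    (Subtype.ext (by rw [Subgroup.coe_mul, hz, aa]; rfl)) (fun e => ne1 p (by rw [← hz, e]; rfl))
    (fun e => ne1 q (by rw [← tz, ← e, Subgroup.coe_mul, hz, aa]))
    (H18.isPGroup_subgroupOf ((isPGroup_prod hQ.isP).map _))
    (fun g e => by
      have k0 := key _ e
      rw [Subgroup.coe_mul, Subgroup.coe_mul, Subgroup.coe_inv, hz] at k0
      have k := no_fusion h hQ hi hj hk' c hK hS g.2 hp k0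
      obtain ⟨l, hl⟩ := k p
      have k1 := z_conj zp g.1
      rw [hl] at k1
      rcases Finset.mem_insert.1 (c.mem hp g.2 hl) with rfl | e
      · exact Or.inl (Subtype.ext (Subtype.ext (by rw [hz, zp, ← k1, ← hz]; rfl)))
      · rw [Finset.mem_singleton.1 e] at k1
        exact Or.inr (Subtype.ext (Subtype.ext (by rw [tz, zq, ← k1, ← hz]; rfl)))) with k | ⟨r, hr, ro, R, hR, hB, y, hy, e⟩
  · exact fun g hg => key ⟨g, hg⟩ (k _)
  · refine absurd (Subtype.ext ?_) e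
    rw [Subgroup.coe_mul, Subgroup.coe_mul, hz, z_ee h2]
    refine nil_core h2 h hi hj hk' (R := R.map K.subtype) ((Subgroup.map_subtype_le _).trans c.le) hr ro (hR.map _) ?_
      ⟨y, hy, rfl⟩
    rintro _ ⟨⟨u, v⟩, ⟨hu, hv⟩, rfl⟩ _ ⟨x, hx, rfl⟩
    exact ⟨_, hB ⟨_, K.mul_mem (hK p hp u hu) (hK q hq v hv)⟩ ⟨(u, v), ⟨hu, hv⟩, rfl⟩ x hx, rfl⟩

theorem le_M {h2 : (2 : F) ≠ 0} (hsq : ¬ IsSquare (2 : F)) (hQ : H18.SylIn 2 Q ⊤) (hi : qi F ∈ Q) (hj : qj F ∈ Q)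
    (hk' : qk F ∈ Q) (hK : ∀ k, ∀ y ∈ Q, ee k y ∈ K) (hS : ¬ Sw h2 Q K) : K ≤ (fr h2).M := by
  have key : ∀ I : Finset ι, K ⊓ LL (∑ k ∈ I, pi F k) ≤ (fr h2).M := fun I => by
    induction I using Finset.strongInduction with
    | H I ih =>
    have hK' : ∀ k ∈ I, ∀ y ∈ Q, ee k y ∈ K ⊓ LL (∑ k ∈ I, pi F k) := fun k hk y hy =>
      ⟨hK k y hy, (fr h2).LL_le hk (ee_LL k y)⟩
    have c : Cx (fr h2) I (K ⊓ LL (∑ k ∈ I, pi F k)) := ⟨h2, inf_le_right,
      fun k hk => ⟨_, hK' k hk _ hi, ee_rt k (by ext <;> simp [qi])⟩,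
      fun I' h => (inf_le_inf_right _ inf_le_left).trans (ih I' h)⟩
    by_cases h3 : 3 ≤ I.card
    · exact c.big h3 hsq
    by_cases h2' : I.card = 2
    · obtain ⟨p, q, h, rfl⟩ := Finset.card_eq_two.1 h2'
      exact two_blocks h hQ hi hj hk' c hK' fun ⟨p, q, h, n, hn, e⟩ => hS ⟨p, q, h, n, hn, e.1⟩
    intro g hg k
    by_cases hk : k ∈ I
    · obtain rfl : I = {k} := Finset.eq_singleton_iff_unique_mem.2
        ⟨hk, fun x hx => Finset.card_le_one.1 (by omega) x hx k hk⟩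
      exact ⟨k, by simpa using LL_cj_self hg.2⟩
    · exact ⟨k, (fr h2).fix hg.2 hk⟩
  intro g hg
  exact key Finset.univ ⟨hg, by rw [(fr h2).sum]; simp [mem_LL]⟩

end Cfsg.Agent.H29.Pn
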