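import Mathlib
import Cfsg.Agent.H3.OddRank

/-! Generators of subgroups of unitriangular groups and of `p`-central groups. -/

set_option autoImplicit false
set_option linter.unusedSectionVars false
set_option linter.style.haveILetI false

namespace Cfsg.Agent.H29.Rk

open scoped commutatorElement

section tri
variable {n : ℕ} {K : Type*} [Field K]

/-- Weight of a matrix position. -/
def wt (i j : Fin n) : ℤ := 2 ^ (j : ℕ) - 2 ^ (i : ℕ)

theorem wt_pos {i j : Fin n} : 0 < wt i j ↔ i < j := by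
  rw [wt, sub_pos, pow_lt_pow_iff_right₀ (by norm_num : (1 : ℤ) < 2)]; rfl

theorem wt_inj {i j k l : Fin n} (h : i < j) (e : wt i j = wt k l) : i = k ∧ j = l := by
  have h' : k < l := wt_pos.1 (e ▸ wt_pos.2 h)
  have key : ∀ {a b c d : ℕ}, c < d → b < d → (2 : ℤ) ^ b - 2 ^ a ≠ 2 ^ d - 2 ^ c := fun {a b c d} h1 h2 e => by
    obtain ⟨d, rfl⟩ := Nat.exists_eq_succ_of_ne_zero (by omega : d ≠ 0)
    have k1 : (2 : ℤ) ^ c ≤ 2 ^ d := pow_le_pow_right₀ (by norm_num) (by omega)
    have k2 : (2 : ℤ) ^ b ≤ 2 ^ d := pow_le_pow_right₀ (by norm_num) (by omega)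
    have k3 : (0 : ℤ) < 2 ^ a := by positivity
    rw [pow_succ] at e; omega
  have jl : j = l := Fin.ext (le_antisymm (not_lt.1 fun k => key h k e.symm) (not_lt.1 fun k => key h' k e))
  subst jl
  exact ⟨Fin.ext (pow_right_injective₀ (by norm_num : (0 : ℤ) < 2) (by norm_num) (sub_right_injective e)), rfl⟩

/-- Matrices supported on positions of weight at least `t`. -/
def J (t : ℤ) (A : Matrix (Fin n) (Fin n) K) : Prop := ∀ i j, wt i j < t → A i j = 0

theorem J.mono {s t : ℤ} {A : Matrix (Fin n) (Fin n) K} (h : J t A) (e : s ≤ t) : J s A := fun i j k => h i j (by omega)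

theorem J.mul {s t : ℤ} {A B : Matrix (Fin n) (Fin n) K} (h : J s A) (h' : J t B) : J (s + t) (A * B) := fun i k e => by
  rw [Matrix.mul_apply]
  refine Finset.sum_eq_zero fun j _ => ?_
  by_cases e1 : wt i j < s
  · rw [h i j e1, zero_mul]
  · rw [h' j k (by simp only [wt] at *; omega), mul_zero]

variable {H : Type*} [Group H] (M : H →* Matrix (Fin n) (Fin n) K)

/-- Leading position. -/
def Ld (h : H) (i j : Fin n) : Prop := J (wt i j) (M h - 1) ∧ (M h - 1) i j ≠ 0

variable {M}

theorem Ld.comm (h1 : ∀ h, J 1 (M h - 1)) {x y : H} {i j k : Fin n} (hx : Ld M x i j) (hy : Ld M y j k) :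
    Ld M (x * y * (y * x)⁻¹) i k := by
  have ij : i < j := wt_pos.1 (by by_contra e; exact hx.2 (h1 x i j (by omega)))
  have jk : j < k := wt_pos.1 (by by_contra e; exact hy.2 (h1 y j k (by omega)))
  have w : wt i k = wt i j + wt j k := by simp [wt]
  have e : M (x * y * (y * x)⁻¹) - 1 = ((M x - 1) * (M y - 1) - (M y - 1) * (M x - 1)) +
      ((M x - 1) * (M y - 1) - (M y - 1) * (M x - 1)) * (M (y * x)⁻¹ - 1) := by
    have : M y * M x * M (y * x)⁻¹ = 1 := by rw [← map_mul, ← map_mul, mul_inv_cancel, map_one]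
    rw [map_mul, map_mul]
    linear_combination (norm := noncomm_ring) this
  have j1 : J (wt i k) ((M x - 1) * (M y - 1) - (M y - 1) * (M x - 1)) := fun a b h => by
    rw [Matrix.sub_apply, hx.1.mul hy.1 a b (by omega), hy.1.mul hx.1 a b (by omega), sub_zero]
  have j2 := j1.mul (h1 (y * x)⁻¹)
  refine ⟨fun a b h => by rw [e, Matrix.add_apply, j1 a b h, j2 a b (by omega), add_zero], ?_⟩
  rw [e, Matrix.add_apply, j2 i k (by omega), add_zero, Matrix.sub_apply, Matrix.mul_apply, Matrix.mul_apply,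
    Finset.sum_eq_single j (fun l _ hl => ?_) (by simp), Finset.sum_eq_zero (fun l _ => ?_), sub_zero]
  · exact mul_ne_zero hx.2 hy.2
  · by_cases e1 : wt i l < wt j k
    · rw [hy.1 i l e1, zero_mul]
    by_cases e2 : wt l k < wt i j
    · rw [hx.1 l k e2, mul_zero]
    exact absurd (wt_inj jk (show wt j k = wt i l by simp only [wt] at *; omega)).1 ij.ne'
  · by_cases e1 : wt i l < wt i j
    · rw [hx.1 i l e1, zero_mul]
    by_cases e2 : wt l k < wt j k
    · rw [hy.1 l k e2, mul_zero]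
    exact absurd (wt_inj ij (show wt i j = wt i l by simp only [wt] at *; omega)).2 (Ne.symm hl)

theorem J_mul {t : ℤ} (ht : 1 ≤ t) {x y : H} (hx : J t (M x - 1)) (hy : J t (M y - 1)) :
    J t (M (x * y) - 1) ∧ ∀ i j, wt i j = t → (M (x * y) - 1) i j = (M x - 1) i j + (M y - 1) i j := by
  have e : M (x * y) - 1 = (M x - 1) + (M y - 1) + (M x - 1) * (M y - 1) := by rw [map_mul]; noncomm_ring
  have j := hx.mul hy
  exact ⟨fun i k h => by rw [e, Matrix.add_apply, Matrix.add_apply, hx i k h, hy i k h, j i k (by omega)]; simp,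
    fun i k h => by rw [e, Matrix.add_apply, Matrix.add_apply, j i k (by omega), add_zero]⟩

theorem J_pow {t : ℤ} (ht : 1 ≤ t) {x : H} (hx : J t (M x - 1)) (m : ℕ) :
    J t (M (x ^ m) - 1) ∧ ∀ i j, wt i j = t → (M (x ^ m) - 1) i j = m * (M x - 1) i j := by
  induction m with
  | zero => simp [J]
  | succ m ih =>
    rw [pow_succ]
    exact ⟨(J_mul ht ih.1 hx).1, fun i j h => by rw [(J_mul ht ih.1 hx).2 i j h, ih.2 i j h]; push_cast; ring⟩

theorem mantel (T : Finset (Fin n × Fin n)) (h1 : ∀ s ∈ T, s.1 < s.2)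
    (h2 : ∀ i j k, (i, j) ∈ T → (j, k) ∈ T → (i, k) ∉ T) : T.card ≤ n ^ 2 / 4 := by
  classical
  let Γ : SimpleGraph (Fin n) := ⟨fun i j => (i, j) ∈ T ∨ (j, i) ∈ T, ⟨fun _ _ => Or.symm⟩,
    ⟨fun i h => (h1 _ (h.elim id id)).false⟩⟩
  have cf : Γ.CliqueFree (2 + 1) := by
    intro s hs
    obtain ⟨a, b, c, ab, ac, bc, -⟩ := SimpleGraph.is3Clique_iff.1 hs
    rcases ab with ab | ab <;> rcases ac with ac | ac <;> rcases bc with bc | bc
    · exact h2 _ _ _ ab bc ac
    · exact h2 _ _ _ ac bc ab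
    · exact ((h1 _ ab).trans ((h1 _ bc).trans (h1 _ ac))).false
    · exact h2 _ _ _ ac ab bc
    · exact h2 _ _ _ ab ac bc
    · exact ((h1 _ ab).trans ((h1 _ ac).trans (h1 _ bc))).false
    · exact h2 _ _ _ bc ac ab
    · exact h2 _ _ _ bc ab ac
  have k := cf.card_edgeFinset_le
  have k2 : T.card ≤ Γ.edgeFinset.card := Finset.card_le_card_of_injOn (fun s => s(s.1, s.2))
    (fun s hs => by simpa using Or.inl hs) fun s hs s' hs' e => by
      rcases Sym2.eq_iff.1 e with e | e
      · exact Prod.ext e.1 e.2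
      · exact absurd ((h1 s hs).trans_eq e.2) (not_lt.2 (e.1 ▸ (h1 s' hs').le))
  simp only [Fintype.card_fin] at k
  have k3 : (n % 2).choose 2 = 0 := Nat.choose_eq_zero_of_lt (Nat.mod_lt _ two_pos)
  rw [k3] at k
  exact k2.trans (k.trans (by simpa using Nat.div_le_div_right (Nat.sub_le _ _)))

theorem gen_tri {p : ℕ} [Fact p.Prime] (M : H →* Matrix (Fin n) (Fin n) (ZMod p)) (h1 : ∀ h, J 1 (M h - 1)) :
    ∃ S : Finset H, S.card ≤ n ^ 2 / 4 ∧ Subgroup.closure (S : Set H) ⊔ M.toHomUnits.ker = ⊤ := by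
  classical
  have lt : ∀ {h i j}, Ld M h i j → i < j := fun {h i j} e =>
    wt_pos.1 (by by_contra k; exact e.2 (h1 h i j (by omega)))
  obtain ⟨T, hT⟩ : ∃ T : Finset (Fin n × Fin n), ∀ s, s ∈ T ↔ (∃ h, Ld M h s.1 s.2) ∧
      ¬ ∃ l, (∃ h, Ld M h s.1 l) ∧ ∃ h, Ld M h l s.2 :=
    ⟨Finset.univ.filter fun s => (∃ h, Ld M h s.1 s.2) ∧ ¬ ∃ l, (∃ h, Ld M h s.1 l) ∧ ∃ h, Ld M h l s.2,
      fun s => by rw [Finset.mem_filter]; exact and_iff_right (Finset.mem_univ s)⟩
  choose! x hx using fun s (hs : s ∈ T) => ((hT s).1 hs).1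
  refine ⟨T.image x, Finset.card_image_le.trans (mantel T (fun s hs => lt (hx s hs)) fun i j k a b c =>
    ((hT _).1 c).2 ⟨j, ((hT _).1 a).1, ((hT _).1 b).1⟩), ?_⟩
  have A : ∀ (d : ℕ) (i j : Fin n), (j : ℕ) - i = d → (∃ h, Ld M h i j) →
      ∃ h ∈ Subgroup.closure (T.image x : Set H), Ld M h i j := fun d => by
    induction d using Nat.strong_induction_on with
    | _ d ih =>
    intro i j e h
    by_cases k : (i, j) ∈ T
    · exact ⟨_, Subgroup.subset_closure (by simpa using ⟨i, j, k, rfl⟩), hx _ k⟩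
    obtain ⟨l, a, b⟩ : ∃ l, (∃ h, Ld M h i l) ∧ ∃ h, Ld M h l j := by_contra fun c => k ((hT _).2 ⟨h, c⟩)
    have a1 : (i : ℕ) < l := lt a.choose_spec
    have b1 : (l : ℕ) < j := lt b.choose_spec
    obtain ⟨u, hu, a⟩ := ih _ (by omega) i l rfl a
    obtain ⟨v, hv, b⟩ := ih _ (by omega) l j rfl b
    exact ⟨_, mul_mem (mul_mem hu hv) (inv_mem (mul_mem hv hu)), a.comm h1 b⟩
  have B : ∀ d : ℕ, 1 ≤ (2 : ℤ) ^ n - d → ∀ h, J (2 ^ n - d) (M h - 1) →
      h ∈ Subgroup.closure (T.image x : Set H) ⊔ M.toHomUnits.ker := fun d => by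
    induction d with
    | zero =>
      refine fun _ h e => Subgroup.mem_sup_right (Units.ext (sub_eq_zero.1 (Matrix.ext fun i j => e i j ?_)))
      have k1 : (2 : ℤ) ^ (j : ℕ) < 2 ^ n := pow_lt_pow_right₀ (by norm_num) j.2
      have k2 : (0 : ℤ) < 2 ^ (i : ℕ) := by positivity
      simp only [wt]; omega
    | succ d ih =>
      intro ht h e
      by_cases k : ∃ i j, wt i j = 2 ^ n - (d + 1 : ℕ) ∧ (M h - 1) i j ≠ 0
      · obtain ⟨i, j, w, k⟩ := k
        obtain ⟨u, hu, a⟩ := A _ i j rfl ⟨h, w ▸ e, k⟩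
        obtain ⟨m, hm⟩ := ZMod.natCast_zmod_surjective (-(M h - 1) i j / (M u - 1) i j)
        have p1 := J_pow ht (w ▸ a.1) m
        have p2 := J_mul ht e p1.1
        refine (Subgroup.mul_mem_cancel_right _ (Subgroup.mem_sup_left (pow_mem hu m))).1
          (ih (by push_cast at ht; omega) _ fun i' j' w' => ?_)
        by_cases e1 : wt i' j' = 2 ^ n - (d + 1 : ℕ)
        · obtain ⟨rfl, rfl⟩ := wt_inj (lt a) (w.trans e1.symm)
          rw [p2.2 i j w, p1.2 i j w, hm, div_mul_cancel₀ _ a.2, add_neg_cancel]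
        · exact p2.1 i' j' (by push_cast at e1 ⊢; omega)
      · push Not at k
        refine ih (by push_cast at ht; omega) h fun i j w => ?_
        by_cases e1 : wt i j = 2 ^ n - (d + 1 : ℕ)
        · exact k i j e1
        · exact e i j (by push_cast at e1 ⊢; omega)
  refine eq_top_iff.2 fun h _ => B (2 ^ n - 1) ?_ h ?_
  · rw [Nat.cast_sub Nat.one_le_two_pow]; push_cast; omega
  · rw [Nat.cast_sub Nat.one_le_two_pow]; push_cast
    simpa using h1 h

theorem exists_tri {p : ℕ} [hp : Fact p.Prime] (hH : IsPGroup p H) {V : Type*} [AddCommGroup V] [Module (ZMod p) V] [Finite V]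
    (ρ : H →* Module.End (ZMod p) V) : ∃ b : Module.Basis (Fin (Module.finrank (ZMod p) V)) (ZMod p) V,
      ∀ h, J 1 (LinearMap.toMatrix b b (ρ h) - 1) := by
  have key : ∀ m ≤ Module.finrank (ZMod p) V, ∃ v : Fin m → V, LinearIndependent (ZMod p) v ∧
      ∀ h j, ρ h (v j) - v j ∈ Submodule.span (ZMod p) (v '' {i | i < j}) := fun m => by
    induction m with
    | zero => exact fun _ => ⟨Fin.elim0, linearIndependent_empty_type, fun _ j => j.elim0⟩
    | succ m ih =>
      intro hm
      obtain ⟨v, h1, h2⟩ := ih (by omega)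
      obtain ⟨W, hW⟩ : ∃ W, W = Submodule.span (ZMod p) (Set.range v) := ⟨_, rfl⟩
      have inv : ∀ h, W ≤ W.comap (ρ h) := fun h => by
        conv_lhs => rw [hW]
        refine Submodule.span_le.2 ?_
        rintro _ ⟨j, rfl⟩
        have := W.add_mem (hW ▸ Submodule.span_mono (Set.image_subset_range _ _) (h2 h j))
          (hW ▸ Submodule.subset_span ⟨j, rfl⟩ : v j ∈ W)
        simpa using this
      letI : MulAction H (V ⧸ W) :=
        { smul := fun h => W.mapQ W (ρ h) (inv h)
          one_smul := fun x => by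
            obtain ⟨x, rfl⟩ := W.mkQ_surjective x
            show W.mapQ W (ρ 1) (inv 1) _ = _
            simp
          mul_smul := fun a b x => by
            obtain ⟨x, rfl⟩ := W.mkQ_surjective x
            show W.mapQ W (ρ (a * b)) (inv _) _ = W.mapQ W (ρ a) (inv a) (W.mapQ W (ρ b) (inv b) _)
            simp }
      haveI : Finite (V ⧸ W) := Finite.of_surjective _ W.mkQ_surjective
      obtain ⟨y, hy, y0⟩ := hH.exists_fixed_point_of_prime_dvd_card_of_fixed_point (V ⧸ W) (a := 0) (by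
        rw [Module.natCard_eq_pow_finrank (K := ZMod p), Nat.card_zmod]
        refine dvd_pow_self _ ?_
        have := W.finrank_quotient_add_finrank
        rw [hW, finrank_span_eq_card h1, Fintype.card_fin, ← hW] at this
        omega) fun h => map_zero (W.mapQ W (ρ h) (inv h))
      obtain ⟨x, rfl⟩ := W.mkQ_surjective y
      refine ⟨Fin.snoc v x, linearIndependent_finSnoc.2 ⟨h1, fun k => y0 ((Submodule.Quotient.mk_eq_zero W).2 (hW ▸ k)).symm⟩,
        fun h j => ?_⟩
      refine Fin.lastCases ?_ (fun j => ?_) j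
      · have : ρ h x - x ∈ W := (Submodule.Quotient.eq W).1 (hy h)
        rw [Fin.snoc_last]
        refine Submodule.span_mono ?_ (hW ▸ this)
        rintro _ ⟨i, rfl⟩
        exact ⟨i.castSucc, Fin.castSucc_lt_last i, Fin.snoc_castSucc ..⟩
      · rw [Fin.snoc_castSucc]
        refine Submodule.span_mono ?_ (h2 h j)
        rintro _ ⟨i, hi, rfl⟩
        exact ⟨i.castSucc, Fin.castSucc_lt_castSucc_iff.2 hi, Fin.snoc_castSucc ..⟩
  obtain ⟨v, h1, h2⟩ := key _ le_rfl
  obtain ⟨b, hb⟩ : ∃ b : Module.Basis (Fin (Module.finrank (ZMod p) V)) (ZMod p) V, ⇑b = v :=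
    ⟨Module.Basis.mk h1 (Submodule.eq_top_of_finrank_eq (by rw [finrank_span_eq_card h1, Fintype.card_fin])).ge,
      Module.Basis.coe_mk ..⟩
  subst hb
  refine ⟨b, fun h i j w => ?_⟩
  have := b.mem_span_image.1 (h2 h j)
  have k : b.repr (ρ h (b j) - b j) i = 0 := by
    by_contra k
    have := wt_pos.2 (this (Finsupp.mem_support_iff.2 k))
    omega
  rw [← k, Matrix.sub_apply, LinearMap.toMatrix_apply, map_sub, Finsupp.sub_apply, b.repr_self, Finsupp.single_apply,
    Matrix.one_apply]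
  simp [eq_comm]

end tri

theorem gen_mod {p : ℕ} [hp : Fact p.Prime] {H V : Type*} [Group H] [AddCommGroup V] [Module (ZMod p) V] [Finite V]
    (hH : IsPGroup p H) (φ : H → V →+ V) (h1 : ∀ x, φ 1 x = x) (h2 : ∀ a b x, φ (a * b) x = φ a (φ b x))
    {ι : Type*} [Fintype ι] (v : ι → V) (hv : ∀ W : AddSubgroup V, (∀ i, v i ∈ W) → ∀ x, x ∈ W) (k : ℕ)
    (hι : Fintype.card ι ≤ k) : Nat.card V ≤ p ^ k ∧ ∃ S : Finset H, S.card ≤ k ^ 2 / 4 ∧
      ∀ K : Subgroup H, (∀ h, (∀ x, φ h x = x) → h ∈ K) → Subgroup.closure (S : Set H) ⊔ K = ⊤ := by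
  have hk : Module.finrank (ZMod p) V ≤ k :=
    (finrank_le_of_span_eq_top (v := v) (eq_top_iff.2 fun x _ =>
      hv (Submodule.span (ZMod p) (Set.range v)).toAddSubgroup (fun i => Submodule.subset_span ⟨i, rfl⟩) x)).trans hι
  let ρ : H →* Module.End (ZMod p) V :=
    { toFun := fun h => (φ h).toZModLinearMap p
      map_one' := LinearMap.ext h1
      map_mul' := fun a b => LinearMap.ext (h2 a b) }
  obtain ⟨b, hb⟩ := exists_tri hH ρ
  obtain ⟨S, a1, a2⟩ := gen_tri ((LinearMap.toMatrixAlgEquiv b).toMonoidHom.comp ρ) hb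
  refine ⟨?_, S, a1.trans (Nat.div_le_div_right (Nat.pow_le_pow_left hk 2)), fun K hK => eq_top_iff.2 (a2.ge.trans
    (sup_le_sup_left (fun h hh => hK h ?_) _))⟩
  · rw [Module.natCard_eq_pow_finrank (K := ZMod p), Nat.card_zmod]
    exact Nat.pow_le_pow_right hp.out.pos hk
  · have k1 : ρ h = 1 := (LinearMap.toMatrixAlgEquiv b).injective ((congrArg Units.val hh).trans (map_one _).symm)
    exact LinearMap.congr_fun k1

theorem gen_aut {p : ℕ} [hp : Fact p.Prime] {H E : Type*} [Group H] [CommGroup E] [Finite E] (hH : IsPGroup p H)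
    (hE : ∀ x : E, x ^ p = 1) (φ : H →* MulAut E) {ι : Type*} [Fintype ι] (v : ι → E)
    (hv : ∀ W : Subgroup E, (∀ i, v i ∈ W) → ∀ x, x ∈ W) (k : ℕ) (hι : Fintype.card ι ≤ k) :
    Nat.card E ≤ p ^ k ∧ ∃ S : Finset H, S.card ≤ k ^ 2 / 4 ∧ Subgroup.closure (S : Set H) ⊔ φ.ker = ⊤ := by
  obtain ⟨a, S, b, c⟩ := @gen_mod p _ H (Additive E) _ _
    (AddCommGroup.zmodModule fun x => congrArg Additive.ofMul (hE x.toMul)) _ hH
    (fun h => MonoidHom.toAdditive (φ h).toMonoidHom) (fun x => by simp) (fun a b x => by simp) ι _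
    (fun i => Additive.ofMul (v i)) (fun W h x => hv W.toSubgroup' h x.toMul) k hι
  exact ⟨a, S, b, c _ fun h e => MulEquiv.ext fun x => e (Additive.ofMul x)⟩

theorem card_lt {G : Type*} [Group G] [Finite G] {A B : Subgroup G} (h : A < B) : Nat.card A < Nat.card B :=
  lt_of_le_of_ne (Subgroup.card_le_of_le h.le) fun e => h.ne (Subgroup.eq_of_le_of_card_ge h.le e.ge)

universe u in
theorem gen_central {p : ℕ} [hp : Fact p.Prime] (h2 : p ≠ 2) (N : ℕ) : ∀ (G : Type u) [Group G] [Finite G],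
    Nat.card G = N → IsPGroup p G → ∀ (A : Subgroup G), A ≤ Subgroup.center G → (∀ x, x ∈ A ↔ x ^ p = 1) →
    ∀ r, Nat.card A ≤ p ^ r → ∃ S : Finset G, S.card ≤ r ∧ Subgroup.closure (S : Set G) = ⊤ := by
  induction N using Nat.strong_induction_on with
  | _ N ih =>
  intro G _ _ hN hG A hA hx r hr
  classical
  by_cases h0 : A = ⊥
  · refine ⟨∅, by simp, eq_top_iff.2 fun g _ => ?_⟩
    obtain ⟨k, hk⟩ := hG g
    induction k generalizing g with
    | zero => rw [pow_zero, pow_one] at hk; exact hk ▸ one_mem _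
    | succ k ih =>
      refine ih g trivial ?_
      rw [pow_succ, pow_mul, ← hx, h0] at hk; exact hk
  haveI : A.Normal := ⟨fun a ha g => by rwa [Subgroup.mem_center_iff.1 (hA ha) g, mul_inv_cancel_right]⟩
  by_cases h1 : A ≤ frattini G
  · obtain ⟨m, hm⟩ := hp.out.odd_of_ne_two h2
    have pw : ∀ x y : G, ⁅y, x⁆ ∈ A → (x * y) ^ p = x ^ p * y ^ p := fun x y h => by
      have k : ∀ n : ℕ, (x * y) ^ n = x ^ n * y ^ n * ⁅y, x⁆ ^ n.choose 2 := fun n => by
        have c := fun g => (Subgroup.mem_center_iff.1 (hA h) g)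
        have e0 : y * x = x * y * ⁅y, x⁆ := by rw [c, commutatorElement_def]; group
        have hz := hA h
        generalize ⁅y, x⁆ = z at c e0 hz ⊢
        have cp : ∀ (n : ℕ) g, g * z ^ n = z ^ n * g := fun n => Subgroup.mem_center_iff.1 (pow_mem hz n)
        have k1 : ∀ n : ℕ, y ^ n * x = x * y ^ n * z ^ n := fun n => by
          induction n with
          | zero => simp
          | succ n ih =>
            calc _ = y * (y ^ n * x) := by rw [pow_succ', mul_assoc]
              _ = (y * x) * y ^ n * z ^ n := by rw [ih]; simp only [mul_assoc]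
              _ = x * y * (z * y ^ n) * z ^ n := by rw [e0]; simp only [mul_assoc]
              _ = _ := by rw [← c, pow_succ', pow_succ']; simp only [mul_assoc]
        induction n with
        | zero => simp
        | succ n ih =>
          have e1 : (n + 1).choose 2 = n + n.choose 2 := by rw [Nat.choose_succ_succ' n 1, Nat.choose_one_right]
          rw [pow_succ, ih, mul_assoc, ← cp, e1]
          calc _ = x ^ n * (y ^ n * x) * y * z ^ n.choose 2 := by simp only [mul_assoc]
            _ = x ^ n * x * y ^ n * (z ^ n * y) * z ^ n.choose 2 := by rw [k1]; simp only [mul_assoc]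
            _ = _ := by rw [← cp, pow_succ x, pow_succ y, pow_add z]; simp only [mul_assoc]
      have : p.choose 2 = p * m := by
        rw [Nat.choose_two_right, hm, Nat.add_sub_cancel, Nat.mul_div_assoc _ (Dvd.intro _ rfl)]; simp
      rw [k, this, pow_mul, (hx _).1 h, one_pow, mul_one]
    have cm : ∀ x : G, x ^ p ∈ A → ∀ y, ⁅y, x⁆ ∈ A := fun x hxp y => by
      haveI := hG.isNilpotent
      obtain ⟨n, hn⟩ := Group.IsNilpotent.nilpotent G
      have k : ∀ n, ∀ y ∈ Subgroup.upperCentralSeries G n, ⁅y, x⁆ ∈ A := fun n => by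
        induction n with
        | zero => intro y hy; rw [Subgroup.mem_bot.1 hy]; simp
        | succ n ih =>
          intro y hy
          have d := ih _ (Subgroup.mem_upperCentralSeries_succ_iff.1 hy x)
          have e := pw x (x⁻¹ * ⁅y, x⁆ * x) (by
            have := ‹A.Normal›.conj_mem _ d x⁻¹
            convert this using 1
            simp only [commutatorElement_def]; group)
          rw [show x * (x⁻¹ * ⁅y, x⁆ * x) = y * x * y⁻¹ by simp only [commutatorElement_def]; group, conj_pow,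
            Subgroup.mem_center_iff.1 (hA hxp) y, mul_inv_cancel_right, left_eq_mul,
            show x⁻¹ * ⁅y, x⁆ * x = x⁻¹ * ⁅y, x⁆ * x⁻¹⁻¹ by group, conj_pow] at e
          exact (hx _).2 (conj_eq_one_iff.1 e)
      exact k n y (hn ▸ Subgroup.mem_top y)
    have q1 : ∀ x : G, (x : G ⧸ A) ^ p = 1 ↔ x ^ p ∈ A := fun x => by
      rw [← QuotientGroup.mk_pow, QuotientGroup.eq_one_iff]
    have cz : ∀ x : G ⧸ A, x ^ p = 1 → x ∈ Subgroup.center (G ⧸ A) := fun x h => by
      obtain ⟨x, rfl⟩ := QuotientGroup.mk_surjective x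
      refine Subgroup.mem_center_iff.2 fun y => ?_
      obtain ⟨y, rfl⟩ := QuotientGroup.mk_surjective y
      exact commutatorElement_eq_one_iff_mul_comm.1 ((QuotientGroup.eq_one_iff _).2 (cm x ((q1 x).1 h) y))
    let A' : Subgroup (G ⧸ A) :=
      { carrier := {x | x ^ p = 1}
        one_mem' := one_pow p
        mul_mem' := fun {a b} ha hb => by
          show (a * b) ^ p = 1
          rw [Commute.mul_pow (Subgroup.mem_center_iff.1 (cz b hb) a), ha, hb, one_mul]
        inv_mem' := fun {a} ha => by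
          show a⁻¹ ^ p = 1
          rw [inv_pow, ha, inv_one] }
    obtain ⟨S, s1, s2⟩ := ih _ (by
      rw [← hN, Subgroup.card_eq_card_quotient_mul_card_subgroup A]
      exact lt_mul_of_one_lt_right Nat.card_pos ((Subgroup.one_lt_card_iff_ne_bot A).2 h0)) (G ⧸ A) rfl (hG.to_quotient A) A' cz
      (fun _ => Iff.rfl) r (le_trans (Nat.card_le_card_of_injective
        (fun x : A' => (⟨x.1.out ^ p, (q1 _).1 (by rw [QuotientGroup.out_eq']; exact x.2)⟩ : A)) fun x y e => by
          have e' : x.1.out ^ p = y.1.out ^ p := congrArg Subtype.val e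
          have hxp : x.1.out ^ p ∈ A := (q1 _).1 (by rw [QuotientGroup.out_eq']; exact x.2)
          refine Subtype.ext ?_
          rw [← QuotientGroup.out_eq' x.1, ← QuotientGroup.out_eq' y.1, QuotientGroup.eq, hx,
            pw _ _ (cm _ (by rw [inv_pow]; exact inv_mem hxp) _), inv_pow, e', inv_mul_cancel]) hr)
    refine ⟨S.image Quotient.out, Finset.card_image_le.trans s1, frattini_nongenerating (eq_top_iff.2 ?_)⟩
    refine le_trans ?_ (sup_le_sup_left h1 _)
    have e : (Subgroup.closure (S.image Quotient.out : Finset G) : Subgroup G).map (QuotientGroup.mk' A) = ⊤ := by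
      rw [MonoidHom.map_closure, Finset.coe_image, Set.image_image]
      simp [s2]
    have e2 := Subgroup.comap_map_eq (QuotientGroup.mk' A) (Subgroup.closure (S.image Quotient.out : Finset G))
    rw [e, Subgroup.comap_top, QuotientGroup.ker_mk'] at e2
    exact e2.le
  · obtain ⟨M, hM, hAM⟩ : ∃ M : Subgroup G, IsCoatom M ∧ ¬ A ≤ M := by
      by_contra! k
      exact h1 (le_iInf₂ k)
    obtain ⟨a, ha, aM⟩ := SetLike.not_le_iff_exists.1 hAM
    have lt : Nat.card (A.subgroupOf M) < Nat.card A := by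
      rw [← Subgroup.inf_subgroupOf_right, Nat.card_congr (Subgroup.subgroupOfEquivOfLe inf_le_right).toEquiv]
      exact card_lt (lt_of_le_of_ne inf_le_left fun e => hAM (inf_eq_left.1 e))
    obtain ⟨r, rfl⟩ : ∃ r', r = r' + 1 := Nat.exists_eq_succ_of_ne_zero (by
      rintro rfl
      have : 0 < Nat.card (A.subgroupOf M) := Nat.card_pos
      rw [pow_zero] at hr; omega)
    obtain ⟨S, s1, s2⟩ := ih _ (by rw [← hN, ← Subgroup.card_top (G := G)]; exact card_lt hM.1.lt_top) M rfl
      (hG.to_subgroup M) (A.subgroupOf M)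
      (fun x h => Subgroup.mem_center_iff.2 fun y => Subtype.ext (Subgroup.mem_center_iff.1 (hA h) y))
      (fun x => by rw [Subgroup.mem_subgroupOf, hx, Subtype.ext_iff]; simp) r
      (H3.card_le_pow_of_lt ((hG.to_subgroup M).to_subgroup _) (lt.trans_le hr))
    refine ⟨insert a (S.image Subtype.val), (Finset.card_insert_le _ _).trans (Nat.succ_le_succ (Finset.card_image_le.trans s1)),
      hM.2 _ (lt_of_le_of_ne ?_ fun e => aM (e ▸ Subgroup.subset_closure (by simp)))⟩
    conv_lhs => rw [← Subgroup.range_subtype M, MonoidHom.range_eq_map, ← s2, MonoidHom.map_closure]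
    exact Subgroup.closure_mono fun x hx => by simpa using Or.inr hx

end Cfsg.Agent.H29.Rk
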