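import Cfsg.Agent.H29.SeB3ba

/-! The normal subgroup of index `4` (case `A₅ × A₅`), part 2. -/

set_option autoImplicit false
set_option linter.unusedSectionVars false
set_option linter.unusedVariables false

namespace Cfsg.Agent.L1Se

open Subgroup Equiv

universe u

namespace b3h

variable {G : Type u} [Group G] [Finite G] {ε : W →* G} {σ : G}

def sub (h : SA ε σ eB) (hk : KK ε σ) (χ : B → Bool) (h0 : χ o = false)
    (hm : ∀ x y, χ x = false → χ y = false → χ (m x y) = false) : Subgroup G where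
  carrier := {g | ∃ x, χ x = false ∧ g = ρ ε σ x}
  one_mem' := ⟨o, h0, ρ_o.symm⟩
  mul_mem' := by
    rintro _ _ ⟨x, hx, rfl⟩ ⟨y, hy, rfl⟩
    exact ⟨m x y, hm x y hx hy, ρ_mul h hk x y⟩
  inv_mem' := by
    rintro _ ⟨x, hx, rfl⟩
    exact ⟨iv x, hm _ _ hx (hm _ _ hx hx), (ρ_iv h hk x).symm⟩

def R (h : SA ε σ eB) (hk : KK ε σ) : Subgroup G := sub h hk (fun _ => false) rfl fun _ _ _ _ => rfl
def E (h : SA ε σ eB) (hk : KK ε σ) : Subgroup G :=
  sub h hk (fun x => x.2.2.1 || x.2.2.2) rfl (by decide +kernel)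

theorem ρR (h : SA ε σ eB) (hk : KK ε σ) (x : B) : ρ ε σ x ∈ R h hk := ⟨x, rfl, rfl⟩
theorem memE (h : SA ε σ eB) (hk : KK ε σ) {g : G} : g ∈ E h hk ↔ ∃ a b, g = ρ ε σ (a, b, false, false) := by
  constructor
  · rintro ⟨⟨a, b, i, j⟩, hx, rfl⟩
    cases i <;> cases j <;> simp at hx
    exact ⟨a, b, rfl⟩
  · rintro ⟨a, b, rfl⟩
    exact ⟨_, rfl, rfl⟩

theorem E_sq : ∀ a b : V, m (a, b, false, false) (a, b, false, false) = o := by decide +kernel
theorem E_cm : ∀ a b c d : V, m (a, b, false, false) (c, d, false, false) =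
    m (c, d, false, false) (a, b, false, false) := by decide +kernel

theorem uniq (h : SA ε σ eB) (hk : KK ε σ) {g : G} (hg : ∀ s ∈ E h hk, g * s * g⁻¹ ∈ R h hk) :
    ∀ s ∈ E h hk, g * s * g⁻¹ ∈ E h hk := by
  have k : ∀ p : V × V, ∃ x, g * ρ ε σ (p.1, p.2, false, false) * g⁻¹ = ρ ε σ x := fun p => by
    obtain ⟨x, -, e⟩ := hg _ ((memE h hk).2 ⟨p.1, p.2, rfl⟩)
    exact ⟨x, e⟩
  choose f hf using k
  intro s hs
  obtain ⟨a, b, rfl⟩ := (memE h hk).1 hs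
  by_cases hx : (f (a, b)).2.2.1 = false ∧ (f (a, b)).2.2.2 = false
  · exact ⟨f (a, b), by simp [hx.1, hx.2], hf (a, b)⟩
  exfalso
  have c1 := small _ hx
  have c2 : (Finset.univ : Finset (V × V)).card ≤
      (Finset.univ.filter fun g => m g g = o ∧ m g (f (a, b)) = m (f (a, b)) g).card := by
    refine Finset.card_le_card_of_injOn f (fun p _ => ?_) fun p _ q _ e => ?_
    · simp only [Finset.coe_filter, Finset.mem_univ, true_and, Set.mem_setOf_eq]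
      constructor
      · apply ρ_inj h hk
        rw [← ρ_mul h hk, ← hf, ρ_o, conj_mul, ρ_mul h hk, E_sq, ρ_o]; group
      · apply ρ_inj h hk
        rw [← ρ_mul h hk, ← ρ_mul h hk, ← hf, ← hf, conj_mul, conj_mul, ρ_mul h hk, ρ_mul h hk, E_cm]
    · have e1 := hf p
      rw [e, ← hf q, mul_left_inj, mul_right_inj] at e1
      have := ρ_inj h hk e1
      simp only [Prod.mk.injEq, and_true] at this
      exact Prod.ext this.1 this.2
  have : (Finset.univ : Finset (V × V)).card = 16 := by simp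
  omega

theorem EE_eq (h : SA ε σ eB) (hk : KK ε σ) : EE ε σ = E h hk := by
  have si : σ⁻¹ = σ := inv_eq_of_mul_eq_one_right h.ss
  have e0 : ε (1, 1) = 1 := map_one ε
  have v1 : v (true, false) = eB.2 := by decide +kernel
  have v2 : v (false, true) = uE.2 := by decide +kernel
  have se : σ * ε eB * σ⁻¹ = ε eE := by
    rw [← h.se, si]
    calc σ * (σ * ε eE * σ) * σ = σ * σ * ε eE * (σ * σ) := by group
      _ = _ := by rw [h.ss]; group
  apply le_antisymm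
  · refine (closure_le _).2 ?_
    rintro _ (rfl | rfl | rfl | rfl)
    · exact (memE h hk).2 ⟨(true, false), (false, false), by rw [ρ_E, v0, v1, kk, e0]; simp; rfl⟩
    · exact (memE h hk).2 ⟨(false, true), (false, false), by rw [ρ_E, v0, v2, kk, e0]; simp; rfl⟩
    · exact (memE h hk).2 ⟨(false, false), (true, false), by rw [ρ_E, v0, v1, kk, e0, one_mul, ← se]; rfl⟩
    · exact (memE h hk).2 ⟨(false, false), (false, true), by rw [ρ_E, v0, v2, kk, e0, one_mul]; rfl⟩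
  · intro s hs
    obtain ⟨a, b, rfl⟩ := (memE h hk).1 hs
    have m1 : ε eB ∈ EE ε σ := subset_closure (by simp)
    have m2 : ε uE ∈ EE ε σ := subset_closure (by simp)
    have m3 : σ * ε eB * σ⁻¹ ∈ EE ε σ := se ▸ subset_closure (by simp)
    have m4 : σ * ε uE * σ⁻¹ ∈ EE ε σ := subset_closure (by simp)
    have k : ∀ a : V, ((1, v a) : W) = 1 ∨ (1, v a) = eB ∨ (1, v a) = uE ∨ (1, v a) = eB * uE := by decide +kernel
    rw [ρ_E, kk]
    refine mul_mem ?_ ?_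
    · rcases k a with e | e | e | e <;> rw [e]
      exacts [by simp, m1, m2, map_mul ε _ _ ▸ mul_mem m1 m2]
    · rcases k b with e | e | e | e <;> rw [e]
      exacts [by simp, m3, m4, by rw [map_mul, ← conj_mul]; exact mul_mem m3 m4]

theorem R_p (h : SA ε σ eB) (hk : KK ε σ) : IsPGroup 2 (R h hk) := by
  rintro ⟨_, x, -, rfl⟩
  refine ⟨2, Subtype.ext ?_⟩
  show ρ ε σ x ^ 2 ^ 2 = 1
  rw [show ρ ε σ x ^ 2 ^ 2 = ρ ε σ x * (ρ ε σ x * (ρ ε σ x * ρ ε σ x)) by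
    rw [show 2 ^ 2 = 4 by norm_num]; simp only [pow_succ, pow_zero, one_mul, mul_assoc],
    ρ_mul h hk, ρ_mul h hk, ρ_mul h hk]
  exact (congrArg _ (m_iv x)).trans ρ_o

theorem R_syl (h : SA ε σ eB) (hk : KK ε σ) (he : NE ε σ) : ∃ P : Sylow 2 G, (P : Subgroup G) = R h hk := by
  obtain ⟨P, hP⟩ := (R_p h hk).exists_le_sylow
  refine ⟨P, ?_⟩
  have nil : Group.IsNilpotent (P : Subgroup G) := P.2.isNilpotent
  have nc := (normalizerCondition_iff_only_full_group_self_normalizing.1 normalizerCondition_of_isNilpotent)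
    ((R h hk).subgroupOf P) (le_antisymm (fun g hg => ?_) le_normalizer)
  · exact le_antisymm (subgroupOf_eq_top.1 nc) hP
  have n1 : ∀ s ∈ R h hk, (g : G) * s * (g : G)⁻¹ ∈ R h hk := fun s hs =>
    (mem_normalizer_iff.1 hg ⟨s, hP hs⟩).1 hs
  have ER : E h hk ≤ R h hk := by rintro _ ⟨x, -, rfl⟩; exact ρR h hk x
  have nE : ∀ {k : G}, (∀ s ∈ R h hk, k * s * k⁻¹ ∈ R h hk) → ∀ s ∈ E h hk, k * s * k⁻¹ ∈ E h hk :=
    fun hh => uniq h hk fun s hs => hh s (ER hs)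
  have n2 : (g : G) ∈ normalizer (EE ε σ : Set G) := by
    rw [EE_eq h hk]; exact mem_normalizer_fintype (nE n1)
  obtain ⟨a, b, ha, hb, e⟩ := he _ n2
  obtain ⟨r, hr, e⟩ : ∃ r ∈ R h hk, (g : G) = kk ε σ a b * r := by
    have t := ρ_t (ε := ε) (σ := σ) ▸ ρR h hk tB
    have s := ρ_s (ε := ε) (σ := σ) ▸ ρR h hk sB
    rcases e with e | e | e | e
    exacts [⟨1, one_mem _, by rw [mul_one, e]⟩, ⟨_, t, e⟩, ⟨_, s, e⟩, ⟨_, mul_mem t s, by rw [e, mul_assoc]⟩]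
  have ek : kk ε σ a b = g * r⁻¹ := by rw [e, mul_inv_cancel_right]
  have n3 : ∀ s ∈ E h hk, kk ε σ a b * s * (kk ε σ a b)⁻¹ ∈ E h hk := nE fun s hs => by
    have := n1 _ (mul_mem (mul_mem (inv_mem hr) hs) hr)
    rw [ek]; simpa only [mul_inv_rev, inv_inv, mul_assoc] using this
  have ki : (kk ε σ a b)⁻¹ = kk ε σ a⁻¹ b⁻¹ := inv_eq_of_mul_eq_one_right (by
    rw [kmul hk _ _ hb (by simpa using ha), mul_inv_cancel, mul_inv_cancel, k11])
  have n4 : ∀ c d : V, (∃ c', a * v c * a⁻¹ = v c') ∧ ∃ d', b * v d * b⁻¹ = v d' := fun c d => by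
    obtain ⟨c', d', e'⟩ := (memE h hk).1 (n3 _ ((memE h hk).2 ⟨c, d, rfl⟩))
    rw [ρ_E, ρ_E, ki, kmul hk _ _ hb (v_sg _), kmul hk _ _ (by simp [hb, v_sg]) (by simpa using ha)] at e'
    have := kinj2 h hk (by simp [hb, v_sg]) (v_sg _) (v_sg _) e'
    exact ⟨⟨c', this.1⟩, d', this.2⟩
  obtain ⟨n, hn⟩ := P.2 (g * ⟨r, hP hr⟩⁻¹)
  have hn' : kk ε σ a b ^ 2 ^ n = 1 := by rw [ek]; exact congrArg Subtype.val hn
  rw [kpow hk ha hb] at hn'
  have p2 := kinj h hk (by simp [hb]) hn'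
  have k : ∀ a : Perm (Fin 5), a ^ 2 ^ n = 1 → ((∃ c, a = v c) ∨ a ^ 3 = 1) → ∃ c, a = v c := by
    rintro a e1 (e2 | e2)
    · exact e2
    · refine ⟨(false, false), ?_⟩
      rw [v0, ← orderOf_eq_one_iff]
      exact Nat.eq_one_of_dvd_coprimes (Nat.Coprime.pow_left n (by norm_num : Nat.Coprime 2 3))
        (orderOf_dvd_of_pow_eq_one e1) (orderOf_dvd_of_pow_eq_one e2)
  obtain ⟨c, rfl⟩ := k a p2.1 (nrmV a ha (n4 _ (false, false)).1 (n4 _ (false, false)).1)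
  obtain ⟨d, rfl⟩ := k b p2.2 (nrmV b hb (n4 (false, false) _).2 (n4 (false, false) _).2)
  show (g : G) ∈ R h hk
  rw [e, ← ρ_E]
  exact mul_mem (ρR h hk _) hr

theorem nc (h : SA ε σ eB) (hy : NY ε) (g : G) : g * ε tE * g⁻¹ ≠ σ ∧ g * ε tE * g⁻¹ ≠ ε tE * σ := by
  have si : σ⁻¹ = σ := inv_eq_of_mul_eq_one_right h.ss
  have s1 : σ * ε zE = ε zF * σ := mul_inv_eq_iff_eq_mul.1 h.sz
  have s2 : σ * ε zF = ε zE * σ := by
    rw [← h.sz, si, ← mul_assoc, ← mul_assoc, h.ss, one_mul]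
  have zz : ε zE * ε zF = ε zF * ε zE := by rw [← map_mul, ← map_mul]; congr 1
  have c1 : Commute σ (ε zE * ε zF) := by
    show _ = _
    rw [← mul_assoc, s1, mul_assoc, s2, ← mul_assoc, zz]
  have t1 : Commute (ε tE) (ε zE) := by
    show _ = _
    rw [← map_mul, ← map_mul]; congr 1
  have t2 : Commute (ε tE) (ε zF) := by
    show _ = _
    rw [← map_mul, ← map_mul]; congr 1; decide +kernel
  have n : ¬ Commute σ (ε zE) := fun e => by
    have e2 := e.eq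
    rw [s1, mul_left_inj] at e2
    have := h.inj e2
    revert this; decide +kernel
  refine ⟨fun e => n (e ▸ hy g (e.symm ▸ c1)), fun e => n ?_⟩
  have := hy g (e.symm ▸ (t1.mul_right t2).mul_left c1)
  rw [e] at this
  simpa using t1.inv_left.mul_left this

theorem six' (h : SA ε σ eB) (hn : ND ε σ) {a b : G} (ha : Commute a (ε tE)) (hb : Commute b (ε tE)) :
    a ^ 6 = 1 ∨ b ^ 6 = 1 ∨ (a * b) ^ 6 = 1 := by
  have k : ∀ g : G, Commute g (ε tE) → g ∈ ε.range → g ^ 6 = 1 := by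
    rintro _ e ⟨⟨p, q⟩, rfl⟩
    have e2 := e.eq
    rw [← map_mul, ← map_mul] at e2
    rw [← map_pow, six p q (congrArg Prod.snd (h.inj e2)), map_one]
  rcases hn _ ha.inv_left with e | e
  · exact .inl (k a ha (inv_mem_iff.1 e))
  rcases hn _ hb with f | f
  · exact .inr (.inl (k b hb f))
  refine .inr (.inr (k _ (ha.mul_left hb) ?_))
  simpa [mul_assoc] using mul_mem (inv_mem e) f

theorem nE (h : SA ε σ eB) (hn : ND ε σ) (hk : KK ε σ) (g : G) (a b : V) :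
    g * ε tE * g⁻¹ ≠ kk ε σ (v a) (v b) := by
  have k0 : ∀ {g w p q : G}, g * ε tE * g⁻¹ = w → Commute p w → Commute q w →
      p ^ 6 = 1 ∨ q ^ 6 = 1 ∨ (p * q) ^ 6 = 1 := by
    intro g w p q e hp hq
    have c : ∀ {p : G}, Commute p w → Commute (g⁻¹ * p * g⁻¹⁻¹) (ε tE) := fun {p} hp => by
      have e2 : ε tE = g⁻¹ * w * g⁻¹⁻¹ := by rw [← e]; group
      rw [e2]; exact hp.conj _
    have := six' h hn (c hp) (c hq)
    simpa only [conj_mul, conj_pow, conj_eq_one_iff] using this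
  intro e
  let c5 : Perm (Fin 5) := swap 0 1 * swap 1 2 * swap 2 3 * swap 3 4
  have s5 : Perm.sign c5 = 1 := by decide +kernel
  have s1 : Perm.sign (1 : Perm (Fin 5)) = 1 := by simp
  rcases cjV a with rfl | ⟨p, -, hp, ea⟩
  · have c : Commute (kk ε σ c5 1) (kk ε σ (v (false, false)) (v b)) := by
      show _ = _
      rw [kmul hk _ _ s1 (v_sg _), kmul hk _ _ (v_sg _) s5, v0]; simp
    have := k0 e c c
    rw [kmul hk _ _ s1 s5, kpow hk s5 s1, kpow hk (by simp [s5]) (by simp)] at this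
    rcases this with f | f | f <;> have := (kinj h hk (by simp) f).1 <;> revert this <;> decide +kernel
  rcases cjV b with rfl | ⟨q, -, hq, eb⟩
  · have c : Commute (kk ε σ 1 c5) (kk ε σ (v a) (v (false, false))) := by
      show _ = _
      rw [kmul hk _ _ s5 (v_sg _), kmul hk _ _ (v_sg _) s1, v0]; simp
    have := k0 e c c
    rw [kmul hk _ _ s5 s1, kpow hk s1 s5, kpow hk (by simp) (by simp [s5])] at this
    rcases this with f | f | f <;> have := (kinj h hk (by simp [s5]) f).2 <;> revert this <;> decide +kernel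
  have ki : (kk ε σ p q)⁻¹ = kk ε σ p⁻¹ q⁻¹ := inv_eq_of_mul_eq_one_right (by
    rw [kmul hk _ _ hq (by simpa using hp), mul_inv_cancel, mul_inv_cancel, k11])
  have e2 : kk ε σ p q * g * ε tE * (kk ε σ p q * g)⁻¹ = ρ ε σ c0 := by
    have : kk ε σ p q * g * ε tE * (kk ε σ p q * g)⁻¹ = kk ε σ p q * (g * ε tE * g⁻¹) * (kk ε σ p q)⁻¹ := by group
    rw [this, e, ki, kmul hk _ _ hq (v_sg _), kmul hk _ _ (by simp [hq, v_sg]) (by simpa using hp), ea, eb]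
    exact (ρ_E _ _).symm
  have c : ∀ x, Commute (ρ ε σ x) (ρ ε σ c0) := fun x => by
    show _ = _
    rw [ρ_mul h hk, ρ_mul h hk]; congr 1; revert x; decide +kernel
  have p6 : ∀ x, ρ ε σ x ^ 6 = 1 → m (m x x) (m (m x x) (m x x)) = o := fun x e => by
    apply ρ_inj h hk
    rw [ρ_o, ← e]
    simp only [← ρ_mul h hk, pow_succ, pow_zero, one_mul, mul_assoc]
  have := k0 e2 (c (m uB tB)) (c (m uB sB))
  rw [ρ_mul h hk] at this
  rcases this with f | f | f <;> have := p6 _ f <;> revert this <;> decide +kernel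

theorem cls' (h : SA ε σ eB) (hk : KK ε σ) (a b : V) (i j : Bool) (e : ρ ε σ (a, b, i, j) * ρ ε σ (a, b, i, j) = 1) :
    (i = false ∧ j = false) ∨
      ∃ k : G, k * ((if i then ε tE else 1) * (if j then σ else 1)) * k⁻¹ = ρ ε σ (a, b, i, j) := by
  rw [ρ_mul h hk, ← ρ_o (ε := ε) (σ := σ)] at e
  refine (cls _ (ρ_inj h hk e)).imp id ?_
  rintro ⟨y, hy⟩
  refine ⟨ρ ε σ y, ?_⟩
  rw [← hy, ← ρ_mul h hk, ← ρ_mul h hk, ρ_iv h hk]
  simp [ρ, v0, k11]

theorem tt (ε : W →* G) : ε tE * ε tE = 1 := by rw [← map_mul, ← map_one ε]; congr 1; decide +kernel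

theorem cT (h : SA ε σ eB) (hy : NY ε) (hn : ND ε σ) (hk : KK ε σ) {g : G} {x : B}
    (e : g * ε tE * g⁻¹ = ρ ε σ x) : x.2.2.1 = true ∧ x.2.2.2 = false := by
  obtain ⟨a, b, i, j⟩ := x
  rcases cls' h hk a b i j (by rw [← e, conj_mul, tt]; group) with ⟨rfl, rfl⟩ | ⟨k, hk'⟩
  · exact (nE h hn hk g a b (e.trans (ρ_E _ _))).elim
  have e2 : k⁻¹ * g * ε tE * (k⁻¹ * g)⁻¹ = (if i then ε tE else 1) * (if j then σ else 1) := by
    have : k⁻¹ * g * ε tE * (k⁻¹ * g)⁻¹ = k⁻¹ * (g * ε tE * g⁻¹) * k := by group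
    rw [this, e, ← hk']; group
  cases i <;> cases j
  · exact (nE h hn hk g a b (e.trans (ρ_E _ _))).elim
  · exact ((nc h hy (k⁻¹ * g)).1 (e2.trans (by simp))).elim
  · exact ⟨rfl, rfl⟩
  · exact ((nc h hy (k⁻¹ * g)).2 (e2.trans (by simp))).elim

theorem tho (h : SA ε σ eB) (hk : KK ε σ) (P : Sylow 2 G) (hP : (P : Subgroup G) = R h hk) (χ : B → Bool)
    (h0 : χ o = false) (hm : ∀ x y, χ (m x y) = xor (χ x) (χ y)) (x : B) (hx : χ x = true) (h2 : m x x = o) :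
    (∃ M : Subgroup G, M.Normal ∧ M.index = 2 ∧ ρ ε σ x ∉ M) ∨ ∃ g y, χ y = false ∧ g * ρ ε σ x * g⁻¹ = ρ ε σ y := by
  let Q := sub h hk χ h0 (fun x y e f => by rw [hm, e, f]; rfl)
  have mQ : ∀ y, ρ ε σ y ∈ Q ↔ χ y = false := fun y =>
    ⟨fun ⟨w, e, f⟩ => ρ_inj h hk f ▸ e, fun e => ⟨y, e, rfl⟩⟩
  have QP : Q ≤ P := by rw [hP]; rintro _ ⟨y, -, rfl⟩; exact ρR h hk y
  have i2 : Q.relIndex P = 2 := by
    rw [hP]
    refine index_eq_two_iff.2 ⟨⟨_, ρR h hk x⟩, ?_⟩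
    rintro ⟨_, y, -, rfl⟩
    show Xor (ρ ε σ y * ρ ε σ x ∈ Q) (ρ ε σ y ∈ Q)
    rw [ρ_mul h hk, mQ, mQ, hm, hx]
    cases χ y <;> simp
  have o2 : orderOf (ρ ε σ x) = 2 := by
    refine orderOf_eq_prime (by rw [sq, ρ_mul h hk, h2, ρ_o]) fun e => ?_
    rw [← ρ_o (ε := ε) (σ := σ)] at e
    rw [ρ_inj h hk e, h0] at hx
    exact Bool.false_ne_true hx
  refine (Cfsg.Agent.S0111.result P Q QP i2 _ o2 (hP ▸ ρR h hk x) (by rw [mQ, hx]; simp)).imp id ?_
  rintro ⟨g, y, e, f⟩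
  exact ⟨g, y, e, f⟩

end b3h

variable {G : Type u} [Group G] [Finite G] {ε : W →* G} {σ : G}

open b3h in
theorem pB3b (h : SA ε σ eB) (hy : NY ε) (hn : ND ε σ) (hk : KK ε σ) (he : NE ε σ) : ∃ M : Subgroup G, MM M := by
  obtain ⟨P, hP⟩ := R_syl h hk he
  have st : σ * ε tE = ε tE * σ := mul_inv_eq_iff_eq_mul.1 h.st
  obtain ⟨N, n1, n2, n3⟩ : ∃ M : Subgroup G, M.Normal ∧ M.index = 2 ∧ ρ ε σ tB ∉ M := by
    refine (tho h hk P hP (fun x => x.2.2.1) rfl (fun _ _ => rfl) tB rfl (by decide)).resolve_right ?_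
    rintro ⟨g, y, e, f⟩
    rw [ρ_t] at f
    rw [(cT h hy hn hk f).1] at e
    exact Bool.noConfusion e
  rw [ρ_t] at n3
  obtain ⟨s, s1, s2, s3, s4, s5, s6⟩ : ∃ s : B, ρ ε σ s ∈ N ∧ s.2.2.2 = true ∧ m s s = o ∧
      ρ ε σ s * ε tE = ε tE * ρ ε σ s ∧ (∀ g, g * ε tE * g⁻¹ ≠ ρ ε σ s) ∧ ∀ g, g * ε tE * g⁻¹ ≠ ρ ε σ s * ε tE := by
    by_cases hs : σ ∈ N
    · refine ⟨sB, ?_, rfl, by decide, ?_, ?_, ?_⟩ <;> rw [ρ_s]
      exacts [hs, st, fun g => (nc h hy g).1, fun g => st ▸ (nc h hy g).2]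
    · have e : ρ ε σ (m tB sB) = ε tE * σ := by rw [← ρ_mul h hk, ρ_t, ρ_s]
      refine ⟨m tB sB, ?_, rfl, by decide, ?_, ?_, ?_⟩ <;> rw [e]
      · exact (mul_mem_iff_of_index_two n2).2 (by simp [hs, n3])
      · rw [mul_assoc, st]
      · exact fun g => (nc h hy g).2
      · rw [mul_assoc, st, ← mul_assoc, tt, one_mul]; exact fun g => (nc h hy g).1
  have ss : ρ ε σ s * ρ ε σ s = 1 := by rw [ρ_mul h hk, s3, ρ_o]
  obtain ⟨L, l1, l2, l3⟩ : ∃ M : Subgroup G, M.Normal ∧ M.index = 2 ∧ ρ ε σ s ∉ M := by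
    refine (tho h hk P hP (fun x => x.2.2.2) rfl (fun _ _ => rfl) s s2 s3).resolve_right ?_
    rintro ⟨g, ⟨a, b, i, j⟩, e, f⟩
    obtain rfl : j = false := e
    cases i
    · obtain ⟨k, k', e1, e2, e3⟩ := Cfsg.Agent.H19.Gt.twosyl P f
      rw [hP] at e2 e3
      have hE := uniq h hk (g := k) (fun w hw => e2 w (by obtain ⟨x, -, rfl⟩ := hw; exact ρR h hk x) (by
        obtain ⟨c, d, rfl⟩ := (memE h hk).1 hw
        rw [ρ_mul h hk, ρ_mul h hk, E_cm])) _ ((memE h hk).2 ⟨a, b, rfl⟩)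
      obtain ⟨c, d, e4⟩ := (memE h hk).1 hE
      obtain ⟨⟨a', b', i', j'⟩, -, e5⟩ := e3 _ (ρ_t (ε := ε) (σ := σ) ▸ ρR h hk tB) s4.symm
      obtain ⟨rfl, rfl⟩ : i' = true ∧ j' = false := cT h hy hn hk e5
      have e6 : k' * (ρ ε σ s * ε tE) * k'⁻¹ = ρ ε σ (ad c a', ad d b', true, false) := by
        rw [← conj_mul, ← e1, e4, e5, ρ_mul h hk]; simp [m, tw_f]
      rcases cls' h hk (ad c a') (ad d b') true false (by
        rw [← e6, conj_mul, mul_assoc (ρ ε σ s), ← mul_assoc (ε tE), ← s4, mul_assoc (ρ ε σ s), tt, mul_one, ss]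
        group) with ⟨e7, -⟩ | ⟨w, e7⟩
      · exact Bool.noConfusion e7
      · refine s6 (k'⁻¹ * w) ?_
        rw [← e6] at e7
        simp only [if_true, Bool.false_eq_true, if_false, mul_one] at e7
        calc k'⁻¹ * w * ε tE * (k'⁻¹ * w)⁻¹ = k'⁻¹ * (w * ε tE * w⁻¹) * k' := by group
          _ = _ := by rw [e7]; group
    · rcases cls' h hk a b true false (by rw [← f, conj_mul, ss]; group) with ⟨e7, -⟩ | ⟨w, e7⟩
      · exact Bool.noConfusion e7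
      · refine s5 (g⁻¹ * w) ?_
        rw [← f] at e7
        simp only [if_true, Bool.false_eq_true, if_false, mul_one] at e7
        calc g⁻¹ * w * ε tE * (g⁻¹ * w)⁻¹ = g⁻¹ * (w * ε tE * w⁻¹) * g := by group
          _ = _ := by rw [e7]; group
  have i4 : (L ⊓ N).index = 4 := by
    have d : L.relIndex N ∣ 2 := l2 ▸ relIndex_dvd_index_of_normal L N
    have d1 : L.relIndex N ≠ 1 := fun e => l3 (relIndex_eq_one.1 e s1)
    have d2 : L.relIndex N = 2 := ((Nat.dvd_prime Nat.prime_two).1 d).resolve_left d1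
    rw [← relIndex_mul_index (inf_le_right : L ⊓ N ≤ N), inf_relIndex_right, d2, n2]
  refine ⟨L ⊓ N, inferInstance, i4, fun g => ⟨sq_mem_of_index_two l2 g, sq_mem_of_index_two n2 g⟩, fun d => ?_⟩
  have d1 : 2 ^ 7 ∣ Nat.card G := by
    rw [← (L ⊓ N).card_mul_index, i4, show 2 ^ 7 = 32 * 4 by norm_num]; exact mul_dvd_mul d (dvd_refl 4)
  rw [← (P : Subgroup G).card_mul_index] at d1
  have d2 : 2 ^ 7 ∣ Nat.card (P : Subgroup G) :=
    (Nat.Coprime.pow_left 7 ((Nat.prime_two.coprime_iff_not_dvd).2 P.not_dvd_index)).dvd_of_dvd_mul_right d1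
  have d3 : Nat.card (P : Subgroup G) ≤ Nat.card B := by
    rw [hP]
    exact Nat.card_le_card_of_surjective (fun x : B => (⟨_, ρR h hk x⟩ : R h hk)) (by
      rintro ⟨_, x, -, rfl⟩; exact ⟨x, rfl⟩)
  have d4 : Nat.card B = 64 := by simp
  have := Nat.le_of_dvd Nat.card_pos d2
  omega

end Cfsg.Agent.L1Se
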