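import Cfsg.Agent.L1.Se0
import Cfsg.Agent.S0111
import Cfsg.Agent.H19.Gt1

/-! The normal subgroup of index `4` (case `A₅ × A₅`). -/

set_option autoImplicit false
set_option linter.unusedSectionVars false
set_option linter.unusedVariables false

namespace Cfsg.Agent.L1Se

open Subgroup Equiv

universe u

namespace b3h

abbrev V := Bool × Bool
abbrev B := V × V × Bool × Bool
def v (a : V) : Perm (Fin 5) := (if a.1 then eB.2 else 1) * (if a.2 then uE.2 else 1)
def ad (a b : V) : V := (xor a.1 b.1, xor a.2 b.2)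
def tw (i : Bool) (a : V) : V := (xor a.1 (i && a.2), a.2)
def m (x y : B) : B := (ad x.1 (tw x.2.2.1 (if x.2.2.2 then y.2.1 else y.1)),
  ad x.2.1 (tw x.2.2.1 (if x.2.2.2 then y.1 else y.2.1)), xor x.2.2.1 y.2.2.1, xor x.2.2.2 y.2.2.2)
def o : B := ((false, false), (false, false), false, false)
def iv (x : B) : B := m x (m x x)
def cm (x y : B) : B := m (m x y) (m (iv x) (iv y))
def c0 : B := ((true, false), (true, false), false, false)
def tB : B := ((false, false), (false, false), true, false)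
def sB : B := ((false, false), (false, false), false, true)
def uB : B := ((false, true), (false, false), false, false)

theorem v_mul : ∀ a b, v a * v b = v (ad a b) := by decide +kernel
theorem v_tw : ∀ a, tE.2 * v a * tE.2⁻¹ = v (tw true a) := by decide +kernel
theorem tw_f (a : V) : tw false a = a := by simp [tw]
theorem v_sg : ∀ a, Perm.sign (v a) = 1 := by decide +kernel
theorem m_iv : ∀ x, m x (iv x) = o := by decide +kernel
theorem m_inj : ∀ x y, m x (iv y) = o → x = y := by decide +kernel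
theorem ker0 : ∀ x, x = o ∨ x = c0 ∨ ∃ y ∈ [tB, sB, uB], cm x y = c0 ∨ ∃ w ∈ [tB, sB, uB], cm (cm x y) w = c0 := by
  decide +kernel
theorem small : ∀ x : B, ¬ (x.2.2.1 = false ∧ x.2.2.2 = false) →
    (Finset.univ.filter fun g => m g g = o ∧ m g x = m x g).card < 16 := by decide +kernel
set_option synthInstance.maxSize 4096 in
theorem cls : ∀ x : B, m x x = o → (x.2.2.1 = false ∧ x.2.2.2 = false) ∨
    ∃ y, m (m y ((false, false), (false, false), x.2.2)) (iv y) = x := by decide +kernel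
theorem cenA : ∀ a : Perm (Fin 5), a * zF.2 = zF.2 * a → a * uE.2 = uE.2 * a → a = 1 := by decide +kernel
theorem nrmV : ∀ a : Perm (Fin 5), Perm.sign a = 1 → (∃ c, a * v (true, false) * a⁻¹ = v c) →
    (∃ c, a * v (false, true) * a⁻¹ = v c) → (∃ c, a = v c) ∨ a ^ 3 = 1 := by decide +kernel
theorem cjV : ∀ a : V, a = (false, false) ∨
    ∃ p ∈ [1, swap 0 1 * swap 1 3, swap 1 3 * swap 0 1], Perm.sign p = 1 ∧ p * v a * p⁻¹ = v (true, false) := by
  decide +kernel
theorem six : ∀ (a : Perm (Fin 3)) (b : Perm (Fin 5)), b * tE.2 = tE.2 * b → ((a, b) : W) ^ 6 = 1 := by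
  intro a b h
  have h1 : ∀ a : Perm (Fin 3), a ^ 6 = 1 := by decide +kernel
  have h2 : ∀ b : Perm (Fin 5), b * tE.2 = tE.2 * b → b ^ 6 = 1 := by decide +kernel
  exact Prod.ext (h1 a) (h2 b h)

variable {G : Type u} [Group G] [Finite G] {ε : W →* G} {σ : G}

theorem kmul (hk : KK ε σ) (a : Perm (Fin 5)) {b c : Perm (Fin 5)} (d : Perm (Fin 5)) (hb : Perm.sign b = 1)
    (hc : Perm.sign c = 1) : kk ε σ a b * kk ε σ c d = kk ε σ (a * c) (b * d) := by
  have e := (hk.cm c b hc hb).eq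
  have e1 : ε (1, a * c) = ε (1, a) * ε (1, c) := by rw [← map_mul]; simp
  have e2 : ε (1, b * d) = ε (1, b) * ε (1, d) := by rw [← map_mul]; simp
  unfold kk
  rw [e1, e2, mul_assoc, ← mul_assoc (σ * ε (1, b) * σ⁻¹), ← e]; group

theorem k11 : kk ε σ 1 1 = 1 := by
  unfold kk
  rw [show ((1, 1) : W) = 1 from rfl, map_one]; group

theorem tk (h : SA ε σ eB) (a b : Perm (Fin 5)) :
    ε tE * kk ε σ a b = kk ε σ (tE.2 * a * tE.2⁻¹) (tE.2 * b * tE.2⁻¹) * ε tE := by
  have e : ∀ a : Perm (Fin 5), ε (1, tE.2 * a * tE.2⁻¹) = ε tE * ε (1, a) * (ε tE)⁻¹ := fun a => by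
    rw [← map_inv, ← map_mul, ← map_mul]; congr 1
  have st : σ * ε tE = ε tE * σ := mul_inv_eq_iff_eq_mul.1 h.st
  unfold kk
  rw [e, e]
  calc ε tE * (ε (1, a) * (σ * ε (1, b) * σ⁻¹))
      = ε tE * ε (1, a) * (ε tE)⁻¹ * ((ε tE * σ) * ε (1, b) * (ε tE * σ)⁻¹) * ε tE := by group
    _ = _ := by rw [← st]; group

theorem sk (h : SA ε σ eB) (hk : KK ε σ) {a b : Perm (Fin 5)} (ha : Perm.sign a = 1) (hb : Perm.sign b = 1) :
    σ * kk ε σ a b = kk ε σ b a * σ := by
  have si : σ⁻¹ = σ := inv_eq_of_mul_eq_one_right h.ss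
  unfold kk
  rw [(hk.cm b a hb ha).eq]
  calc σ * (ε (1, a) * (σ * ε (1, b) * σ⁻¹)) = σ * ε (1, a) * σ * ε (1, b) * σ⁻¹ := by group
    _ = _ := by rw [si]

theorem kinj (h : SA ε σ eB) (hk : KK ε σ) {a b : Perm (Fin 5)} (hb : Perm.sign b = 1) (e : kk ε σ a b = 1) :
    a = 1 ∧ b = 1 := by
  have e1 : ε (1, a) = (σ * ε (1, b) * σ⁻¹)⁻¹ := eq_inv_of_mul_eq_one_left e
  have k : ∀ c : Perm (Fin 5), Perm.sign c = 1 → a * c = c * a := fun c hc => by
    have := (hk.cm c b hc hb).inv_right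
    rw [← e1] at this
    have h2 := this.eq
    rw [← map_mul, ← map_mul] at h2
    exact (congrArg Prod.snd (h.inj h2)).symm
  have ha : a = 1 := cenA a (k _ (by decide +kernel)) (k _ (by decide +kernel))
  refine ⟨ha, ?_⟩
  subst ha
  rw [show ((1, 1) : W) = 1 from rfl, map_one, eq_inv_iff_mul_eq_one, one_mul, mul_inv_eq_one, mul_eq_left,
    ← map_one ε] at e1
  exact congrArg Prod.snd (h.inj e1)

theorem kinj2 (h : SA ε σ eB) (hk : KK ε σ) {a b c d : Perm (Fin 5)} (hb : Perm.sign b = 1) (hc : Perm.sign c = 1)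
    (hd : Perm.sign d = 1) (e : kk ε σ a b = kk ε σ c d) : a = c ∧ b = d := by
  have e1 : kk ε σ a b * kk ε σ c⁻¹ d⁻¹ = 1 := by
    rw [e, kmul hk _ _ hd (by simpa using hc), mul_inv_cancel, mul_inv_cancel, k11]
  rw [kmul hk _ _ hb (by simpa using hc)] at e1
  have := kinj h hk (by simp [hb, hd]) e1
  exact ⟨mul_inv_eq_one.1 this.1, mul_inv_eq_one.1 this.2⟩

theorem kpow (hk : KK ε σ) {a b : Perm (Fin 5)} (ha : Perm.sign a = 1) (hb : Perm.sign b = 1) (n : ℕ) :
    kk ε σ a b ^ n = kk ε σ (a ^ n) (b ^ n) := by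
  induction n with
  | zero => simp [k11]
  | succ n ih => rw [pow_succ, ih, kmul hk _ _ (by simp [hb]) ha, pow_succ, pow_succ]

def ρ (ε : W →* G) (σ : G) (x : B) : G :=
  kk ε σ (v x.1) (v x.2.1) * ((if x.2.2.1 then ε tE else 1) * (if x.2.2.2 then σ else 1))

theorem ρ_mul (h : SA ε σ eB) (hk : KK ε σ) (x y : B) : ρ ε σ x * ρ ε σ y = ρ ε σ (m x y) := by
  have st : σ * ε tE = ε tE * σ := mul_inv_eq_iff_eq_mul.1 h.st
  have st' : ∀ g, σ * (ε tE * g) = ε tE * (σ * g) := fun g => by rw [← mul_assoc, st, mul_assoc]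
  have tt : ε tE * ε tE = 1 := by rw [← map_mul, ← map_one ε]; congr 1; decide +kernel
  have tt' : ∀ g, ε tE * (ε tE * g) = g := fun g => by rw [← mul_assoc, tt, one_mul]
  have k1 : ∀ a b c d g, kk ε σ (v a) (v b) * (kk ε σ (v c) (v d) * g) = kk ε σ (v (ad a c)) (v (ad b d)) * g :=
    fun a b c d g => by rw [← mul_assoc, kmul hk _ _ (v_sg _) (v_sg _), v_mul, v_mul]
  have k2 : ∀ a b g, ε tE * (kk ε σ (v a) (v b) * g) = kk ε σ (v (tw true a)) (v (tw true b)) * (ε tE * g) :=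
    fun a b g => by rw [← mul_assoc, tk h, v_tw, v_tw, mul_assoc]
  have k3 : ∀ a b g, σ * (kk ε σ (v a) (v b) * g) = kk ε σ (v b) (v a) * (σ * g) :=
    fun a b g => by rw [← mul_assoc, sk h hk (v_sg _) (v_sg _), mul_assoc]
  obtain ⟨a, b, i, j⟩ := x
  obtain ⟨c, d, k, l⟩ := y
  unfold ρ m
  cases i <;> cases j <;> cases k <;> cases l <;>
    simp only [mul_assoc, one_mul, k1, k2, k3, st', tt', tw_f, h.ss, if_true, if_false, Bool.false_eq_true,
      Bool.xor_false, Bool.xor_true, Bool.not_true, Bool.not_false] <;>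
    simp only [mul_one, tt, st, h.ss]

theorem v0 : v (false, false) = 1 := by decide +kernel
theorem ρ_o : ρ ε σ o = 1 := by simp [ρ, o, v0, k11]
theorem ρ_t : ρ ε σ tB = ε tE := by simp [ρ, tB, v0, k11]
theorem ρ_s : ρ ε σ sB = σ := by simp [ρ, sB, v0, k11]
theorem ρ_E (a b : V) : ρ ε σ (a, b, false, false) = kk ε σ (v a) (v b) := by simp [ρ]

theorem ρ_iv (h : SA ε σ eB) (hk : KK ε σ) (x : B) : ρ ε σ (iv x) = (ρ ε σ x)⁻¹ :=
  eq_inv_of_mul_eq_one_right (by rw [ρ_mul h hk, m_iv, ρ_o])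

theorem ρ_inj (h : SA ε σ eB) (hk : KK ε σ) : Function.Injective (ρ ε σ) := fun x y e => by
  apply m_inj
  have e1 : ρ ε σ (m x (iv y)) = 1 := by rw [← ρ_mul h hk, ρ_iv h hk, e, mul_inv_cancel]
  generalize m x (iv y) = w at e1
  have k : ∀ a b, ρ ε σ a = 1 → ρ ε σ (cm a b) = 1 := fun a b e => by
    unfold cm
    rw [← ρ_mul h hk, ← ρ_mul h hk, ← ρ_mul h hk, ρ_iv h hk, ρ_iv h hk, e]; group
  have n : ρ ε σ c0 ≠ 1 := fun e => by
    have := (kinj h hk (v_sg _) ((ρ_E _ _).symm.trans e)).1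
    revert this; decide +kernel
  rcases ker0 w with e2 | rfl | ⟨a, -, e2 | ⟨b, -, e2⟩⟩
  · exact e2
  · exact (n e1).elim
  · exact (n (e2 ▸ k _ _ e1)).elim
  · exact (n (e2 ▸ k _ _ (k _ _ e1))).elim

end b3h

end Cfsg.Agent.L1Se
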