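import Mathlib
import Cfsg.Agent.H29.Large

/-! Singular subgroups; coprime action on extraspecial groups. -/

set_option autoImplicit false

namespace Cfsg.Agent.H29

open Cfsg Cfsg.Agent.H22 Subgroup
open scoped commutatorElement

variable {G : Type*} [Group G] [Finite G]

theorem ES.coprime {Q A : Subgroup G} {z : G} (h : ES Q z) (hA : A ≤ N[Q]) (ho : Odd (Nat.card A)) :
    ⁅Q, A⁆ ⊔ Q ⊓ C[A] = Q ∧ Q ⊓ C[A] ≤ C[⁅Q, A⁆] ∧ (⁅Q, A⁆ = ⊥ ∨ ES ⁅Q, A⁆ z) ∧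
      (Q ⊓ C[A] = zpowers z ∨ ES (Q ⊓ C[A]) z) := by
  have hc := Nat.coprime_two_right.2 ho
  have h1 := comm_sup_C_of_coprime h.pgrp hA hc
  have hz : zpowers z ≤ C[A] := le_centralizer_iff.1 (C_zpowers z ▸ hA.trans h.N_le)
  have h2 : Q ⊓ C[A] ≤ C[⁅Q, A⁆] := by
    rw [le_C_iff_comm', ← le_bot_iff]
    refine three_subgroups (le_N_of_normal _ _) (le_N_of_normal _ _) (le_N_of_normal _ _) ?_ ?_
    · rw [le_C_iff_comm'.1 inf_le_right, commutator_bot_left]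
    · exact (commutator_mono ((commutator_mono inf_le_left le_rfl).trans h.comm_le) le_rfl).trans
        (le_C_iff_comm.1 hz).le
  have h3 : ⁅Q, A⁆ ≤ Q := comm_le_of_le_N hA
  have h4 : ∀ x ∈ Q, x ∈ C[⁅Q, A⁆] → x ∈ C[Q ⊓ C[A]] → x ∈ zpowers z := fun x hx e1 e2 =>
    h.center ▸ ⟨hx, by rw [← h1, C_sup]; exact ⟨e1, e2⟩⟩
  refine ⟨h1, h2, or_iff_not_imp_left.2 fun hne => h.sub h3 (h.z_mem h3 (normalizer_commutator_ge_left _ _) hne)
    (fun x hx => h4 x (h3 hx.1) hx.2 (le_centralizer_iff.1 h2 hx.1)) fun e => hne ?_,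
    or_iff_not_imp_left.2 fun hne => h.sub inf_le_left ⟨h.mem, hz (mem_zpowers z)⟩
    (fun x hx => h4 x hx.1.1 (h2 hx.1) hx.2) fun e => hne (le_antisymm e (le_inf h.zle hz))⟩
  have := comm_res_res h.pgrp hA
  rw [pResidualOf_eq_self_of_coprime hc] at this
  rw [← this]
  exact le_C_iff_comm.1 (e.trans hz)

/-- a singular subgroup. -/
structure Sing (Q : G → Subgroup G) (U : Subgroup G) : Prop where
  le' : ∀ {u}, u ∈ U → u ≠ 1 → LE (Q u) u
  cj : ∀ g x, cj g (Q x) = Q (g * x * g⁻¹)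
  le : ∀ {u}, u ∈ U → u ≠ 1 → U ≤ Q u

theorem sing_of (Q : G → Subgroup G) (hQ : ∀ x, Q x = (pCore 2 (centralizer ({x} : Set G))).map (centralizer {x}).subtype)
    {z : G} (hz : orderOf z = 2) (hE : IsExtraspecial 2 (Q z)) (hC : C[Q z] ≤ Q z) {U : Subgroup G}
    (_ : ∀ u ∈ U, u * u = 1) (hS : ∀ u ∈ U, u ≠ 1 → ∃ g : G, g * z * g⁻¹ = u)
    (hO : ∀ u ∈ U, ∀ v ∈ U, u ≠ 1 → v ≠ 1 → v ∈ Q u) : Sing Q U := by
  have h1 : ∀ g x, cj g (Q x) = Q (g * x * g⁻¹) := fun g x => by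
    rw [hQ, hQ, ← cj_centralizer_singleton]; exact cj_pCoreOf g _
  refine ⟨fun {u} hu h2 => ?_, h1, fun {u} hu h2 v hv => ?_⟩
  · obtain ⟨g, rfl⟩ := hS u hu h2
    rw [← h1]
    rw [hQ] at hE hC ⊢
    exact (le_of_pCore hz hE hC).cj g
  · by_cases e : v = 1
    · exact e ▸ one_mem _
    · exact hO u hu v hv h2 e

namespace Sing

variable {Q : G → Subgroup G} {U : Subgroup G} (H : Sing Q U)
include H

omit [Finite G] in
theorem le_N {u : G} (hu : u ∈ U) (h1 : u ≠ 1) : Q u ≤ N[U] := (H.le' hu h1).le_N_of_mem (H.le hu h1) hu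

omit [Finite G] in
theorem L_le_N : (⨆ u ∈ ((U : Set G) \ {1}), Q u) ≤ N[U] := iSup₂_le fun _ hu => H.le_N hu.1 hu.2

omit [Finite G] in
theorem inf_le {u v x : G} (hu : u ∈ U) (hv : v ∈ U) (h1 : x ∈ Q u) (h2 : x ∈ Q v) : u * v = 1 ∨ x ∈ Q (u * v) := by
  by_cases e1 : u = 1
  · rw [e1, one_mul]; exact .inr h2
  by_cases e2 : v = 1
  · rw [e2, mul_one]; exact .inr h1
  have k := H.le' hu e1
  have k' := H.le' hv e2
  by_cases e : v = u
  · exact .inl (e ▸ k'.zz)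
  obtain ⟨q, hq, e3⟩ := k.exists_conj le_rfl (H.le hu e1 hv) (k.not_mem_C (H.le hu e1 hv) k'.zz e2 e)
  rw [← k.comm_z (H.le hu e1 hv), ← e3, ← H.cj, mem_cj]
  rcases k.conj (inv_mem hq) h1 with e4 | e4 <;> rw [inv_inv] at e4 <;> rw [e4]
  exacts [.inr h2, .inr (mul_mem h2 (H.le hv e2 hu))]

theorem aut (φ : U ≃* U) : ∃ g ∈ ⨆ u ∈ ((U : Set G) \ {1}), Q u, ∀ u : U, g * (u : G) * g⁻¹ = φ u := by
  suffices ∀ W : Subgroup U, ∀ φ : U ≃* U, (∀ w ∈ W, φ w = w) →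
      ∃ g ∈ ⨆ u ∈ ((U : Set G) \ {1}), Q u, ∀ u : U, g * (u : G) * g⁻¹ = φ u from
    this ⊥ φ fun w hw => by rw [mem_bot.1 hw, map_one]
  have sq : ∀ u : U, u * u = 1 := fun u => by
    by_cases e : (u : G) = 1
    · rw [show u = 1 from Subtype.ext e, mul_one]
    · exact Subtype.ext (H.le' u.2 e).zz
  have inv : ∀ u : U, u⁻¹ = u := fun u => inv_eq_of_mul_eq_one_right (sq u)
  have comm : ∀ u v : U, u * v = v * u := fun u v => by rw [← inv (u * v), mul_inv_rev, inv, inv]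
  intro W
  induction W using subgroup_gt_induction with
  | h W ih =>
  intro φ hφ
  by_cases hW : ∀ x, φ x = x
  · exact ⟨1, one_mem _, fun u => by simp [hW]⟩
  push Not at hW
  obtain ⟨x, hx⟩ := hW
  have hxW : x ∉ W := fun e => hx (hφ x e)
  have h1 : ((x * φ x : U) : G) ≠ 1 := fun e => hx (by
    rw [← inv_eq_of_mul_eq_one_right (show x * φ x = 1 from Subtype.ext e), inv])
  have k := H.le' (x * φ x).2 h1
  obtain ⟨q, hq, e⟩ := k.exists_conj_perp (A := W.map U.subtype) ((map_subtype_le W).trans (H.le (x * φ x).2 h1))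
    (H.le (x * φ x).2 h1 x.2) (fun hm => by
      obtain ⟨_, ⟨a, ha, rfl⟩, b, hb, e⟩ := (mem_sup_of_le_N (le_N_zpowers (((map_subtype_le W).trans
        (H.le (x * φ x).2 h1)).trans k.le_Cz))).1 hm
      rcases (mem_zp2 k.zz).1 hb with rfl | rfl
      · exact hxW (Subtype.ext (mul_one (a : G) ▸ e) ▸ ha)
      · have e' : a * (x * φ x) = x := Subtype.ext e
        rw [comm x, ← mul_assoc, mul_eq_right, ← hφ a ha, ← map_mul, φ.map_eq_one_iff] at e'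
        exact hxW (eq_inv_of_mul_eq_one_right e' ▸ inv_mem ha))
  have hqN := H.le_N (x * φ x).2 h1 hq.1
  let ψ : U ≃* U := U.normalizerMonoidHom ⟨q, hqN⟩
  have hψ : ∀ u : U, (ψ u : G) = q * u * q⁻¹ := fun u => rfl
  obtain ⟨g, hg, e2⟩ := ih (W ⊔ zpowers x) (left_lt_sup.2 fun e => hxW (e (mem_zpowers x))) (φ.trans ψ.symm) (by
    have : W ⊔ zpowers x ≤ MonoidHom.eqLocus (φ.trans ψ.symm).toMonoidHom (MonoidHom.id U) := by
      refine sup_le (fun w hw => ?_) (zpowers_le.2 ?_)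
      · show ψ.symm (φ w) = w
        rw [hφ w hw, ψ.symm_apply_eq]
        exact Subtype.ext (by rw [hψ, ← mem_C.1 hq.2 w ⟨w, hw, rfl⟩]; simp)
      · show ψ.symm (φ x) = x
        rw [ψ.symm_apply_eq]
        refine Subtype.ext ?_
        rw [hψ, e, ← coe_mul, ← mul_assoc, sq, one_mul]
    exact this)
  refine ⟨q * g, mul_mem (le_iSup₂ (f := fun u _ => Q u) _ ⟨(x * φ x).2, h1⟩ hq.1) hg, fun u => ?_⟩
  rw [show q * g * u * (q * g)⁻¹ = q * (g * u * g⁻¹) * q⁻¹ by group, e2, ← hψ]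
  simp

end Sing

end Cfsg.Agent.H29
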