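import Mathlib
import Cfsg.Agent.BS.BInd
import Cfsg.Agent.BS.BInd1

/-! A counting obstruction for strongly embedded subgroups of index `3 p`. -/

set_option autoImplicit false
set_option linter.unusedVariables false
set_option linter.style.haveILetI false

namespace Cfsg.Agent.H29.Tp

open Cfsg Subgroup MulAction

theorem three_sq {n c : ℕ} (hn : n ≠ 0) : 3 * n ^ 2 ≠ c ^ 2 := fun e => by
  have hc : c ≠ 0 := by rintro rfl; simp [hn] at e
  have := congrArg (fun m => m.factorization 3) e
  simp only [Nat.factorization_mul three_ne_zero (pow_ne_zero 2 hn), Nat.factorization_pow, Finsupp.add_apply,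
    Finsupp.smul_apply, Nat.prime_three.factorization_self, smul_eq_mul] at this
  omega

theorem tpC {G : Type*} [Group G] [Finite G] [IsSimpleGroup G] (hG : ¬ IsMulCommutative G) {p : ℕ} (hp3 : 3 < p)
    (M : Subgroup G) (hM : IsStronglyEmbedded M) (hi : M.index = 3 * p) (u : G) (hu : orderOf u = 2) {c : ℕ}
    (hc : Nat.card (centralizer ({u} : Set G)) = c) : Nat.card G * (3 * p - 1) ≠ p * c ^ 2 * (3 * p - 2) := by
  intro e
  obtain ⟨S, -, hS⟩ := BS.bender_simple hG hM
  obtain ⟨g, hg⟩ := S.exists_conj_invol (u := S.s) (v := u) S.s_ne_one S.ss (by rintro rfl; simp at hu)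
    (by rw [← sq, ← hu, pow_orderOf_eq_one])
  have cm : ∀ (x : S.Q) (v : S.V), g * (x * v) * g⁻¹ ∈ centralizer ({u} : Set G) := fun x v => by
    rw [mem_centralizer_singleton_iff, ← hg, conj_mul, conj_mul, mul_assoc (x : G), (S.V_comm v.2).1, ← mul_assoc (x : G),
      ← S.Q0_comm S.s_mem_Q0 x.2, mul_assoc S.s]
  have h1 : Nat.card S.Q * Nat.card S.V ≤ c := by
    rw [← hc, ← Nat.card_prod]
    refine Nat.card_le_card_of_injective (fun y => (⟨_, cm y.1 y.2⟩ : centralizer ({u} : Set G))) fun y z k => ?_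
    have := S.mul_unique y.1.2 z.1.2 (S.mem_V.1 y.2.2).1 (S.mem_V.1 z.2.2).1
      (mul_left_cancel (mul_right_cancel (congrArg Subtype.val k)))
    exact Prod.ext (Subtype.ext this.1) (Subtype.ext this.2)
  have h4 := S.four_le_q
  have hv : 0 < Nat.card S.V := Nat.card_pos
  replace hi : Nat.card S.Q + 1 = 3 * p := S.index_H.symm.trans ((congrArg Subgroup.index hS).trans hi)
  rw [S.card_G, S.card_D, S.card_K, S.card_I0, hi, show 3 * p - 1 = Nat.card S.Q by omega,
    show 3 * p - 2 = Nat.card S.Q - 1 by omega] at e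
  have e1 : 3 * Nat.card S.Q ^ 2 * Nat.card S.V * (S.q - 1) = c ^ 2 * (Nat.card S.Q - 1) :=
    Nat.eq_of_mul_eq_mul_left (show 0 < p by omega) (by linarith)
  have big : S.q ^ 2 ≤ Nat.card S.Q → False := fun k => by
    generalize Nat.card S.Q = n at *
    generalize Nat.card S.V = v at *
    generalize S.q = q at *
    obtain ⟨q, rfl⟩ : ∃ r, q = r + 1 := ⟨q - 1, by omega⟩
    obtain ⟨n, rfl⟩ : ∃ r, n = r + 1 := ⟨n - 1, by omega⟩
    simp only [Nat.add_sub_cancel] at e1
    have k1 : ((n + 1) * v) ^ 2 * n ≤ c ^ 2 * n := Nat.mul_le_mul_right _ (Nat.pow_le_pow_left h1 2)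
    have k2 : v * n ≤ 3 * q := Nat.le_of_mul_le_mul_left (c := (n + 1) ^ 2 * v)
      (calc _ = ((n + 1) * v) ^ 2 * n := by ring
        _ ≤ _ := k1.trans_eq e1.symm
        _ = _ := by ring) (by positivity)
    nlinarith [Nat.le_mul_of_pos_left n hv]
  rcases S.known.2 with k | k | k
  · rw [k.V_eq, card_bot, mul_one, show S.q = Nat.card S.Q by rw [k.Q_eq]] at e1
    exact three_sq Nat.card_pos.ne' (Nat.eq_of_mul_eq_mul_right (by omega) e1)
  · exact big k.card.ge
  · exact big ((Nat.pow_le_pow_right (by omega) (by omega)).trans k.card.ge)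

end Cfsg.Agent.H29.Tp
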