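import Mathlib
import Cfsg.Agent.H22.Cop
import Cfsg.Agent.H3.Cyclic
import Cfsg.Agent.H29.ES

/-! Involutions acting on elementary abelian 2-groups. -/

set_option autoImplicit false

namespace Cfsg.Agent.H29

open Cfsg Cfsg.Agent.H22 Subgroup
open scoped commutatorElement

variable {G : Type*} [Group G] [Finite G]

theorem card_le_sq {F : Subgroup G} (hF : IsElementaryAbelian 2 F) {x : G} (hx : x ∈ N[F])
    (hxx : x * x ∈ C[F]) : Nat.card F ≤ Nat.card ↥(F ⊓ centralizer {x}) ^ 2 := by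
  obtain ⟨hc, h2⟩ := elemAb_iff.1 hF
  have hcm : ∀ a ∈ F, ∀ b ∈ F, a * b = b * a := fun a ha b hb => mem_C.1 (hc hb) a ha
  have hsq : ∀ a ∈ F, a * a = 1 := fun a ha => by rw [← pow_two]; exact h2 a ha
  let φ : F →* G := MonoidHom.mk' (fun f => (f : G) * (x * f * x⁻¹)) fun a b => by
    have h1 := hcm _ b.2 _ (conj_mem_of_N hx a.2)
    push_cast
    calc (a : G) * b * (x * (a * b) * x⁻¹) = a * (b * (x * a * x⁻¹)) * (x * b * x⁻¹) := by group
      _ = _ := by rw [h1]; group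
  have hφ : ∀ f : F, φ f = (f : G) * (x * f * x⁻¹) := fun _ => rfl
  have hk : φ.ker ≤ (F ⊓ centralizer {x}).subgroupOf F := fun f hf => by
    rw [MonoidHom.mem_ker, hφ] at hf
    refine mem_subgroupOf.2 ⟨f.2, mem_C1.2 ?_⟩
    have h3 : x * f * x⁻¹ = f := by
      rw [← mul_right_inj (f : G), hf, hsq _ f.2]
    calc (f : G) * x = x * f * x⁻¹ * x := by rw [h3]
      _ = _ := by group
  have hr : φ.range ≤ F ⊓ centralizer {x} := by
    rintro _ ⟨f, rfl⟩
    refine ⟨mul_mem f.2 (conj_mem_of_N hx f.2), mem_C1.2 ?_⟩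
    rw [hφ]
    have h3 := mem_C.1 hxx f f.2
    have h4 := hcm _ f.2 _ (conj_mem_of_N hx f.2)
    calc (f : G) * (x * f * x⁻¹) * x = x * f * x⁻¹ * f * x := by rw [h4]
      _ = x * f * x⁻¹ * (f * (x * x)) * x⁻¹ := by group
      _ = _ := by rw [h3]; group
  have h1 := card_mul_index φ.ker
  rw [index_ker] at h1
  have h3 := card_le_of_le hk
  rw [Nat.card_congr (subgroupOfEquivOfLe inf_le_left).toEquiv] at h3
  rw [← h1, pow_two]
  exact Nat.mul_le_mul h3 (card_le_of_le hr)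

theorem card_le_pow {A : Subgroup G} (hA : IsElementaryAbelian 2 A) (n : ℕ) :
    ∀ {F B : Subgroup G}, IsElementaryAbelian 2 F → A ≤ N[F] → B ≤ A → B ≤ C[F] →
      Nat.card A ≤ 2 ^ n * Nat.card B → Nat.card F ≤ Nat.card ↥(F ⊓ C[A]) ^ 2 ^ n := by
  obtain ⟨hc, h2⟩ := elemAb_iff.1 hA
  induction n with
  | zero =>
    intro F B _ _ hBA hBF hn
    obtain rfl : B = A := eq_of_le_of_card_ge hBA (by simpa using hn)
    rw [inf_eq_left.2 (le_centralizer_iff.1 hBF)]; simp
  | succ n ih =>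
    intro F B hF hN hBA hBF hn
    by_cases h : A ≤ B
    · rw [inf_eq_left.2 (le_centralizer_iff.1 (h.trans hBF))]
      exact Nat.le_self_pow (by positivity) _
    obtain ⟨x, hxA, hxB⟩ := SetLike.not_le_iff_exists.1 h
    have h1 := card_le_sq hF (hN hxA) (by rw [← pow_two, h2 x hxA]; exact one_mem _)
    have h3 := H3.card_sup_zpowers_of_elemAb (p := 2) (h2 x hxA) (C_anti hBA (hc hxA)) hxB
    have h4 := ih (F := F ⊓ centralizer {x}) (B := B ⊔ zpowers x) (elemAb_le hF inf_le_left)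
      (le_N_inf hN (by
        rw [← C_zpowers]
        exact le_N_C ((hc.trans (C_anti (zpowers_le_of_mem hxA))).trans (C_le_N _))))
      (sup_le hBA (zpowers_le_of_mem hxA))
      (sup_le (hBF.trans (C_anti inf_le_left))
        (le_centralizer_iff.1 (by rw [C_zpowers]; exact inf_le_right)))
      (by rw [h3]; calc _ ≤ _ := hn
        _ = _ := by ring)
    have h5 : Nat.card ↥(F ⊓ centralizer {x} ⊓ C[A]) ≤ Nat.card ↥(F ⊓ C[A]) :=
      card_le_of_le (inf_le_inf_right _ inf_le_left)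
    calc Nat.card F ≤ _ := h1
      _ ≤ (Nat.card ↥(F ⊓ C[A]) ^ 2 ^ n) ^ 2 :=
        Nat.pow_le_pow_left (h4.trans (Nat.pow_le_pow_left h5 _)) _
      _ = _ := by rw [← pow_mul, ← pow_succ]

end Cfsg.Agent.H29
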